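import Mathlib
import Cfsg.Agent.Lib.StdInt.Half

/-!
# The Weyl group of type `E₈` as a permutation group on its 240 roots

Coordinates are doubled: the roots are `±2eᵢ ± 2eⱼ` and the `(±1)⁸` with an even number of minus signs.
-/

set_option autoImplicit false

namespace CfsgLib.StdE8

open Subgroup Equiv

abbrev V : Type := Fin 8 → ℤ

/-- four times the inner product -/
def dot (u v : V) : ℤ :=
  u 0 * v 0 + u 1 * v 1 + u 2 * v 2 + u 3 * v 3 + u 4 * v 4 + u 5 * v 5 + u 6 * v 6 + u 7 * v 7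

/-- the lattice -/
def InL (v : V) : Prop := (∀ i, (v i - v 0) % 2 = 0) ∧ (v 0 + v 1 + v 2 + v 3 + v 4 + v 5 + v 6 + v 7) % 4 = 0

def IsRoot (v : V) : Prop := InL v ∧ dot v v = 8

instance : DecidablePred InL := fun _ => inferInstanceAs (Decidable (_ ∧ _))

instance : DecidablePred IsRoot := fun _ => inferInstanceAs (Decidable (_ ∧ _))

abbrev R : Type := {v : V // IsRoot v}

theorem dot_comm (u v : V) : dot u v = dot v u := by simp only [dot]; ring

theorem dot_eq_sum (u v : V) : dot u v = ∑ i, u i * v i := by rw [Fin.sum_univ_eight]; rfl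

theorem dot_add (u v w : V) : dot (u + v) w = dot u w + dot v w := by simp only [dot, Pi.add_apply]; ring

theorem dot_sub (u v w : V) : dot (u - v) w = dot u w - dot v w := by simp only [dot, Pi.sub_apply]; ring

theorem dot_neg (u w : V) : dot (-u) w = -dot u w := by simp only [dot, Pi.neg_apply]; ring

theorem dot_smul (c : ℤ) (u w : V) : dot (c • u) w = c * dot u w := by
  simp only [dot, Pi.smul_apply, smul_eq_mul]; ring

theorem InL.dot_mod {u v : V} (hu : InL u) (hv : InL v) : 4 ∣ dot u v := by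
  choose a ha using fun i => Int.dvd_of_emod_eq_zero (hu.1 i)
  choose b hb using fun i => Int.dvd_of_emod_eq_zero (hv.1 i)
  have h1 : ∀ i, u i = u 0 + 2 * a i := fun i => by linarith [ha i]
  have h2 : ∀ i, v i = v 0 + 2 * b i := fun i => by linarith [hb i]
  obtain ⟨A, hA⟩ : 2 ∣ a 1 + a 2 + a 3 + a 4 + a 5 + a 6 + a 7 := by
    have := hu.2
    rw [h1 1, h1 2, h1 3, h1 4, h1 5, h1 6, h1 7] at this
    omega
  obtain ⟨B, hB⟩ : 2 ∣ b 1 + b 2 + b 3 + b 4 + b 5 + b 6 + b 7 := by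
    have := hv.2
    rw [h2 1, h2 2, h2 3, h2 4, h2 5, h2 6, h2 7] at this
    omega
  refine ⟨2 * u 0 * v 0 + u 0 * B + v 0 * A +
    (a 1 * b 1 + a 2 * b 2 + a 3 * b 3 + a 4 * b 4 + a 5 * b 5 + a 6 * b 6 + a 7 * b 7), ?_⟩
  rw [dot, h1 1, h1 2, h1 3, h1 4, h1 5, h1 6, h1 7, h2 1, h2 2, h2 3, h2 4, h2 5, h2 6, h2 7]
  linear_combination 2 * u 0 * hB + 2 * v 0 * hA

theorem InL.sub_smul {u v : V} (hu : InL u) (hv : InL v) (c : ℤ) : InL (u - c • v) := by
  choose b hb using fun i => Int.dvd_of_emod_eq_zero (hv.1 i)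
  obtain ⟨B, hB⟩ := Int.dvd_of_emod_eq_zero hv.2
  refine ⟨fun i => ?_, ?_⟩
  · have h1 := hu.1 i
    have h2 : (u - c • v) i - (u - c • v) 0 = u i - u 0 - 2 * (c * b i) := by
      simp only [Pi.sub_apply, Pi.smul_apply, smul_eq_mul]; linear_combination -c * hb i
    omega
  · have h1 := hu.2
    have h2 : (u - c • v) 0 + (u - c • v) 1 + (u - c • v) 2 + (u - c • v) 3 + (u - c • v) 4 + (u - c • v) 5 +
        (u - c • v) 6 + (u - c • v) 7 = u 0 + u 1 + u 2 + u 3 + u 4 + u 5 + u 6 + u 7 - 4 * (c * B) := by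
      simp only [Pi.sub_apply, Pi.smul_apply, smul_eq_mul]; linear_combination -c * hB
    omega

/-- the Weyl group: the permutations of the roots that keep the inner product -/
def X : Subgroup (Perm R) where
  carrier := {g | ∀ u v : R, dot (g u) (g v) = dot u v}
  one_mem' := fun _ _ => rfl
  mul_mem' := fun {g h} hg hh u v => (hg (h u) (h v)).trans (hh u v)
  inv_mem' := fun {g} hg u v => by simpa using (hg (g⁻¹ u) (g⁻¹ v)).symm

/-- action on the roots -/
def ap (g : X) (v : R) : R := (g : Perm R) v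

theorem ap_mul (g h : X) (v : R) : ap (g * h) v = ap g (ap h v) := rfl

theorem ap_one (v : R) : ap 1 v = v := rfl

theorem dot_ap (g : X) (u v : R) : dot (ap g u) (ap g v) = dot u v := g.2 u v

theorem ap_inv_ap (g : X) (v : R) : ap g⁻¹ (ap g v) = v := by rw [← ap_mul, inv_mul_cancel, ap_one]

theorem ap_ap_inv (g : X) (v : R) : ap g (ap g⁻¹ v) = v := by rw [← ap_mul, mul_inv_cancel, ap_one]

theorem ap_inj {g : X} {u v : R} (h : ap g u = ap g v) : u = v := (g : Perm R).injective h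

theorem X.ext {g h : X} (e : ∀ v, ap g v = ap h v) : g = h := Subtype.ext (Equiv.ext e)

/-- an element of `X` from a pair of maps -/
def mkX (f g : V → V) (hf : ∀ v, InL v → InL (f v)) (hg : ∀ v, InL v → InL (g v))
    (hd : ∀ u v, InL u → InL v → dot (f u) (f v) = dot u v) (h1 : ∀ v, InL v → f (g v) = v)
    (h2 : ∀ v, InL v → g (f v) = v) : X :=
  ⟨⟨fun v => ⟨f v, hf _ v.2.1, (hd _ _ v.2.1 v.2.1).trans v.2.2⟩,
    fun v => ⟨g v, hg _ v.2.1, by rw [← hd _ _ (hg _ v.2.1) (hg _ v.2.1), h1 _ v.2.1]; exact v.2.2⟩,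
    fun v => Subtype.ext (h2 _ v.2.1), fun v => Subtype.ext (h1 _ v.2.1)⟩, fun u v => hd _ _ u.2.1 v.2.1⟩

/-- the reflection in `a`, on vectors -/
def rfV (a v : V) : V := v - (dot v a / 4) • a

theorem dot_rfV {a u v : V} (ha : IsRoot a) (hu : InL u) (hv : InL v) : dot (rfV a u) (rfV a v) = dot u v := by
  obtain ⟨x, hx⟩ := hu.dot_mod ha.1
  obtain ⟨y, hy⟩ := hv.dot_mod ha.1
  rw [rfV, rfV, dot_sub, dot_smul, dot_comm u, dot_comm a, dot_sub, dot_sub, dot_smul, dot_smul, dot_comm a u, hx, hy,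
    ha.2, Int.mul_ediv_cancel_left _ (by norm_num), Int.mul_ediv_cancel_left _ (by norm_num), dot_comm]
  ring

theorem rfV_rfV {a v : V} (ha : IsRoot a) (hv : InL v) : rfV a (rfV a v) = v := by
  obtain ⟨y, hy⟩ := hv.dot_mod ha.1
  have h : dot (rfV a v) a = 4 * -y := by
    rw [rfV, dot_sub, dot_smul, hy, ha.2, Int.mul_ediv_cancel_left _ (by norm_num)]; ring
  rw [rfV, h, rfV, hy, Int.mul_ediv_cancel_left _ (by norm_num), Int.mul_ediv_cancel_left _ (by norm_num), neg_smul,
    sub_neg_eq_add, sub_add_cancel]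

/-- the reflection in the root `a` -/
def rf (a : R) : X :=
  mkX (rfV a) (rfV a) (fun _ h => h.sub_smul a.2.1 _) (fun _ h => h.sub_smul a.2.1 _) (fun _ _ => dot_rfV a.2)
    (fun _ => rfV_rfV a.2) fun _ => rfV_rfV a.2

theorem ap_rf (a v : R) : (ap (rf a) v : V) = rfV a v := rfl

/-- signs: `sv S i = -1` for `i ∈ S` -/
def sv (S : Finset (Fin 8)) (i : Fin 8) : ℤ := if i ∈ S then -1 else 1

theorem sv_sq (S : Finset (Fin 8)) (i : Fin 8) : sv S i * sv S i = 1 := by unfold sv; split_ifs <;> rfl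

theorem InL.iff_sum {v : V} : InL v ↔ (∀ i j, 2 ∣ v i - v j) ∧ 4 ∣ ∑ i, v i := by
  rw [Fin.sum_univ_eight]
  refine and_congr ⟨fun h i j => ?_, fun h i => Int.emod_eq_zero_of_dvd (h i 0)⟩ Int.dvd_iff_emod_eq_zero.symm
  have h1 := h i
  have h2 := h j
  omega

theorem InL.sg {v : V} (hv : InL v) {S : Finset (Fin 8)} (hS : Even S.card) : InL fun i => sv S i * v i := by
  obtain ⟨h1, h2⟩ := InL.iff_sum.1 hv
  refine InL.iff_sum.2 ⟨fun i j => ?_, ?_⟩
  · have := h1 i j
    unfold sv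
    split_ifs <;> omega
  · have h3 : ∑ i, sv S i * v i = ∑ i, v i - 2 * ∑ i ∈ S, v i := by
      rw [← Finset.sum_filter_add_sum_filter_not Finset.univ (· ∈ S),
        ← Finset.sum_filter_add_sum_filter_not Finset.univ (· ∈ S) v,
        Finset.sum_congr rfl fun i hi => by rw [sv, if_pos (Finset.mem_filter.1 hi).2, neg_one_mul],
        Finset.sum_congr (s₁ := Finset.univ.filter fun i => ¬i ∈ S) rfl fun i hi => by
          rw [sv, if_neg (Finset.mem_filter.1 hi).2, one_mul], Finset.sum_neg_distrib]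
      simp only [Finset.filter_mem_eq_inter, Finset.univ_inter]
      ring
    have h4 : 2 ∣ ∑ i ∈ S, v i := by
      obtain ⟨k, hk⟩ := hS
      have h5 : ∑ i ∈ S, v i = ∑ i ∈ S, (v i - v 0) + 2 * (k * v 0) := by
        rw [Finset.sum_sub_distrib, Finset.sum_const, hk]; simp; ring
      rw [h5]
      exact dvd_add (Finset.dvd_sum fun i _ => h1 i 0) ⟨_, rfl⟩
    rw [h3]
    omega

/-- the sign change on an even set of coordinates -/
def sg (S : Finset (Fin 8)) (hS : Even S.card) : X :=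
  mkX (fun v i => sv S i * v i) (fun v i => sv S i * v i) (fun _ h => h.sg hS) (fun _ h => h.sg hS)
    (fun u v _ _ => by
      rw [dot_eq_sum, dot_eq_sum]
      exact Finset.sum_congr rfl fun i _ => by linear_combination u i * v i * sv_sq S i)
    (fun v _ => funext fun i => by rw [← mul_assoc, sv_sq, one_mul])
    fun v _ => funext fun i => by rw [← mul_assoc, sv_sq, one_mul]

theorem ap_sg (S : Finset (Fin 8)) (hS : Even S.card) (v : R) (i : Fin 8) :
    (ap (sg S hS) v : V) i = sv S i * (v : V) i := rfl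

theorem InL.pm {v : V} (hv : InL v) (σ : Perm (Fin 8)) : InL fun i => v (σ i) :=
  InL.iff_sum.2 ⟨fun _ _ => (InL.iff_sum.1 hv).1 _ _, by rw [Equiv.sum_comp σ v]; exact (InL.iff_sum.1 hv).2⟩

/-- the permutation of the coordinates `eᵢ ↦ e_(σ i)` -/
def pm (σ : Perm (Fin 8)) : X :=
  mkX (fun v i => v (σ⁻¹ i)) (fun v i => v (σ i)) (fun _ h => h.pm _) (fun _ h => h.pm _)
    (fun u v _ _ => by rw [dot_eq_sum, dot_eq_sum, Equiv.sum_comp σ⁻¹ fun i => u i * v i])
    (fun v _ => funext fun i => by simp) fun v _ => funext fun i => by simp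

theorem ap_pm (σ : Perm (Fin 8)) (v : R) (i : Fin 8) : (ap (pm σ) v : V) i = (v : V) (σ⁻¹ i) := rfl

/-- `-1` -/
def t : X := sg Finset.univ (by decide)

/-- the subgroup `2.Ω₈⁺(2)` -/
def L : Subgroup X := commutator X

instance : L.Normal := inferInstanceAs (commutator X).Normal

/-- a vector from a list -/
def mk (l : List ℤ) : V := fun i => l.getD i 0

/-- a root from a list -/
def rt (l : List ℤ) (h : IsRoot (mk l) := by decide) : R := ⟨mk l, h⟩

/-- the standard frame `e₀ ∓ e₁, e₂ ∓ e₃, …` -/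
def fr : Fin 8 → R := ![rt [2, -2], rt [2, 2], rt [0, 0, 2, -2], rt [0, 0, 2, 2], rt [0, 0, 0, 0, 2, -2],
  rt [0, 0, 0, 0, 2, 2], rt [0, 0, 0, 0, 0, 0, 2, -2], rt [0, 0, 0, 0, 0, 0, 2, 2]]

/-- type `a`: `-1` on a plane -/
def xa : X := sg {0, 1} (by decide)

/-- type `b`: `-1` on a sublattice `D₄` -/
def xb : X := sg {0, 1, 2, 3} (by decide)

/-- type `c`: `-1` on a sublattice `A₁⁴` -/
def xc : X := sg {0, 1} (by decide) * pm (swap 0 1 * swap 2 3 * swap 4 5 * swap 6 7)

/-- type `i`: a square root of `-1` -/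
def xi : X := sg {0, 2, 4, 6} (by decide) * pm (swap 0 1 * swap 2 3 * swap 4 5 * swap 6 7)

/-- a reflection -/
def xr : X := pm (swap 0 1)

/-- a product of three reflections -/
def xf : X := pm (swap 0 1 * swap 2 3 * swap 4 5)

end CfsgLib.StdE8
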