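import Mathlib
import Cfsg.Agent.Lib.StdE8.Defs

/-!
# Basic facts on `W(E₈)`: reflections and monomial elements
-/

set_option autoImplicit false

namespace CfsgLib.StdE8

open Subgroup Equiv

theorem IsRoot.bound {v : V} (h : IsRoot v) (i : Fin 8) : -2 ≤ v i ∧ v i ≤ 2 := by
  have h1 := h.2
  rw [dot_eq_sum] at h1
  have h2 : v i * v i ≤ 8 := h1 ▸ Finset.single_le_sum (f := fun i => v i * v i) (fun j _ => mul_self_nonneg _)
    (Finset.mem_univ i)
  constructor <;> nlinarith

instance : Finite R :=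
  Finite.of_injective (fun v : R => (fun i => ⟨v.1 i, Finset.mem_Icc.2 (v.2.bound i)⟩ : Fin 8 → Finset.Icc (-2 : ℤ) 2))
    fun _ _ h => Subtype.ext (funext fun i => congrArg Subtype.val (congrFun h i))

/-- a vector orthogonal to the frame vanishes -/
theorem eq_zero_of_fr {w : V} (h : ∀ j, dot w (fr j) = 0) : w = 0 := by
  have h0 := h 0; have h1 := h 1; have h2 := h 2; have h3 := h 3
  have h4 := h 4; have h5 := h 5; have h6 := h 6; have h7 := h 7
  simp [fr, rt, mk, dot] at h0 h1 h2 h3 h4 h5 h6 h7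
  funext i
  fin_cases i <;> simp <;> omega

theorem eq_of_dot {u v : V} (h : ∀ a : R, dot u a = dot v a) : u = v :=
  sub_eq_zero.1 (eq_zero_of_fr fun j => by rw [dot_sub, h, sub_self])

/-- two elements agreeing on the frame are equal -/
theorem ext_fr {g h : X} (e : ∀ j, ap g (fr j) = ap h (fr j)) : g = h := by
  have k : ∀ j, ap (h⁻¹ * g) (fr j) = fr j := fun j => by rw [ap_mul, e, ap_inv_ap]
  refine (inv_mul_eq_one.1 (X.ext fun v => Subtype.ext (sub_eq_zero.1 (eq_zero_of_fr fun j => ?_)))).symm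
  rw [dot_sub, ap_one]
  nth_rw 1 [← k j]
  rw [dot_ap, sub_self]

/-- linear relations between roots are kept -/
theorem ap_rel (g : X) {ι : Type*} (s : Finset ι) (c : ι → ℤ) (v : ι → R) (h : ∑ i ∈ s, c i • (v i : V) = 0) :
    ∑ i ∈ s, c i • (ap g (v i) : V) = 0 := by
  have k : ∀ (w : ι → V) (a : V), dot (∑ i ∈ s, c i • w i) a = ∑ i ∈ s, c i * dot (w i) a := fun w a => by
    classical
    clear h
    induction s using Finset.induction_on with
    | empty => simp [dot]
    | insert i s hi ih => rw [Finset.sum_insert hi, Finset.sum_insert hi, dot_add, dot_smul, ih]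
  refine eq_of_dot fun a => ?_
  rw [← ap_ap_inv g a, k, Finset.sum_congr rfl fun i _ => by rw [dot_ap], ← k, h]
  simp [dot]

theorem ap_t (v : R) : (ap t v : V) = -(v : V) := funext fun i => by simp [t, ap_sg, sv]

theorem ap_neg (g : X) {u v : R} (h : (u : V) = -(v : V)) : (ap g u : V) = -(ap g v : V) :=
  eq_of_dot fun a => by rw [← ap_ap_inv g a, dot_neg, dot_ap, dot_ap, h, dot_neg]

theorem t_comm (g : X) : Commute g t := X.ext fun v => Subtype.ext (by
  rw [ap_mul, ap_mul, ap_t, ap_neg g (ap_t v)])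

theorem t_sq : t * t = 1 := X.ext fun v => Subtype.ext (by rw [ap_mul, ap_t, ap_t, neg_neg, ap_one])

theorem root_ne_neg (v : R) : (v : V) ≠ -(v : V) := fun e => by
  have h := v.2.2
  have : (v : V) = 0 := funext fun i => by have := congrFun e i; simp only [Pi.neg_apply] at this; simp; omega
  rw [this] at h
  simp [dot] at h

theorem t_ne : t ≠ 1 := fun e => root_ne_neg (fr 0) (by rw [← ap_t, e, ap_one])

/-- an element fixing a root is not `-1` -/
theorem ne_t_of_fix {g : X} {v : R} (h : ap g v = v) : g ≠ t := fun e =>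
  root_ne_neg v (by rw [← ap_t, ← e, h])

theorem rf_sq (a : R) : rf a * rf a = 1 := X.ext fun v => Subtype.ext (rfV_rfV a.2 v.2.1)

theorem rf_inv (a : R) : (rf a)⁻¹ = rf a := inv_eq_of_mul_eq_one_right (rf_sq a)

theorem conj_rf (g : X) (a : R) : g * rf a * g⁻¹ = rf (ap g a) := by
  rw [mul_inv_eq_iff_eq_mul]
  refine X.ext fun v => Subtype.ext (eq_of_dot fun b => ?_)
  rw [← ap_ap_inv g b, ap_mul, ap_mul, dot_ap, ap_rf, ap_rf, rfV, rfV, dot_sub, dot_sub, dot_smul, dot_smul, dot_ap,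
    dot_ap, dot_ap]

theorem rf_self (a : R) : (ap (rf a) a : V) = -(a : V) := by
  rw [ap_rf, rfV, a.2.2]; funext i; simp; ring

theorem rf_fix {a v : R} : ap (rf a) v = v ↔ dot v a = 0 := by
  obtain ⟨y, hy⟩ := v.2.1.dot_mod a.2.1
  rw [Subtype.ext_iff, ap_rf, rfV, sub_eq_self, hy, Int.mul_ediv_cancel_left _ (by norm_num)]
  refine ⟨fun h => ?_, fun h => by rw [show y = 0 by omega, zero_smul]⟩
  have := congrArg (dot · (a : V)) h
  simp only [dot_smul, a.2.2] at this
  simp [dot] at this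
  omega

theorem rf_neg {a b : R} (h : (a : V) = -(b : V)) : rf a = rf b := X.ext fun v => Subtype.ext (by
  obtain ⟨y, hy⟩ := v.2.1.dot_mod b.2.1
  rw [ap_rf, ap_rf, rfV, rfV, h, dot_comm, dot_neg, dot_comm, hy, ← mul_neg,
    Int.mul_ediv_cancel_left _ (by norm_num), Int.mul_ediv_cancel_left _ (by norm_num), neg_smul_neg])

theorem dot_cases : ∀ u v : R, (u : V) = v ∨ (u : V) = -(v : V) ∨ dot u v = 0 ∨ dot u v = 4 ∨ dot u v = -4 := by
  intro u v
  have key : ∀ w : V, dot w w = 0 → w = 0 := fun w h => funext fun i => by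
    rw [dot_eq_sum] at h
    exact mul_self_eq_zero.1 ((Finset.sum_eq_zero_iff_of_nonneg fun j _ => mul_self_nonneg _).1 h i (Finset.mem_univ i))
  have pos : ∀ w : V, 0 ≤ dot w w := fun w => by
    rw [dot_eq_sum]; exact Finset.sum_nonneg fun j _ => mul_self_nonneg _
  have h1 : dot ((u : V) - v) ((u : V) - v) = 16 - 2 * dot u v := by
    rw [dot_sub, dot_comm (u : V), dot_comm (v : V), dot_sub, dot_sub, u.2.2, v.2.2, dot_comm (v : V)]; ring
  have h2 : dot ((u : V) + v) ((u : V) + v) = 16 + 2 * dot u v := by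
    rw [dot_add, dot_comm (u : V), dot_comm (v : V), dot_add, dot_add, u.2.2, v.2.2, dot_comm (v : V)]; ring
  obtain ⟨y, hy⟩ := u.2.1.dot_mod v.2.1
  have h3 := pos ((u : V) - v)
  have h4 := pos ((u : V) + v)
  by_cases e1 : y = 2
  · exact Or.inl (sub_eq_zero.1 (key _ (by omega)))
  by_cases e2 : y = -2
  · exact Or.inr (Or.inl (eq_neg_of_add_eq_zero_left (key _ (by omega))))
  omega

theorem rf_eq {a b : R} (h : rf a = rf b) : (a : V) = b ∨ (a : V) = -(b : V) := by
  have h1 := rf_self a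
  rw [h, ap_rf, rfV] at h1
  have h2 := congrArg (dot · (a : V)) h1
  simp only [dot_sub, dot_smul, dot_neg, a.2.2, dot_comm (b : V)] at h2
  rcases dot_cases a b with e | e | e | e | e
  exacts [Or.inl e, Or.inr e, by simp [e] at h2, by simp [e] at h2, by simp [e] at h2]

theorem rf_comm {a b : R} (h : dot a b = 0) : Commute (rf a) (rf b) := by
  exact mul_inv_eq_iff_eq_mul.1 (by rw [conj_rf, rf_fix.2 (by rwa [dot_comm])])

theorem dot_of_comm {a b : R} (h : Commute (rf a) (rf b)) (hn : rf a ≠ rf b) : dot a b = 0 := by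
  have h1 := conj_rf (rf a) b
  rw [mul_inv_eq_iff_eq_mul.2 h] at h1
  rcases rf_eq h1.symm with e | e
  · rw [dot_comm]; exact rf_fix.1 (Subtype.ext e)
  · rw [ap_rf, rfV] at e
    have h2 := congrArg (dot · (b : V)) e
    simp only [dot_sub, dot_smul, dot_neg, b.2.2, dot_comm (b : V)] at h2
    rcases dot_cases a b with e | e | e | e | e
    exacts [absurd (congrArg rf (Subtype.ext e)) hn, absurd (rf_neg e) hn, e, by simp [e] at h2, by simp [e] at h2]

theorem sg_mul (S T : Finset (Fin 8)) (hS hT) (h) : sg S hS * sg T hT = sg (symmDiff S T) h :=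
  X.ext fun v => Subtype.ext (funext fun i => by
    rw [ap_mul, ap_sg, ap_sg, ap_sg, ← mul_assoc]
    congr 1
    simp only [sv, Finset.mem_symmDiff]
    by_cases h1 : i ∈ S <;> by_cases h2 : i ∈ T <;> simp [h1, h2])

theorem sg_sq (S : Finset (Fin 8)) (hS) : sg S hS * sg S hS = 1 :=
  X.ext fun v => Subtype.ext (funext fun i => by rw [ap_mul, ap_sg, ap_sg, ← mul_assoc, sv_sq, one_mul, ap_one])

theorem sg_comm (S T : Finset (Fin 8)) (hS hT) : Commute (sg S hS) (sg T hT) :=
  X.ext fun v => Subtype.ext (funext fun i => by simp only [ap_mul, ap_sg]; ring)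

theorem pm_mul (σ τ : Perm (Fin 8)) : pm (σ * τ) = pm σ * pm τ := X.ext fun _ => rfl

theorem pm_one : pm 1 = 1 := X.ext fun _ => rfl

theorem pm_inv (σ : Perm (Fin 8)) : pm σ⁻¹ = (pm σ)⁻¹ :=
  eq_inv_of_mul_eq_one_left (by rw [← pm_mul, inv_mul_cancel, pm_one])

theorem conj_sg (σ : Perm (Fin 8)) (S : Finset (Fin 8)) (hS) (h) :
    pm σ * sg S hS * (pm σ)⁻¹ = sg (S.map σ.toEmbedding) h := by
  rw [mul_inv_eq_iff_eq_mul]
  refine X.ext fun v => Subtype.ext (funext fun i => ?_)
  rw [ap_mul, ap_mul, ap_pm, ap_sg, ap_sg, ap_pm, sv, sv]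
  simp [Perm.inv_def]

end CfsgLib.StdE8
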