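import Mathlib
import Cfsg.Agent.Lib.StdE8.Basic

/-!
# `W(E₈)`: transitivity on roots, the monomial subgroup, generation by reflections, determinant and trace
-/

set_option autoImplicit false

namespace CfsgLib.StdE8

open Subgroup Equiv

/-- the negative of a root -/
def ng (v : R) : R := ap t v

theorem ng_val (v : R) : (ng v : V) = -(v : V) := ap_t v

theorem ap_ng (g : X) (v : R) : ap g (ng v) = ng (ap g v) := by rw [ng, ng, ← ap_mul, (t_comm g).eq, ap_mul]

theorem rf_ng (a : R) : rf (ng a) = rf a := rf_neg (ng_val a)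

theorem ap_rf_self (a : R) : ap (rf a) a = ng a := Subtype.ext ((rf_self a).trans (ng_val a).symm)

theorem ng_ng (a : R) : ng (ng a) = a := Subtype.ext (by rw [ng_val, ng_val, neg_neg])

/-- the difference of two roots with inner product one -/
def dif (a b : R) (h : dot a b = 4) : R :=
  ⟨(a : V) - b, by simpa using a.2.1.sub_smul b.2.1 1, by
    rw [dot_sub, dot_comm (a : V), dot_comm (b : V), dot_sub, dot_sub, a.2.2, b.2.2, dot_comm (b : V), h]; rfl⟩

theorem ap_rf_dif (a b : R) (h : dot a b = 4) : ap (rf (dif a b h)) a = b := Subtype.ext (by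
  have : dot a (dif a b h) = 4 := by rw [dot_comm, dif, dot_sub, a.2.2, dot_comm (b : V), h]; rfl
  rw [ap_rf, rfV, this]
  simp [dif])

/-- roots that are not orthogonal are joined by reflections in roots orthogonal to a given vector `w` -/
theorem exists_of_dot {H : Subgroup X} {w : V} (hH : ∀ c : R, dot c w = 0 → rf c ∈ H) {a b : R} (ha : dot a w = 0)
    (hb : dot b w = 0) (h : dot a b ≠ 0) : ∃ g ∈ H, ap g a = b := by
  have k : ∀ b : R, dot b w = 0 → dot a b = 4 → ∃ g ∈ H, ap g a = b := fun b hb e =>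
    ⟨_, hH _ (by rw [dif, dot_sub, ha, hb]; rfl), ap_rf_dif a b e⟩
  rcases dot_cases a b with e | e | e | e | e
  · exact ⟨1, one_mem _, Subtype.ext e⟩
  · exact ⟨_, hH b hb, by rw [show a = ng b from Subtype.ext (e.trans (ng_val b).symm), ap_ng, ap_rf_self, ng_ng]⟩
  · exact absurd e h
  · exact k b hb e
  · obtain ⟨g, hg, e1⟩ := k (ng b) (by rw [ng_val, dot_neg, hb]; rfl)
      (by rw [dot_comm, ng_val, dot_neg, dot_comm, e]; rfl)
    exact ⟨_, mul_mem (hH b hb) hg, by rw [ap_mul, e1, ap_ng, ap_rf_self, ng_ng]⟩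

theorem root_ne_zero (v : R) : (v : V) ≠ 0 := fun e => root_ne_neg v (by rw [e, neg_zero])

theorem exists_link {H : Subgroup X} {w : V} (hH : ∀ c : R, dot c w = 0 → rf c ∈ H) {a b : R} (ha : dot a w = 0)
    (hb : dot b w = 0) (l : List R) (h1 : ∀ c ∈ l, dot c w = 0 ∧ dot c b ≠ 0)
    (h2 : (∀ c ∈ l, dot a c = 0) → (a : V) = 0) : ∃ g ∈ H, ap g a = b := by
  by_contra! h
  refine root_ne_zero a (h2 fun c hc => by_contra fun e => ?_)
  obtain ⟨g, hg, e1⟩ := exists_of_dot hH ha (h1 c hc).1 e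
  obtain ⟨k, hk, e2⟩ := exists_of_dot hH (h1 c hc).1 hb (h1 c hc).2
  exact h _ (mul_mem hk hg) (by rw [ap_mul, e1, e2])

theorem dot_zero (v : V) : dot v 0 = 0 := by simp [dot]

theorem exists_fr0 {H : Subgroup X} (hH : ∀ c, rf c ∈ H) (a : R) : ∃ g ∈ H, ap g a = fr 0 := by
  refine exists_link (w := 0) (fun c _ => hH c) (dot_zero _) (dot_zero _)
    [rt [2, 0, 2], rt [2, 0, -2], rt [0, 2, 2], rt [2, 0, 0, 2], rt [2, 0, 0, 0, 2], rt [2, 0, 0, 0, 0, 2],
      rt [2, 0, 0, 0, 0, 0, 2], rt [2, 0, 0, 0, 0, 0, 0, 2]] (by decide) fun h => ?_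
  simp [rt, mk, dot] at h
  funext i
  fin_cases i <;> simp <;> omega

theorem exists_fr1 {H : Subgroup X} (hH : ∀ c : R, dot c (fr 0) = 0 → rf c ∈ H) {a : R} (ha : dot a (fr 0) = 0) :
    ∃ g ∈ H, ap g a = fr 1 := by
  refine exists_link hH ha (by decide)
    [fr 1, rt [1, 1, 1, 1, 1, 1, 1, 1], rt [1, 1, -1, -1, 1, 1, 1, 1], rt [1, 1, 1, -1, -1, 1, 1, 1],
      rt [1, 1, -1, 1, -1, 1, 1, 1], rt [1, 1, -1, 1, 1, -1, 1, 1], rt [1, 1, -1, 1, 1, 1, -1, 1],
      rt [1, 1, -1, 1, 1, 1, 1, -1]] (by decide) fun h => ?_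
  simp [fr, rt, mk, dot] at h ha
  funext i
  fin_cases i <;> simp <;> omega

/-- transitivity on ordered pairs of orthogonal roots -/
theorem exists_fr01 {H : Subgroup X} (hH : ∀ c, rf c ∈ H) {a b : R} (h : dot a b = 0) :
    ∃ g ∈ H, ap g a = fr 0 ∧ ap g b = fr 1 := by
  obtain ⟨g, hg, e⟩ := exists_fr0 hH a
  obtain ⟨k, hk, e1⟩ := exists_fr1 (H := H ⊓ (MulAction.stabilizer (Perm R) (fr 0)).comap X.subtype)
    (fun c hc => ⟨hH c, rf_fix.2 (by rwa [dot_comm])⟩) (a := ap g b) (by rw [← e, dot_ap, dot_comm, h])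
  exact ⟨k * g, mul_mem hk.1 hg, by rw [ap_mul, e]; exact hk.2, by rw [ap_mul, e1]⟩

theorem exists_ap (a b : R) : ∃ g, ap g a = b := by
  obtain ⟨g, -, e⟩ := exists_fr0 (H := ⊤) (fun _ => trivial) a
  obtain ⟨k, -, e1⟩ := exists_fr0 (H := ⊤) (fun _ => trivial) b
  exact ⟨k⁻¹ * g, by rw [ap_mul, e, ← e1, ap_inv_ap]⟩

theorem exists_ap2 {a b : R} (h : dot a b = 0) : ∃ g, ap g a = fr 0 ∧ ap g b = fr 1 :=
  (exists_fr01 (H := ⊤) (fun _ => trivial) h).imp fun _ h => h.2

/-- a reflection is not the negative of a reflection -/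
theorem rf_ne_mul_t (a b : R) : rf a ≠ rf b * t := fun e => by
  obtain ⟨g, e0⟩ := exists_ap a (fr 0)
  have e1 : rf (fr 0) = rf (ap g b) * t := by
    rw [← e0, ← conj_rf, ← conj_rf, e, ← mul_assoc, mul_assoc _ t, mul_assoc _ _ t, (t_comm g⁻¹).eq]
  generalize ap g b = b at e1
  have h : ∀ v : R, dot v (fr 0) = 0 → (v : V) = b ∨ (v : V) = -(b : V) := fun v hv => by
    have h1 := congrArg Subtype.val (rf_fix.2 hv)
    rw [e1, (t_comm _).eq, ap_mul, ap_t, ap_rf, rfV] at h1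
    have h2 := congrArg (dot · (v : V)) h1
    simp only [dot_sub, dot_smul, dot_neg, v.2.2, dot_comm (b : V)] at h2
    rcases dot_cases v b with e | e | e | e | e
    exacts [Or.inl e, Or.inr e, by simp [e] at h2, by simp [e] at h2, by simp [e] at h2]
  have h3 : dot (fr 1) (fr 2) = 0 := by decide
  have h6 := b.2.2
  rcases h (fr 1) (by decide) with h4 | h4 <;> rcases h (fr 2) (by decide) with h5 | h5 <;>
    simp only [h4, h5, dot_neg, dot_comm (b : V) (-_), h6] at h3 <;> omega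

/-! ### Monomial elements -/

/-- `g` is a signed permutation of the coordinates -/
def Mono (g : X) : Prop := ∃ S hS σ, g = sg S hS * pm σ

theorem ap_mono (S : Finset (Fin 8)) (hS) (σ : Perm (Fin 8)) (v : R) (i : Fin 8) :
    (ap (sg S hS * pm σ) v : V) i = sv S i * (v : V) (σ⁻¹ i) := rfl

theorem sg_congr {S T : Finset (Fin 8)} (hS) (h : S = T) : sg S hS = sg T (h ▸ hS) := by subst h; rfl

theorem sg_empty (h) : sg ∅ h = 1 := X.ext fun v => Subtype.ext (funext fun i => by simp [ap_sg, sv, ap_one])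

theorem even_map (σ : Perm (Fin 8)) {S : Finset (Fin 8)} (h : Even S.card) : Even (S.map σ.toEmbedding).card := by
  rwa [Finset.card_map]

theorem even_symmDiff {S T : Finset (Fin 8)} (hS : Even S.card) (hT : Even T.card) : Even (symmDiff S T).card := by
  have h1 := Finset.card_sdiff_add_card_inter S T
  have h2 := Finset.card_sdiff_add_card_inter T S
  rw [symmDiff_def, Finset.sup_eq_union, Finset.card_union_of_disjoint disjoint_sdiff_sdiff]
  rw [Finset.inter_comm] at h2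
  obtain ⟨a, ha⟩ := hS
  obtain ⟨b, hb⟩ := hT
  exact ⟨a + b - (S ∩ T).card, by omega⟩

theorem pm_mul_sg (σ : Perm (Fin 8)) (S : Finset (Fin 8)) (hS) :
    pm σ * sg S hS = sg (S.map σ.toEmbedding) (even_map σ hS) * pm σ := by
  rw [← conj_sg σ S hS, inv_mul_cancel_right]

theorem mono_mul (S T : Finset (Fin 8)) (hS hT) (σ τ : Perm (Fin 8)) : sg S hS * pm σ * (sg T hT * pm τ) =
    sg (symmDiff S (T.map σ.toEmbedding)) (even_symmDiff hS (even_map σ hT)) * pm (σ * τ) := by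
  rw [mul_assoc, ← mul_assoc (pm σ), pm_mul_sg, pm_mul, ← sg_mul _ _ hS (even_map σ hT)]
  simp only [mul_assoc]

theorem mono_sg (S : Finset (Fin 8)) (hS) : Mono (sg S hS) := ⟨S, hS, 1, by rw [pm_one, mul_one]⟩

theorem mono_pm (σ : Perm (Fin 8)) : Mono (pm σ) := ⟨∅, by decide, σ, by rw [sg_empty, one_mul]⟩

theorem Mono.mul {g h : X} (hg : Mono g) (hh : Mono h) : Mono (g * h) := by
  obtain ⟨S, hS, σ, rfl⟩ := hg
  obtain ⟨T, hT, τ, rfl⟩ := hh
  exact ⟨_, _, _, mono_mul S T hS hT σ τ⟩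

theorem sg_inv (S : Finset (Fin 8)) (hS) : (sg S hS)⁻¹ = sg S hS := inv_eq_of_mul_eq_one_right (sg_sq S hS)

theorem Mono.inv {g : X} (hg : Mono g) : Mono g⁻¹ := by
  obtain ⟨S, hS, σ, rfl⟩ := hg
  rw [mul_inv_rev, ← pm_inv, sg_inv]
  exact (mono_pm _).mul (mono_sg _ _)

/-- the root `2 eᵢ + 2 c eⱼ`, `c = ± 1` -/
def ee (i j : Fin 8) (c : ℤˣ) (h : i ≠ j) : R :=
  ⟨fun k => if k = i then 2 else if k = j then 2 * c else 0, by revert i j c; decide +kernel⟩

theorem dot_ee (v : V) (i j : Fin 8) (c : ℤˣ) (h : i ≠ j) : dot v (ee i j c h) = 2 * v i + 2 * c * v j := by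
  rw [dot_eq_sum, Finset.sum_eq_add_of_mem i j (Finset.mem_univ _) (Finset.mem_univ _) h]
  · simp [ee, h.symm]; ring
  · exact fun k _ hk => by simp [ee, hk.1, hk.2]

/-- the signed permutation is determined by the element -/
theorem mono_inj {S T : Finset (Fin 8)} {hS hT} {σ τ : Perm (Fin 8)} (h : sg S hS * pm σ = sg T hT * pm τ) :
    S = T ∧ σ = τ := by
  have k : ∀ i j (c : ℤˣ) (hij : i ≠ j) (k : Fin 8), sv S k * (ee i j c hij : V) (σ⁻¹ k) =
      sv T k * (ee i j c hij : V) (τ⁻¹ k) := fun i j c hij k => by rw [← ap_mono S hS, h, ap_mono]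
  have h1 : ∀ k, sv S k = sv T k ∧ σ⁻¹ k = τ⁻¹ k := fun l => by
    obtain ⟨j, h1, h2⟩ : ∃ j, σ⁻¹ l ≠ j ∧ τ⁻¹ l ≠ j := by
      generalize σ⁻¹ l = a; generalize τ⁻¹ l = b; revert a b; decide
    have h3 := k _ j 1 h1 l
    have h4 := sv_sq S l
    by_cases e : τ⁻¹ l = σ⁻¹ l
    · simp [ee, e] at h3
      exact ⟨h3, e.symm⟩
    · simp only [ee, if_pos, e, h2, if_false] at h3
      rw [show sv S l = 0 by omega] at h4
      simp at h4
  refine ⟨Finset.ext fun k => ?_, inv_injective (Equiv.ext fun k => (h1 k).2)⟩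
  have := (h1 k).1
  unfold sv at this
  split_ifs at this <;> simp_all

theorem IsRoot.shape {v : V} (h : IsRoot v) (h0 : v 0 = 2) :
    ∃ (j : Fin 8) (c : ℤˣ) (hj : 0 ≠ j), v = ee 0 j c hj := by
  have h1 := h.bound
  have h2 := h.1.1
  have h3 := h.2
  have h4 : ∀ i, v i = -2 ∨ v i = 0 ∨ v i = 2 := fun i => by have := h1 i; have := h2 i; omega
  obtain ⟨j, hj, e⟩ : ∃ j, 0 ≠ j ∧ v j ≠ 0 := by
    by_contra! k
    rw [dot, h0, k 1, k 2, k 3, k 4, k 5, k 6, k 7] at h3 <;> simp_all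
  obtain ⟨c, hc⟩ : ∃ c : ℤˣ, v j = 2 * c := by
    rcases h4 j with e1 | e1 | e1
    exacts [⟨-1, by simp [e1]⟩, absurd e1 e, ⟨1, e1⟩]
  refine ⟨j, c, hj, ?_⟩
  have h5 : dot v (ee 0 j c hj) = 8 := by
    rw [dot_ee, h0, hc]; rcases Int.units_eq_one_or c with rfl | rfl <;> simp
  rcases dot_cases ⟨v, h⟩ (ee 0 j c hj) with e1 | e1 | e1 | e1 | e1
  · exact e1
  · have := congrFun e1 0
    simp [ee, h0] at this
  all_goals exact absurd (h5.symm.trans e1) (by norm_num)

theorem mono_of_fix0 {g : X} (h : ∀ v, (ap g v : V) 0 = (v : V) 0) : Mono g := by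
  have h1 : ∀ i : Fin 8, ∃ (j : Fin 8) (c : ℤˣ), ∀ v : R, (c : ℤ) * (ap g v : V) j = (v : V) i := fun i => by
    by_cases e : 0 = i
    · exact ⟨0, 1, fun v => by rw [← e, ← h v]; simp⟩
    · obtain ⟨j, c, hj, e1⟩ := (ap g (ee 0 i 1 e)).2.shape (by rw [h]; simp [ee])
      refine ⟨j, c, fun v => ?_⟩
      have := dot_ap g v (ee 0 i 1 e)
      rw [e1, dot_ee, dot_ee, h] at this
      simp at this
      linarith
  choose f c h2 using h1
  have h3 : Function.Injective f := fun i j e => by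
    by_contra hij
    obtain ⟨k, k1, k2⟩ : ∃ k, i ≠ k ∧ j ≠ k := by clear e hij; revert i j; decide
    have h4 := h2 i (ee i k 1 k1)
    have h5 := h2 j (ee i k 1 k1)
    rw [← e] at h5
    simp [ee, k2, Ne.symm hij] at h4 h5
    simp [h5] at h4
  let σ := Equiv.ofBijective f (Finite.injective_iff_bijective.1 h3)
  let S := Finset.univ.filter fun i => c (σ⁻¹ i) = -1
  have h4 : ∀ (v : R) i, (ap g v : V) i = sv S i * (v : V) (σ⁻¹ i) := fun v i => by
    have h5 : f (σ⁻¹ i) = i := σ.apply_symm_apply i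
    rw [← h2 (σ⁻¹ i) v, h5, ← mul_assoc, sv]
    simp only [S, Finset.mem_filter, Finset.mem_univ, true_and]
    rcases Int.units_eq_one_or (c (σ⁻¹ i)) with e | e <;> rw [e] <;> simp
  have h5 : Even S.card := by
    have h6 := (InL.iff_sum.1 (ap g (rt [1, 1, 1, 1, 1, 1, 1, 1])).2.1).2
    have h7 : ∀ i, (rt [1, 1, 1, 1, 1, 1, 1, 1] : V) i = 1 := by decide
    simp only [h4, h7, mul_one, sv, Finset.sum_ite, Finset.sum_const, Finset.filter_mem_eq_inter, Finset.univ_inter]
      at h6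
    have h8 := Finset.card_filter_add_card_filter_not (s := Finset.univ) (· ∈ S)
    simp only [Finset.filter_mem_eq_inter, Finset.univ_inter, Finset.card_univ, Fintype.card_fin] at h8
    rw [Nat.even_iff]
    simp only [nsmul_eq_mul] at h6
    omega
  exact ⟨S, h5, σ, X.ext fun v => Subtype.ext (funext fun i => h4 v i)⟩

/-- an element taking a coordinate to `±` a coordinate is monomial -/
theorem mono_of_coord {g : X} {i j : Fin 8} {c : ℤˣ} (h : ∀ v, (ap g v : V) j = c * (v : V) i) : Mono g := by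
  obtain ⟨S, hS, e⟩ : ∃ (S : Finset (Fin 8)) (_ : Even S.card), sv S 0 = c := by
    rcases Int.units_eq_one_or c with rfl | rfl
    exacts [⟨∅, by simp, rfl⟩, ⟨{0, 1}, by decide, rfl⟩]
  have h1 : Mono (sg S hS * pm (swap 0 j) * g * pm (swap 0 i)) := mono_of_fix0 fun v => by
    rw [ap_mul, ap_mul, ap_mono, swap_inv, swap_apply_left, h, ap_pm, swap_inv, swap_apply_right, ← mul_assoc, ← e,
      sv_sq, one_mul]
  simpa [mul_assoc] using (((mono_sg S hS).mul (mono_pm (swap 0 j))).inv.mul h1).mul (mono_pm (swap 0 i)).inv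

theorem rf_ee (i j : Fin 8) (h : i ≠ j) : rf (ee i j (-1) h) = pm (swap i j) :=
  X.ext fun v => Subtype.ext (funext fun k => by
    have h1 := (InL.iff_sum.1 v.2.1).1 i j
    rw [ap_rf, ap_pm, rfV, dot_ee, swap_inv, swap_apply_def]
    simp only [ee, Pi.sub_apply, Pi.smul_apply, smul_eq_mul, Units.val_neg, Units.val_one]
    split_ifs with e1 e2
    · subst e1; omega
    · subst e2; omega
    · omega)

theorem even_pair {i j : Fin 8} (h : i ≠ j) : Even ({i, j} : Finset (Fin 8)).card := by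
  rw [Finset.card_pair h]; exact even_two

theorem rf_ee' (i j : Fin 8) (h : i ≠ j) : rf (ee i j 1 h) = sg {i, j} (even_pair h) * pm (swap i j) :=
  X.ext fun v => Subtype.ext (funext fun k => by
    have h1 := (InL.iff_sum.1 v.2.1).1 i j
    rw [ap_rf, ap_mono, rfV, dot_ee, swap_inv, swap_apply_def]
    simp only [ee, Pi.sub_apply, Pi.smul_apply, smul_eq_mul, Units.val_one, sv, Finset.mem_insert,
      Finset.mem_singleton]
    by_cases e1 : k = i
    · subst e1; simp; omega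
    by_cases e2 : k = j
    · subst e2; simp [e1]; omega
    · simp [e1, e2])

theorem sg_pair (i j : Fin 8) (h : i ≠ j) : sg {i, j} (even_pair h) = rf (ee i j 1 h) * rf (ee i j (-1) h) := by
  rw [rf_ee, rf_ee', mul_assoc, ← pm_mul, swap_mul_self, pm_one, mul_one]

/-- a root negated by `sg {i, j}` is `± 2 eᵢ ± 2 eⱼ` -/
theorem neg_pair {i j : Fin 8} (h : i ≠ j) {v : R} (e : ap (sg {i, j} (even_pair h)) v = ng v) :
    (∀ k, k ≠ i → k ≠ j → (v : V) k = 0) ∧ ∃ c d : ℤˣ, (v : V) i = 2 * c ∧ (v : V) j = 2 * d := by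
  have h1 : ∀ k, k ≠ i → k ≠ j → (v : V) k = 0 := fun k k1 k2 => by
    have := congrFun (congrArg Subtype.val e) k
    rw [ap_sg, ng_val] at this
    simp [sv, k1, k2] at this
    omega
  refine ⟨h1, ?_⟩
  have h2 := v.2.2
  rw [dot_eq_sum, Finset.sum_eq_add_of_mem i j (Finset.mem_univ _) (Finset.mem_univ _) h
    fun k _ hk => by rw [h1 k hk.1 hk.2, mul_zero]] at h2
  have h3 := v.2.bound i
  have h4 := v.2.bound j
  have h5 : ∀ x : ℤ, x * x = 4 → ∃ c : ℤˣ, x = 2 * c := fun x hx => by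
    rcases mul_self_eq_mul_self_iff.1 (show x * x = 2 * 2 from hx) with e | e
    exacts [⟨1, e⟩, ⟨-1, by simp [e]⟩]
  obtain ⟨c, hc⟩ := h5 ((v : V) i) (by nlinarith)
  obtain ⟨d, hd⟩ := h5 ((v : V) j) (by nlinarith)
  exact ⟨c, d, hc, hd⟩

/-- an element keeping the four roots `± 2 eᵢ ± 2 eⱼ` is monomial -/
theorem mono_of_pair {g : X} {i j : Fin 8} (h : i ≠ j)
    (e : ∀ c, ap (sg {i, j} (even_pair h)) (ap g (ee i j c h)) = ng (ap g (ee i j c h))) : Mono g := by
  obtain ⟨a0, a1, a2, a3, a4⟩ := neg_pair h (e 1)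
  obtain ⟨b0, b1, b2, b3, b4⟩ := neg_pair h (e (-1))
  have k : ∀ (w : V) (u : R), (∀ k, k ≠ i → k ≠ j → (u : V) k = 0) → dot w u = w i * u.1 i + w j * u.1 j :=
    fun w u hu => by
      rw [dot_eq_sum, Finset.sum_eq_add_of_mem i j (Finset.mem_univ _) (Finset.mem_univ _) h
        fun k _ hk => by rw [hu k hk.1 hk.2, mul_zero]]
  have h1 := dot_ap g (ee i j 1 h) (ee i j (-1) h)
  rw [k _ _ b0, a3, a4, b3, b4, dot_ee] at h1
  have h2 : ∀ v : R, (ap g v : V) i * (a1 + b1) + (ap g v : V) j * (a2 + b2) = 2 * (v : V) i := fun v => by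
    have h3 := dot_ap g v (ee i j 1 h)
    have h4 := dot_ap g v (ee i j (-1) h)
    rw [k _ _ a0, a3, a4, dot_ee] at h3
    rw [k _ _ b0, b3, b4, dot_ee] at h4
    simp at h3 h4
    linarith
  simp [ee, h.symm] at h1
  rcases Int.units_eq_one_or a1 with rfl | rfl <;> rcases Int.units_eq_one_or a2 with rfl | rfl <;>
    rcases Int.units_eq_one_or b1 with rfl | rfl <;> rcases Int.units_eq_one_or b2 with rfl | rfl <;>
    simp only [Units.val_one, Units.val_neg] at h1 h2 <;>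
    first
      | omega
      | exact mono_of_coord (i := i) (j := i) (c := 1) fun v => by have := h2 v; simp; omega
      | exact mono_of_coord (i := i) (j := i) (c := -1) fun v => by have := h2 v; simp; omega
      | exact mono_of_coord (i := i) (j := j) (c := 1) fun v => by have := h2 v; simp; omega
      | exact mono_of_coord (i := i) (j := j) (c := -1) fun v => by have := h2 v; simp; omega

theorem sg_ee {i j : Fin 8} (h : i ≠ j) (c : ℤˣ) : ap (sg {i, j} (even_pair h)) (ee i j c h) = ng (ee i j c h) :=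
  Subtype.ext (funext fun k => by
    rw [ap_sg, ng_val]
    by_cases e1 : k = i <;> by_cases e2 : k = j <;> simp [sv, ee, e1, e2, h.symm])

/-- the centraliser of an element `sg {i, j}` is monomial -/
theorem mono_of_comm {g : X} {i j : Fin 8} (h : i ≠ j) (c : Commute g (sg {i, j} (even_pair h))) : Mono g :=
  mono_of_pair h fun d => by rw [← ap_mul, ← c.eq, ap_mul, sg_ee, ap_ng]

theorem fr0_eq : fr 0 = ee 0 1 (-1) (by decide) := Subtype.ext (by decide)

theorem fr1_eq : fr 1 = ee 0 1 1 (by decide) := Subtype.ext (by decide)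

/-- an element keeping `{± fr 0, ± fr 1}` is monomial -/
theorem mono_of_fr {g : X} (h : ∀ j : Fin 8, j ≤ 1 → ∃ k : Fin 8, k ≤ 1 ∧ (ap g (fr j) = fr k ∨ ap g (fr j) = ng (fr k))) :
    Mono g := by
  have k : ∀ k : Fin 8, k ≤ 1 → ap (sg {0, 1} (by decide)) (fr k) = ng (fr k) := fun k hk =>
    Subtype.ext (by rw [ng_val]; revert k; decide)
  have k2 : ∀ j : Fin 8, j ≤ 1 → ap (sg {0, 1} (by decide)) (ap g (fr j)) = ng (ap g (fr j)) := fun j hj => by
    obtain ⟨l, hl, e | e⟩ := h j hj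
    · rw [e, k l hl]
    · rw [e, ap_ng, k l hl]
  refine mono_of_pair (i := 0) (j := 1) (by decide) fun c => ?_
  rcases Int.units_eq_one_or c with rfl | rfl
  · exact fr1_eq ▸ k2 1 le_rfl
  · exact fr0_eq ▸ k2 0 (by decide)

/-! ### Generation by reflections -/

theorem sg_mem {H : Subgroup X} (hH : ∀ i j (h : i ≠ j), sg {i, j} (even_pair h) ∈ H) (S : Finset (Fin 8)) (hS) :
    sg S hS ∈ H := by
  obtain ⟨n, hn⟩ := id hS
  induction n generalizing S with
  | zero => rw [sg_congr _ (Finset.card_eq_zero.1 hn), sg_empty]; exact one_mem _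
  | succ n ih =>
    obtain ⟨i, hi, j, hj, hij⟩ := Finset.one_lt_card.1 (show 1 < S.card by omega)
    have h1 : {i, j} ⊆ S := by simp [Finset.insert_subset_iff, hi, hj]
    have h2 : (S \ {i, j}).card = n + n := by rw [Finset.card_sdiff_of_subset h1, Finset.card_pair hij]; omega
    have h3 : S = symmDiff (S \ {i, j}) {i, j} := by
      rw [Disjoint.symmDiff_eq_sup Finset.sdiff_disjoint, Finset.sup_eq_union, Finset.sdiff_union_of_subset h1]
    have h4 : Even (S \ {i, j}).card := ⟨n, h2⟩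
    rw [sg_congr _ h3, ← sg_mul _ _ h4 (even_pair hij)]
    exact mul_mem (ih _ h4 h2) (hH i j hij)

theorem pm_mem {H : Subgroup X} (hH : ∀ i j, i ≠ j → pm (swap i j) ∈ H) (σ : Perm (Fin 8)) : pm σ ∈ H := by
  induction σ using Perm.swap_induction_on with
  | one => rw [pm_one]; exact one_mem _
  | swap_mul σ i j h ih => rw [pm_mul]; exact mul_mem (hH i j h) ih

theorem eq_top_of_rf {H : Subgroup X} (hH : ∀ c, rf c ∈ H) : H = ⊤ := by
  refine eq_top_iff.2 fun g _ => ?_
  obtain ⟨k, hk, e0, e1⟩ := exists_fr01 hH (a := ap g (fr 0)) (b := ap g (fr 1)) (by rw [dot_ap]; decide)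
  obtain ⟨S, hS, σ, e⟩ : Mono (k * g) := mono_of_fr fun j hj => ⟨j, hj, Or.inl (by
    rw [ap_mul]
    rcases (show j = 0 ∨ j = 1 by omega) with rfl | rfl
    exacts [e0, e1])⟩
  rw [← mul_mem_cancel_left hk, e]
  exact mul_mem (sg_mem (fun i j h => sg_pair i j h ▸ mul_mem (hH _) (hH _)) _ _)
    (pm_mem (fun i j h => rf_ee i j h ▸ hH _) _)

theorem rf_induction {p : X → Prop} (h1 : p 1) (h2 : ∀ a g, p g → p (rf a * g)) (g : X) : p g := by
  have h : g ∈ closure (Set.range rf) := 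
    eq_top_iff.1 (eq_top_of_rf fun c => Subgroup.subset_closure (Set.mem_range_self c)) (mem_top g)
  induction h using closure_induction_left with
  | one => exact h1
  | mul_left x hx y _ ih => obtain ⟨a, rfl⟩ := hx; exact h2 a y ih
  | inv_mul_cancel x hx y _ ih => obtain ⟨a, rfl⟩ := hx; rw [rf_inv]; exact h2 a y ih

end CfsgLib.StdE8
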