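import Mathlib
import Cfsg.Agent.Lib.StdE8.Gen

/-!
# `W(E₈)`: the matrix of an element, determinant, trace, the subgroup `L`
-/

set_option autoImplicit false

namespace CfsgLib.StdE8

open Subgroup Equiv CfsgLib.StdInt

theorem dot_fr : ∀ i j, dot (fr i) (fr j) = if i = j then 8 else 0 := by decide

theorem dot_expand (u v : V) : 8 * dot u v = ∑ k, dot u (fr k) * dot (fr k) v := by
  simp [Fin.sum_univ_eight, fr, rt, mk, dot]
  ring

/-- the matrix with respect to the frame -/
noncomputable def mat : X →* Matrix (Fin 8) (Fin 8) ℚ where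
  toFun g := Matrix.of fun i j => (dot (fr i) (ap g (fr j)) : ℚ) / 8
  map_one' := Matrix.ext fun i j => by
    rw [Matrix.of_apply, ap_one, dot_fr, Matrix.one_apply]
    split_ifs <;> simp
  map_mul' g h := Matrix.ext fun i j => by
    have h1 := dot_expand (ap g⁻¹ (fr i)) (ap h (fr j))
    have h2 : ∀ v : R, dot (ap g⁻¹ (fr i)) v = dot (fr i) (ap g v) := fun v => by rw [← dot_ap g, ap_ap_inv]
    simp only [h2] at h1
    simp only [Matrix.mul_apply, Matrix.of_apply, ap_mul, div_mul_div_comm, ← Finset.sum_div, ← Int.cast_mul,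
      ← Int.cast_sum, ← h1]
    push_cast
    ring

theorem mat_apply (g : X) (i j : Fin 8) : mat g i j = (dot (fr i) (ap g (fr j)) : ℚ) / 8 := rfl

theorem mat_t : mat t = -1 := Matrix.ext fun i j => by
  rw [mat_apply, ap_t, dot_comm, dot_neg, dot_fr, Matrix.neg_apply, Matrix.one_apply]
  by_cases e : i = j
  · simp [e]
  · simp [e, Ne.symm e]

/-- eight times the trace -/
def tr (g : X) : ℤ := ∑ j, dot (fr j) (ap g (fr j))

theorem trace_mat (g : X) : (mat g).trace = (tr g : ℚ) / 8 := by
  simp only [Matrix.trace, Matrix.diag, mat_apply, tr, Int.cast_sum, Finset.sum_div]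

theorem tr_conj (g x : X) : tr (g * x * g⁻¹) = tr x := by
  have : (mat (g * x * g⁻¹)).trace = (mat x).trace := by
    rw [map_mul, Matrix.trace_mul_comm, ← map_mul, ← mul_assoc, inv_mul_cancel, one_mul]
  rw [trace_mat, trace_mat] at this
  exact_mod_cast (div_left_inj' (by norm_num)).1 this

theorem tr_mul_t (x : X) : tr (x * t) = -tr x := by
  simp only [tr, (t_comm x).eq, ap_mul, ap_t, ← Finset.sum_neg_distrib]
  exact Finset.sum_congr rfl fun j _ => by rw [dot_comm, dot_neg, dot_comm]

theorem ap_rf_fr (i j : Fin 8) : ap (rf (fr i)) (fr j) = if j = i then ng (fr j) else fr j := by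
  split_ifs with e
  · rw [e, ap_rf_self]
  · exact rf_fix.2 (by rw [dot_fr, if_neg e])

theorem det_rf (a : R) : (mat (rf a)).det = -1 := by
  obtain ⟨g, rfl⟩ := exists_ap (fr 0) a
  have h : mat (rf (fr 0)) = Matrix.diagonal (Function.update 1 0 (-1)) := Matrix.ext fun i j => by
    rw [mat_apply, ap_rf_fr, Matrix.diagonal_apply]
    by_cases e : j = 0
    · rw [if_pos e, ng_val, dot_comm, dot_neg, dot_fr]
      by_cases e1 : i = j
      · simp [e, e1]
      · simp [e1, Ne.symm e1]
    · rw [if_neg e, dot_fr]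
      by_cases e1 : i = j <;> simp [e, e1]
  rw [← conj_rf, map_mul, Matrix.det_mul_comm, ← map_mul, ← mul_assoc, inv_mul_cancel, one_mul, h,
    Matrix.det_diagonal, Finset.prod_update_of_mem (Finset.mem_univ _)]
  simp

theorem rf_mul_rf_mem (a b : R) : rf a * rf b ∈ L := by
  obtain ⟨g, rfl⟩ := exists_ap b a
  have := commutator_mem_commutator (mem_top g) (mem_top (rf b))
  rwa [commutatorElement_def, conj_rf, rf_inv] at this

theorem det_of_mem {g : X} (h : g ∈ L) : (mat g).det = 1 := by
  have := MonoidHom.mem_ker.1 (Abelianization.commutator_subset_ker (Matrix.detMonoidHom.comp mat).toHomUnits h)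
  rw [← Units.val_inj, MonoidHom.coe_toHomUnits] at this
  simpa only [MonoidHom.comp_apply, Matrix.coe_detMonoidHom, Units.val_one] using this

theorem rf_notMem (a : R) : rf a ∉ L := fun h => by
  have := det_of_mem h
  rw [det_rf] at this
  norm_num at this

theorem mem_or (a : R) (g : X) : g ∈ L ∨ g * rf a ∈ L := by
  induction g using rf_induction with
  | h1 => exact Or.inl (one_mem _)
  | h2 b g ih =>
    have := fun g h => mul_mem ((inferInstance : L.Normal).conj_mem g h (rf b)) (rf_mul_rf_mem b a)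
    simp only [mul_assoc, inv_mul_cancel_left] at this
    exact ih.symm.imp (fun h => by simpa only [mul_assoc, rf_sq, mul_one] using this _ h)
      fun h => by simpa only [mul_assoc] using this _ h

theorem index_L : L.index = 2 :=
  index_eq_two_iff.2 ⟨rf (fr 0), fun g => by
    refine (mem_or (fr 0) g).elim (fun h => Or.inr ⟨h, fun h1 => rf_notMem _ ((mul_mem_cancel_left h).1 h1)⟩)
      fun h => Or.inl ⟨h, fun h1 => rf_notMem _ ((mul_mem_cancel_left h1).1 h)⟩⟩

theorem mul_mem_L {g h : X} : g * h ∈ L ↔ (g ∈ L ↔ h ∈ L) := mul_mem_iff_of_index_two index_L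

theorem conj_mem_L {g h : X} : g * h * g⁻¹ ∈ L ↔ h ∈ L := by
  rw [mul_mem_L, mul_mem_L, inv_mem_iff]; tauto

theorem sg_mem_L (S : Finset (Fin 8)) (hS) : sg S hS ∈ L :=
  sg_mem (fun i j h => sg_pair i j h ▸ rf_mul_rf_mem _ _) S hS

theorem t_mem : t ∈ L := sg_mem_L _ _

theorem pm_mem_L {σ : Perm (Fin 8)} : pm σ ∈ L ↔ Perm.sign σ = 1 := by
  induction σ using Perm.swap_induction_on with
  | one => simp [pm_one]
  | swap_mul σ i j h ih =>
    rw [pm_mul, mul_mem_L, ih, ← rf_ee i j h, map_mul, Perm.sign_swap h]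
    rcases Int.units_eq_one_or (Perm.sign σ) with e | e <;> simp [e, rf_notMem]

theorem mono_mem_L {S : Finset (Fin 8)} {hS} {σ : Perm (Fin 8)} : sg S hS * pm σ ∈ L ↔ Perm.sign σ = 1 := by
  rw [mul_mem_cancel_left (sg_mem_L S hS), pm_mem_L]

theorem odd_mem_L {g : X} (h : Odd (orderOf g)) : g ∈ L := by
  obtain ⟨n, hn⟩ := h
  have := pow_mem (mul_self_mem_of_index_two index_L g) (n + 1)
  rwa [← pow_two, ← pow_mul, show 2 * (n + 1) = 2 * n + 1 + 1 by ring, ← hn, pow_succ, pow_orderOf_eq_one,
    one_mul] at this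

theorem xa_mem : xa ∈ L := sg_mem_L _ _

theorem xb_mem : xb ∈ L := sg_mem_L _ _

theorem xc_mem : xc ∈ L := mono_mem_L.2 (by decide)

theorem xi_mem : xi ∈ L := mono_mem_L.2 (by decide)

theorem xr_notMem : xr ∉ L := fun h => absurd (pm_mem_L.1 h) (by decide)

theorem xf_notMem : xf ∉ L := fun h => absurd (pm_mem_L.1 h) (by decide)

/-- conjugacy under `X` is conjugacy under `L` if the centraliser is not contained in `L` -/
theorem conj_L {x y g c : X} (h : g * x * g⁻¹ = y) (hc : Commute c y) (hL : c ∉ L) : ∃ l ∈ L, l * x * l⁻¹ = y := by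
  by_cases e : g ∈ L
  · exact ⟨g, e, h⟩
  · exact ⟨c * g, mul_mem_L.2 (iff_of_false hL e), by
      rw [mul_inv_rev, ← mul_assoc, mul_assoc c, mul_assoc c, h, hc.eq, mul_inv_cancel_right]⟩

/-- an element of odd order keeping a line fixes the root -/
theorem fix_of_odd {g : X} (h : Odd (orderOf g)) {v : R} (e : ap g v = v ∨ ap g v = ng v) : ap g v = v := by
  refine e.resolve_right fun e => root_ne_neg v ?_
  obtain ⟨n, hn⟩ := h
  have k : ∀ n, ap (g ^ (2 * n)) v = v := fun n => by
    induction n with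
    | zero => rfl
    | succ n ih => rw [mul_add, pow_add, mul_one, pow_two, ap_mul, ap_mul, e, ap_ng, e, ng_ng, ih]
  rw [← ng_val, ← e, ← k n, ← ap_mul, ← pow_succ', ← hn, pow_orderOf_eq_one, ap_one, k]

/-- the elements of `WG L x` fix every root fixed by the elements of odd order of the centraliser -/
theorem fix_of_WG {x w : X} {v : R} (h : ∀ g, Odd (orderOf g) → Commute x g → ap g v = v) (hw : w ∈ WG L x) :
    ap w v = v := by
  induction hw using closure_induction with
  | mem g hg => exact h g hg.2.1 hg.2.2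
  | one => rfl
  | mul a b _ _ ha hb => rw [ap_mul, hb, ha]
  | inv a _ ha => rw [← ha, ap_inv_ap, ha]

theorem mem_WG {x w : X} (h : Odd (orderOf w)) (c : Commute x w) : w ∈ WG L x := subset_closure ⟨odd_mem_L h, h, c⟩

theorem conj_mem_WG {x w g : X} (h : w ∈ WG L x) : g * w * g⁻¹ ∈ WG L (g * x * g⁻¹) := by
  induction h using closure_induction with
  | mem w hw => exact mem_WG (odd_conj g hw.2.1) (by simpa using hw.2.2.map (MulAut.conj g))
  | one => simp
  | mul a b _ _ ha hb => simpa [mul_assoc] using mul_mem ha hb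
  | inv a _ ha => simpa [mul_assoc] using inv_mem ha

theorem WG_mul_t (x : X) : WG L (x * t) = WG L x := by
  unfold WG
  congr 1
  ext w
  refine and_congr_right fun _ => and_congr_right fun _ => ⟨fun h => ?_, fun h => h.mul_left (t_comm w).symm⟩
  simpa [mul_assoc, t_sq] using h.mul_left (t_comm w).symm

/-- the commutator of an element of odd order with an element, both commuting with `x` -/
theorem comm_mem_WG {x w y : X} (h : w ∈ WG L x) (c : Commute y x) : w * (y * w⁻¹ * y⁻¹) ∈ WG L x := by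
  have := conj_mem_WG (g := y) (inv_mem h)
  rw [c.eq, mul_inv_cancel_right] at this
  exact mul_mem h this

theorem comm_sg_iff {S T : Finset (Fin 8)} {hS hT} {σ : Perm (Fin 8)} :
    Commute (sg S hS * pm σ) (sg T hT) ↔ T.map σ.toEmbedding = T := by
  have h1 := mono_mul S T hS hT σ 1
  have h2 := mono_mul T S hT hS 1 σ
  rw [pm_one, mul_one] at h1 h2
  have h3 : S.map (1 : Perm (Fin 8)).toEmbedding = S := Finset.map_refl
  rw [Commute, SemiconjBy, h1, h2]
  refine ⟨fun h => ?_, fun h => ?_⟩
  · simpa [h3, symmDiff_comm T] using (mono_inj h).1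
  · simp only [h, mul_one, one_mul]
    congr 1
    exact sg_congr _ (by rw [h3, symmDiff_comm])

/-- an element commuting with all `sg {i, j}` is a sign change -/
theorem exists_sg {g : X} (h : ∀ i j (hij : i ≠ j), Commute g (sg {i, j} (even_pair hij))) : ∃ S hS, g = sg S hS := by
  obtain ⟨S, hS, σ, rfl⟩ := mono_of_comm (by decide) (h 0 1 (by decide))
  refine ⟨S, hS, ?_⟩
  have : σ = 1 := Equiv.ext fun i => by
    by_contra e
    obtain ⟨j, h1, h2⟩ : ∃ j, i ≠ j ∧ σ i ≠ j := by clear e; generalize σ i = k; revert i k; decide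
    have h3 := Finset.mem_map_of_mem σ.toEmbedding (Finset.mem_insert_self i {j})
    rw [comm_sg_iff.1 (h i j h1)] at h3
    simp [h2] at h3
    exact e h3
  rw [this, pm_one, mul_one]

theorem comm_pm_iff {S : Finset (Fin 8)} {hS} {σ : Perm (Fin 8)} :
    Commute (pm σ) (sg S hS) ↔ S.map σ.toEmbedding = S := by
  rw [← comm_sg_iff (S := ∅) (hS := by decide), sg_empty, one_mul]

/-- the centraliser of `L` -/
theorem cent_L {g : X} (h : ∀ l ∈ L, Commute g l) : g = 1 ∨ g = t := by
  obtain ⟨S, hS, rfl⟩ := exists_sg fun i j hij => h _ (sg_mem_L _ _)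
  have h1 := comm_pm_iff.1 (h _ (pm_mem_L.2 (by decide : Perm.sign (finRotate 8 * swap 0 1) = 1))).symm
  have h2 := comm_pm_iff.1 (h _ (pm_mem_L.2 (by decide : Perm.sign (finRotate 8 * swap (1 : Fin 8) 2) = 1))).symm
  have h3 : S = ∅ ∨ S = Finset.univ := by
    clear h hS
    revert S
    decide +kernel
  exact h3.imp (fun e => by rw [sg_congr _ e, sg_empty]) fun e => sg_congr _ e

end CfsgLib.StdE8
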