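import Mathlib
import Cfsg.Agent.Lib.StdE8.Det

/-!
# Normal closures of elements of odd order in centralisers of involutions of `2.Ω₈⁺(2)`
-/

set_option autoImplicit false

namespace CfsgLib.StdE8

open Subgroup Equiv CfsgLib.StdInt

theorem comm_mem_NG {s w y : X} (hy : y ∈ L) (c : Commute y s) : w * y * w⁻¹ * y⁻¹ ∈ NG L s w := by
  have h : w ∈ NG L s w := subset_closure ⟨1, one_mem _, Commute.one_left s, by simp⟩
  simpa only [mul_assoc] using mul_mem h (conj_mem_NG hy c (inv_mem h))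

theorem comm_mono (S T : Finset (Fin 8)) (hS hT) (σ : Perm (Fin 8)) :
    sg S hS * pm σ * sg T hT * (sg S hS * pm σ)⁻¹ * (sg T hT)⁻¹ =
      sg (symmDiff (T.map σ.toEmbedding) T) (even_symmDiff (even_map σ hT) hT) := by
  rw [← sg_mul _ _ (even_map σ hT) hT, sg_inv, mul_left_inj, mul_inv_eq_iff_eq_mul, mul_assoc, pm_mul_sg,
    ← mul_assoc, (sg_comm _ _ _ _).eq, mul_assoc]

theorem sg_inj {S T : Finset (Fin 8)} {hS hT} (h : sg S hS = sg T hT) : S = T :=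
  (mono_inj (σ := 1) (τ := 1) (by rw [h])).1

theorem sg_ne_one {S : Finset (Fin 8)} {hS} {i : Fin 8} (h : i ∈ S) : sg S hS ≠ 1 := fun e => by
  rw [← sg_empty (by decide)] at e
  simp [sg_inj e] at h

theorem eq_one_of_odd {G : Type*} [Group G] {w : G} (h : Odd (orderOf w)) (e : w * w = 1) : w = 1 :=
  orderOf_eq_one_iff.1 ((Nat.coprime_two_right.2 h).eq_one_of_dvd (orderOf_dvd_of_pow_eq_one (by rw [sq, e])))

theorem exists_move {S : Finset (Fin 8)} {hS} {σ : Perm (Fin 8)} (h : Odd (orderOf (sg S hS * pm σ)))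
    (h1 : sg S hS * pm σ ≠ 1) : ∃ i, σ i ≠ i := by
  by_contra! e
  rw [show σ = 1 from Equiv.ext e, pm_one, mul_one] at h h1
  exact h1 (eq_one_of_odd h (sg_sq _ _))

theorem perm_fix_of_sq {S : Finset (Fin 8)} {hS} {σ : Perm (Fin 8)} (h : Odd (orderOf (sg S hS * pm σ)))
    {i : Fin 8} (e : σ (σ i) = i) : σ i = i := by
  have k : ∀ n : ℕ, ∃ T hT, (sg S hS * pm σ) ^ n = sg T hT * pm (σ ^ n) := fun n => by
    induction n with
    | zero => exact ⟨∅, by decide, by rw [pow_zero, pow_zero, sg_empty, pm_one, mul_one]⟩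
    | succ n ih =>
      obtain ⟨T, hT, ih⟩ := ih
      exact ⟨_, _, by rw [pow_succ, ih, mono_mul, pow_succ]⟩
  obtain ⟨T, hT, e1⟩ := k (orderOf (sg S hS * pm σ))
  obtain ⟨n, hn⟩ := h
  rw [pow_orderOf_eq_one, hn, ← mul_one 1, ← pm_one] at e1
  nth_rw 1 [pm_one] at e1
  rw [← sg_empty (by decide)] at e1
  have e2 := congrArg (· i) (mono_inj e1).2
  rw [pow_succ', pow_mul, Perm.mul_apply, Perm.pow_apply_eq_self_of_apply_eq_self (by simpa [sq] using e)] at e2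
  exact e2.symm

theorem mem_diff {σ : Perm (Fin 8)} {i j : Fin 8} (h1 : σ i ≠ i) (h2 : σ i ≠ j) :
    σ i ∈ symmDiff (({i, j} : Finset (Fin 8)).map σ.toEmbedding) {i, j} := by
  simp [Finset.mem_symmDiff, h1, h2]

theorem fix_of_pairs {σ : Perm (Fin 8)} {i j k : Fin 8} (h : j ≠ k)
    (h1 : ({i, j} : Finset (Fin 8)).map σ.toEmbedding = {i, j})
    (h2 : ({i, k} : Finset (Fin 8)).map σ.toEmbedding = {i, k}) : σ i = i := by
  have e1 := h1 ▸ Finset.mem_map_of_mem σ.toEmbedding (Finset.mem_insert_self i {j})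
  have e2 := h2 ▸ Finset.mem_map_of_mem σ.toEmbedding (Finset.mem_insert_self i {k})
  simp only [Finset.mem_insert, Finset.mem_singleton, coe_toEmbedding] at e1 e2
  by_contra e
  exact h ((e1.resolve_left e).symm.trans (e2.resolve_left e))

theorem nrm_a {w : X} (h : Odd (orderOf w)) (c : Commute w xa) (h1 : w ≠ 1) :
    ∃ r ∈ NG L xa w, r * r = 1 ∧ r ≠ 1 ∧ r ≠ xa ∧ r ≠ xa * t := by
  obtain ⟨S, hS, σ, rfl⟩ := mono_of_comm (i := 0) (j := 1) (by decide) c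
  obtain ⟨i, hi⟩ := exists_move h h1
  have h2 : ∀ k, σ k ∈ ({0, 1} : Finset (Fin 8)) ↔ k ∈ ({0, 1} : Finset (Fin 8)) := fun k => by
    nth_rw 1 [← comm_sg_iff.1 c]
    exact Finset.mem_map' σ.toEmbedding
  have h3 : σ i ∉ ({0, 1} : Finset (Fin 8)) := fun e => by
    have e1 := (h2 _).1 e
    have e2 := (h2 _).2 e
    have e3 : σ (σ i) ≠ i := fun e => hi (perm_fix_of_sq h e)
    have e4 : σ (σ i) ≠ σ i := fun e => hi (σ.injective e)
    simp only [Finset.mem_insert, Finset.mem_singleton] at e e1 e2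
    omega
  obtain ⟨j, hij, hj⟩ := (by decide : ∀ i k : Fin 8, ∃ j, i ≠ j ∧ k ≠ j) i (σ i)
  refine ⟨_, comm_mono S _ hS (even_pair hij) σ ▸ comm_mem_NG (sg_mem_L _ _) (sg_comm _ _ _ _), sg_sq _ _,
    sg_ne_one (mem_diff hi hj), fun e => h3 (sg_inj e ▸ mem_diff hi hj), fun e => ?_⟩
  rw [xa, t, sg_mul _ _ _ _ (by decide)] at e
  have e1 := (Finset.card_le_card (symmDiff_le_sup (a := ({i, j} : Finset (Fin 8)).map σ.toEmbedding)
    (b := {i, j}))).trans (Finset.card_union_le _ _)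
  rw [sg_inj e, Finset.card_map, Finset.card_pair hij] at e1
  exact absurd e1 (by decide)

/-- the elements that fix the roots negated by `s` -/
def Fx (s : X) : Subgroup X where
  carrier := {g | ∀ v, ap s v = ng v → ap g v = v}
  one_mem' := fun _ _ => rfl
  mul_mem' := fun ha hb v hv => by rw [ap_mul, hb v hv, ha v hv]
  inv_mem' := fun {g} hg v hv => ap_inj (by rw [ap_ap_inv, hg v hv])

theorem conj_mem_Fx {s w g : X} (c : Commute w s) (hg : g ∈ Fx s) : w * g * w⁻¹ ∈ Fx s := fun v hv => by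
  rw [ap_mul, ap_mul, hg _ (by rw [← ap_mul, ← c.inv_left.eq, ap_mul, hv, ap_ng]), ap_ap_inv]

theorem sg_mem_Fx {i j : Fin 8} (h : i ≠ j) (hi : 4 ≤ i) (hj : 4 ≤ j) : sg {i, j} (even_pair h) ∈ Fx xb :=
  fun v hv => Subtype.ext (funext fun k => by
    have e := congrFun (congrArg Subtype.val hv) k
    rw [ng_val, xb, ap_sg, sv, Pi.neg_apply] at e
    rw [ap_sg, sv]
    split_ifs with hk
    · rw [if_neg (by simp only [Finset.mem_insert, Finset.mem_singleton] at hk ⊢; omega)] at e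
      omega
    · exact one_mul _)

theorem xb_ee {i j : Fin 8} (h : i ≠ j) (hi : i < 4) (hj : j < 4) (c : ℤˣ) :
    ap xb (ee i j c h) = ng (ee i j c h) := Subtype.ext (by
  rw [ng_val]
  revert i j c
  decide +kernel)

theorem nrm_b {w : X} (h : Odd (orderOf w)) (c : Commute w xb) (h1 : w ≠ 1) :
    ∃ r ∈ NG L xb w, r * r = 1 ∧ r ≠ 1 ∧ r ≠ xb := by
  by_contra! hn
  have k1 : ∀ r ∈ NG L xb w, r ∈ Fx xb → r * r = 1 → r = 1 := fun r hr hr' e => by_contra fun e' => by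
    have e1 := xb_ee (i := 0) (j := 1) (by decide) (by decide) (by decide) 1
    have e2 := hr' _ e1
    rw [hn r hr e e', e1] at e2
    exact root_ne_neg _ ((congrArg Subtype.val e2).symm.trans (ng_val _))
  have tri : ∀ i : Fin 8, ∃ j k, i ≠ j ∧ i ≠ k ∧ j ≠ k ∧ (i < 4 ↔ j < 4) ∧ (i < 4 ↔ k < 4) := by decide
  have k2 : ∀ o ∈ NG L xb w, o ∈ Fx xb → o = 1 := fun o ho ho' => by
    have c1 : ∀ i j (hij : i ≠ j), i < 4 → j < 4 → Commute o (sg {i, j} (even_pair hij)) := fun i j hij hi hj => by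
      have c2 : ∀ d, Commute o (rf (ee i j d hij)) := fun d => mul_inv_eq_iff_eq_mul.1 (by
        rw [conj_rf, ho' _ (xb_ee hij hi hj d)])
      exact sg_pair i j hij ▸ (c2 1).mul_right (c2 (-1))
    obtain ⟨S, hS, σ, rfl⟩ := mono_of_comm (by decide) (c1 0 1 (by decide) (by decide) (by decide))
    have c2 : ∀ i j (hij : i ≠ j), (i < 4 ↔ j < 4) → ({i, j} : Finset (Fin 8)).map σ.toEmbedding = {i, j} :=
      fun i j hij e => by
        refine comm_sg_iff.1 (if hi : i < 4 then c1 i j hij hi (e.1 hi) else ?_)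
        have m := sg_mem_Fx hij (not_lt.1 hi) (not_lt.1 (mt e.2 hi))
        refine commutatorElement_eq_one_iff_commute.1 (k1 _ ?_ (mul_mem (mul_mem (mul_mem ho' m) (inv_mem ho'))
          (inv_mem m)) (by rw [commutatorElement_def, comm_mono, sg_sq]))
        simpa only [mul_assoc, commutatorElement_def] using mul_mem ho (conj_mem_NG (sg_mem_L _ (even_pair hij)) (sg_comm _ _ _ _)
          (inv_mem ho))
    refine k1 _ ho ho' ?_
    rw [show σ = 1 from Equiv.ext fun i => by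
      obtain ⟨j, k, a1, a2, a3, a4, a5⟩ := tri i
      exact fix_of_pairs a3 (c2 i j a1 a4) (c2 i k a2 a5), pm_one, mul_one, sg_sq]
  have k3 : ∀ i j (hij : i ≠ j), 4 ≤ i → 4 ≤ j → Commute w (sg {i, j} (even_pair hij)) := fun i j hij hi hj =>
    commutatorElement_eq_one_iff_commute.1 (k2 _ (comm_mem_NG (sg_mem_L _ _) (sg_comm _ _ _ _))
      (mul_mem (conj_mem_Fx c (sg_mem_Fx hij hi hj)) (inv_mem (sg_mem_Fx hij hi hj))))
  obtain ⟨S, hS, σ, rfl⟩ := mono_of_comm (by decide) (k3 4 5 (by decide) (by decide) (by decide))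
  have k4 : ∀ i, 4 ≤ i → σ i = i := fun i hi => by
    obtain ⟨j, k, a1, a2, a3, a4, a5⟩ := tri i
    exact fix_of_pairs a3 (comm_sg_iff.1 (k3 i j a1 hi (not_lt.1 (mt a4.2 hi.not_gt))))
      (comm_sg_iff.1 (k3 i k a2 hi (not_lt.1 (mt a5.2 hi.not_gt))))
  obtain ⟨i, hi⟩ := exists_move h h1
  have e4 := k4 4 le_rfl
  have hi4 : i ≠ 4 := fun e => hi (e ▸ e4)
  have hi5 : σ i ≠ 4 := fun e => hi4 (σ.injective (e.trans e4.symm))
  have e := sg_inj (hn _ (comm_mono S _ hS (even_pair hi4) σ ▸ comm_mem_NG (sg_mem_L _ _) (sg_comm _ _ _ _))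
    (sg_sq _ _) (sg_ne_one (mem_diff hi hi5)))
  obtain ⟨k, a1, a2, a3⟩ := (by decide : ∀ i j : Fin 8, ∃ k ∈ ({0, 1, 2, 3} : Finset (Fin 8)),
    k ≠ i ∧ k ≠ j ∧ k ≠ 4) i (σ i)
  rw [← e] at a1
  simp [Finset.mem_symmDiff, a2, a3.1, a3.2, e4] at a1

/-- the frame roots negated by `xc` -/
abbrev Hc : Finset (Fin 8) := {1, 2, 4, 6}

theorem xc_fr (m : Fin 8) : ap xc (fr m) = if m ∈ Hc then ng (fr m) else fr m :=
  Subtype.ext (by revert m; decide +kernel)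

theorem xc_neg {v : R} (h : ap xc v = ng v) : ∃ k ∈ Hc, v = fr k ∨ v = ng (fr k) := by
  have key : ∀ a ∈ Finset.Icc (-2 : ℤ) 2, ∀ b ∈ Finset.Icc (-2 : ℤ) 2, ∀ c ∈ Finset.Icc (-2 : ℤ) 2,
      ∀ d ∈ Finset.Icc (-2 : ℤ) 2, IsRoot (mk [a, a, b, -b, c, -c, d, -d]) → ∃ k ∈ Hc,
        mk [a, a, b, -b, c, -c, d, -d] = fr k ∨ mk [a, a, b, -b, c, -c, d, -d] = -(fr k : V) := by
    decide +kernel
  have e := fun k => congrFun ((congrArg Subtype.val h).trans (ng_val v)) k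
  have e0 : -1 * v.1 1 = -v.1 0 := e 0
  have e2 : 1 * v.1 3 = -v.1 2 := e 2
  have e4 : 1 * v.1 5 = -v.1 4 := e 4
  have e6 : 1 * v.1 7 = -v.1 6 := e 6
  have b := fun k => Finset.mem_Icc.2 (v.2.bound k)
  have e' : mk [v.1 0, v.1 0, v.1 2, -v.1 2, v.1 4, -v.1 4, v.1 6, -v.1 6] = v.1 := funext fun k => by
    fin_cases k <;> simp [mk] <;> omega
  simpa only [e', Subtype.ext_iff, ng_val] using key _ (b 0) _ (b 2) _ (b 4) _ (b 6) (e'.symm ▸ v.2)

theorem xc_fix {v : R} (h : ap xc v = v) : ∃ k ∉ Hc, v = fr k ∨ v = ng (fr k) := by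
  have key : ∀ a ∈ Finset.Icc (-2 : ℤ) 2, ∀ b ∈ Finset.Icc (-2 : ℤ) 2, ∀ c ∈ Finset.Icc (-2 : ℤ) 2,
      ∀ d ∈ Finset.Icc (-2 : ℤ) 2, IsRoot (mk [a, -a, b, b, c, c, d, d]) → ∃ k ∉ Hc,
        mk [a, -a, b, b, c, c, d, d] = fr k ∨ mk [a, -a, b, b, c, c, d, d] = -(fr k : V) := by
    decide +kernel
  have e := fun k => congrFun (congrArg Subtype.val h) k
  have e0 : -1 * v.1 1 = v.1 0 := e 0
  have e2 : 1 * v.1 3 = v.1 2 := e 2
  have e4 : 1 * v.1 5 = v.1 4 := e 4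
  have e6 : 1 * v.1 7 = v.1 6 := e 6
  have b := fun k => Finset.mem_Icc.2 (v.2.bound k)
  have e' : mk [v.1 0, -v.1 0, v.1 2, v.1 2, v.1 4, v.1 4, v.1 6, v.1 6] = v.1 := funext fun k => by
    fin_cases k <;> simp [mk] <;> omega
  simpa only [e', Subtype.ext_iff, ng_val] using key _ (b 0) _ (b 2) _ (b 4) _ (b 6) (e'.symm ▸ v.2)

theorem nrm_c {w : X} (h : Odd (orderOf w)) (c : Commute w xc) (h1 : w ≠ 1) :
    ∃ r ∈ NG L xc w, r * r = 1 ∧ r ≠ 1 ∧ r ≠ xc := by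
  have k1 : ∀ i, ∃ j, (j ∈ Hc ↔ i ∈ Hc) ∧ (ap w (fr i) = fr j ∨ ap w (fr i) = ng (fr j)) := fun i => by
    have e : ap xc (ap w (fr i)) = ap w (ap xc (fr i)) := by rw [← ap_mul, ← c.eq, ap_mul]
    rw [xc_fr] at e
    split_ifs at e with hi
    · exact (xc_neg (e.trans (ap_ng _ _))).imp fun _ a => ⟨iff_of_true a.1 hi, a.2⟩
    · exact (xc_fix e).imp fun _ a => ⟨iff_of_false a.1 hi, a.2⟩
  choose f hf hw using k1
  have k2 : ∀ i, w * rf (fr i) * w⁻¹ = rf (fr (f i)) := fun i => by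
    rcases hw i with e | e <;> rw [conj_rf, e]
    exact rf_ng _
  have k3 : ∀ i, Commute (rf (fr i)) xc := fun i => (mul_inv_eq_iff_eq_mul.1 (by
    rw [conj_rf, xc_fr]
    split_ifs
    exacts [rf_ng _, rfl])).symm
  have k4 : ∀ i j, Commute (rf (fr i)) (rf (fr j)) := fun i j =>
    if e : i = j then e ▸ Commute.refl _ else rf_comm (by rw [dot_fr, if_neg e])
  have k5 : ∀ m, fr m ≠ ng (fr m) := fun m e => root_ne_neg _ ((congrArg Subtype.val e).trans (ng_val _))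
  obtain ⟨i, hi⟩ : ∃ i, f i ≠ i := by
    by_contra! e
    exact h1 (ext_fr fun j => fix_of_odd h (by simpa only [e] using hw j))
  obtain ⟨k, hk⟩ := (by decide : ∀ i, ∃ k, ¬(k ∈ Hc ↔ i ∈ Hc)) i
  have m := comm_mem_NG (w := w) (rf_mul_rf_mem (fr i) (fr k)) ((k3 i).mul_left (k3 k))
  rw [← conj_mul, k2, k2, mul_inv_rev, rf_inv, rf_inv] at m
  have e1 : i ≠ k := fun e => hk (e ▸ Iff.rfl)
  have e2 : i ≠ f k := fun e => hk (e ▸ (hf k).symm)
  have e3 : ap (rf (fr (f i)) * rf (fr (f k)) * (rf (fr k) * rf (fr i))) (fr i) = ng (fr i) := by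
    simp [ap_mul, ap_rf_fr, ap_ng, e1, e2, hi.symm]
  refine ⟨_, m, ?_, fun e => k5 i (by rw [← e3, e, ap_one]), fun e => ?_⟩
  · rw [(((k4 _ _).mul_left (k4 _ _)).mul_right ((k4 _ _).mul_left (k4 _ _))).symm.mul_mul_mul_comm,
      (k4 (f k) (f i)).mul_mul_mul_comm, (k4 i k).mul_mul_mul_comm, rf_sq, rf_sq, rf_sq, rf_sq]
    simp
  · by_cases hH : i ∈ Hc
    · obtain ⟨l, a1, a2, a3⟩ := (by decide : ∀ i j, ∃ l ∈ Hc, l ≠ i ∧ l ≠ j) i (f i)
      have a4 : l ≠ k := fun e => hk (iff_of_true (e ▸ a1) hH)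
      have a5 : l ≠ f k := fun e => hk (iff_of_true ((hf k).1 (e ▸ a1)) hH)
      have e4 := congrArg (ap · (fr l)) e
      simp only [xc_fr, if_pos a1] at e4
      exact k5 l (by simpa [ap_mul, ap_rf_fr, a2, a3, a4, a5] using e4)
    · rw [e, xc_fr, if_neg hH] at e3
      exact k5 i e3

end CfsgLib.StdE8
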