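import Mathlib
import Cfsg.Agent.Lib.StdE8.Det

/-!
# Elements of `O²(C_L(x))` for the representatives `x`
-/

set_option autoImplicit false

namespace CfsgLib.StdE8

open Subgroup Equiv CfsgLib.StdInt

/-- equality of elements is checked on the frame -/
theorem ext_dec {g h : X} (e : ∀ j i, (ap g (fr j) : V) i = (ap h (fr j) : V) i) : g = h :=
  ext_fr fun j => Subtype.ext (funext (e j))

theorem odd_pm {σ : Perm (Fin 8)} (h : σ ^ 3 = 1) : Odd (orderOf (pm σ)) :=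
  odd_of_pow (n := 3) (by decide) (by rw [pow_three, ← pm_mul, ← pm_mul, ← pow_three, h, pm_one])

theorem sg_mem_WG {x : X} {σ : Perm (Fin 8)} (h : pm σ ∈ WG L x) {S T : Finset (Fin 8)} (hS) {hT}
    (c : Commute (sg S hS) x) (e : symmDiff (S.map σ.toEmbedding) S = T) : sg T hT ∈ WG L x := by
  have := comm_mem_WG h c
  rwa [← mul_assoc, ← mul_assoc, conj_sg _ _ _ (even_map σ hS), sg_inv, sg_mul _ _ _ _ (e ▸ hT), sg_congr _ e] at this

theorem comm_pm {σ τ : Perm (Fin 8)} (h : σ * τ = τ * σ) : Commute (pm σ) (pm τ) := by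
  rw [Commute, SemiconjBy, ← pm_mul, ← pm_mul, h]

/-- a 3-cycle -/
def c3 (i j k : Fin 8) : Perm (Fin 8) := swap i j * swap j k

/-- the sign changes on an even subset of `{2, …, 7}` -/
def InP (x : X) : Prop := ∃ S hS, 0 ∉ S ∧ 1 ∉ S ∧ x = sg S hS

theorem xr_eq : xr = rf (fr 0) := by rw [fr0_eq, rf_ee]; rfl

theorem xa_eq : xa = rf (fr 0) * rf (fr 1) := ext_dec (by decide)

theorem xc_eq : xc = rf (fr 1) * rf (fr 2) * rf (fr 4) * rf (fr 6) := by
  rw [ext_dec (g := rf (fr 1) * rf (fr 2)) (h := sg {0, 1} (by decide) * pm (swap 0 1 * swap 2 3)) (by decide),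
    mul_assoc, ext_dec (g := rf (fr 4) * rf (fr 6)) (h := pm (swap 4 5 * swap 6 7)) (by decide)]
  exact ext_dec (by decide)

theorem xa_sq : xa * xa = 1 := sg_sq _ _

theorem xb_sq : xb * xb = 1 := sg_sq _ _

theorem xc_sq : xc * xc = 1 := ext_dec (by decide)

theorem xi_sq : xi * xi = t := ext_dec (by decide)

theorem xr_sq : xr * xr = 1 := ext_dec (by decide)

theorem xf_sq : xf * xf = 1 := ext_dec (by decide)

theorem tr_xa : tr xa = 32 := by decide

theorem tr_xb : tr xb = 0 := by decide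

theorem tr_xc : tr xc = 0 := by decide

/-! ### Type `a` -/

theorem line_of_comm {g : X} {a : R} (c : Commute (rf a) g) : ap g a = a ∨ ap g a = ng a :=
  (rf_eq ((conj_rf g a).symm.trans (mul_inv_eq_iff_eq_mul.2 c.symm.eq))).imp Subtype.ext
    fun e => Subtype.ext (e.trans (ng_val a).symm)

theorem comm_rf {g : X} {a : R} (h : ap g a = a) : Commute g (rf a) :=
  mul_inv_eq_iff_eq_mul.1 (by rw [conj_rf, h])

theorem fix_of_sq {g : X} (ho : Odd (orderOf g)) {a : R} (h : ap (g * g) a = a) : ap g a = a := by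
  obtain ⟨n, hn⟩ := ho
  have h4 : ∀ n, ap ((g * g) ^ n) a = a := fun n => by
    induction n with
    | zero => rfl
    | succ n ih => rw [pow_succ, ap_mul, h, ih]
  have := h4 (n + 1)
  rwa [← pow_two, ← pow_mul, show 2 * (n + 1) = 2 * n + 1 + 1 by ring, ← hn, pow_succ, pow_orderOf_eq_one,
    one_mul] at this

theorem fix_Wa {w : X} (h : w ∈ WG L xa) : ap w (fr 0) = fr 0 ∧ ap w (fr 1) = fr 1 := by
  have k : ∀ g v, Commute xa g → ap xa v = ng v → ap xa (ap g v) = ng (ap g v) := fun g v c e => by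
    rw [← ap_mul, c.eq, ap_mul, e, ap_ng]
  have k1 : ∀ v, ap xa v = ng v → (v = fr 0 ∨ v = ng (fr 0)) ∨ v = fr 1 ∨ v = ng (fr 1) := fun v e => by
    obtain ⟨h1, c, d, h2, h3⟩ := neg_pair (i := 0) (j := 1) (by decide) e
    have h4 : (v : V) = ![2 * (c : ℤ), 2 * (d : ℤ), 0, 0, 0, 0, 0, 0] := funext fun i => by
      fin_cases i
      exacts [h2, h3, h1 _ (by decide) (by decide), h1 _ (by decide) (by decide), h1 _ (by decide) (by decide),
        h1 _ (by decide) (by decide), h1 _ (by decide) (by decide), h1 _ (by decide) (by decide)]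
    simp only [Subtype.ext_iff, ng_val, h4]
    clear h2 h3 h4
    revert c d
    decide
  have k2 : ∀ g (a b : R), Odd (orderOf g) → Commute xa g → ap xa a = ng a → ap xa b = ng b → dot a b = 0 →
      (∀ v, ap xa v = ng v → (v = a ∨ v = ng a) ∨ v = b ∨ v = ng b) → ap g a = a := fun g a b ho c ha hb h0 hv => by
    rcases hv _ (k g a c ha) with e | e
    · exact fix_of_odd ho e
    have h1 : dot (ap g b) b = 0 := by
      have := dot_ap g b a
      rcases e with e | e <;> rw [e, dot_comm b, h0] at this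
      · exact this
      · rwa [ng_val, dot_comm, dot_neg, neg_eq_zero, dot_comm] at this
    have h2 := (hv _ (k g b c hb)).resolve_right (by
      rintro (e | e) <;> simp [e, ng_val, dot_neg, b.2.2] at h1)
    exact fix_of_sq ho (fix_of_odd (odd_mul (Commute.refl g) ho ho) (by
      rcases e with e | e <;> rcases h2 with h2 | h2 <;> simp [ap_mul, e, h2, ap_ng, ng_ng]))
  have e0 : ap xa (fr 0) = ng (fr 0) := Subtype.ext (by decide)
  have e1 : ap xa (fr 1) = ng (fr 1) := Subtype.ext (by decide)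
  exact ⟨fix_of_WG (fun g ho c => k2 g _ _ ho c e0 e1 (by decide) k1) h,
    fix_of_WG (fun g ho c => k2 g _ _ ho c e1 e0 (by decide) fun v e => (k1 v e).symm) h⟩

theorem t_notMem_Wa : t ∉ WG L xa := fun h => ne_t_of_fix (fix_Wa h).1 rfl

theorem xa_notMem_Wa : xa ∉ WG L xa := fun h => absurd (congrArg Subtype.val (fix_Wa h).1) (by decide)

theorem xr_comm_Wa {w : X} (h : w ∈ WG L xa) : Commute xr w := xr_eq ▸ (comm_rf (fix_Wa h).1).symm

theorem c3_mem_Wa {i j k : Fin 8} (hi : 2 ≤ i) (hj : 2 ≤ j) (hk : 2 ≤ k) (h : i ≠ j ∧ j ≠ k ∧ i ≠ k) :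
    pm (c3 i j k) ∈ WG L xa :=
  mem_WG (odd_pm (by revert i j k; decide +kernel)) (comm_pm_iff.2 (by revert i j k; decide +kernel)).symm

theorem sg_mem' {H : Subgroup X} {A : Finset (Fin 8)}
    (hH : ∀ i ∈ A, ∀ j ∈ A, ∀ h : i ≠ j, sg {i, j} (even_pair h) ∈ H) {S : Finset (Fin 8)} (hS) (h : S ⊆ A) :
    sg S hS ∈ H := by
  obtain ⟨n, hn⟩ := id hS
  induction n generalizing S with
  | zero => rw [sg_congr _ (Finset.card_eq_zero.1 hn), sg_empty]; exact one_mem _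
  | succ n ih =>
    obtain ⟨i, hi, j, hj, hij⟩ := Finset.one_lt_card.1 (show 1 < S.card by omega)
    have h1 : {i, j} ⊆ S := by simp [Finset.insert_subset_iff, hi, hj]
    have h2 : (S \ {i, j}).card = n + n := by rw [Finset.card_sdiff_of_subset h1, Finset.card_pair hij]; omega
    have h3 : S = symmDiff (S \ {i, j}) {i, j} := by
      rw [Disjoint.symmDiff_eq_sup Finset.sdiff_disjoint, Finset.sup_eq_union, Finset.sdiff_union_of_subset h1]
    have h4 : Even (S \ {i, j}).card := ⟨n, h2⟩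
    rw [sg_congr _ h3, ← sg_mul _ _ h4 (even_pair hij)]
    exact mul_mem (ih h4 (Finset.sdiff_subset.trans h) h2) (hH i (h hi) j (h hj) hij)

theorem c3_pair : ∀ i j k l : Fin 8, i ≠ j → j ≠ k → i ≠ k → l ≠ i → l ≠ j → l ≠ k →
    symmDiff (({i, l} : Finset (Fin 8)).map (c3 i j k).toEmbedding) {i, l} = {i, j} := by decide +kernel

theorem InP.mem {x : X} (h : InP x) : x ∈ WG L xa := by
  obtain ⟨S, hS, h0, h1, rfl⟩ := h
  refine sg_mem' (A := {2, 3, 4, 5, 6, 7}) (fun i hi j hj h => ?_) hS fun i hi => ?_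
  · obtain ⟨k, h2, h3, h4, h5, h6⟩ : ∃ k, 2 ≤ k ∧ j ≠ k ∧ i ≠ k ∧ 2 ≤ i ∧ 2 ≤ j := by revert i j; decide
    exact sg_mem_WG (c3_mem_Wa h5 h6 h2 ⟨h, h3, h4⟩) (even_pair (i := i) (j := 0) (by omega)) (sg_comm _ _ _ _)
      (c3_pair i j k 0 h h3 h4 (by omega) (by omega) (by omega))
  · have h2 : i ≠ 0 := fun e => h0 (e ▸ hi)
    have h3 : i ≠ 1 := fun e => h1 (e ▸ hi)
    clear hi
    revert i
    decide

theorem xat_mem_Wa : xa * t ∈ WG L xa := InP.mem ⟨{2, 3, 4, 5, 6, 7}, by decide, by decide, by decide, ext_dec (by decide)⟩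

/-! ### Type `b` -/

theorem c3_mem_Wb {i j k : Fin 8} (h : (i ≤ 3 ∧ j ≤ 3 ∧ k ≤ 3) ∨ (4 ≤ i ∧ 4 ≤ j ∧ 4 ≤ k))
    (h1 : i ≠ j ∧ j ≠ k ∧ i ≠ k) : pm (c3 i j k) ∈ WG L xb :=
  mem_WG (odd_pm (by revert i j k; decide +kernel)) (comm_pm_iff.2 (by revert i j k; decide +kernel)).symm

theorem sg_mem_Wb {i j : Fin 8} (h : i ≤ 3 ↔ j ≤ 3) (h1 : i ≠ j) : sg {i, j} (even_pair h1) ∈ WG L xb := by
  obtain ⟨k, h2, h3, h4⟩ : ∃ k, ((i ≤ 3 ∧ j ≤ 3 ∧ k ≤ 3) ∨ (4 ≤ i ∧ 4 ≤ j ∧ 4 ≤ k)) ∧ j ≠ k ∧ i ≠ k := by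
    revert i j; decide
  obtain ⟨l, h5, h6, h7⟩ : ∃ l, l ≠ i ∧ l ≠ j ∧ l ≠ k := by clear h h1 h2 h3 h4; revert i j k; decide
  exact sg_mem_WG (c3_mem_Wb h2 ⟨h1, h3, h4⟩) (even_pair h5.symm) (sg_comm _ _ _ _) (c3_pair i j k l h1 h3 h4 h5 h6 h7)

theorem xb_mem_Wb : xb ∈ WG L xb := by
  have := mul_mem (sg_mem_Wb (i := 0) (j := 1) (by decide) (by decide)) (sg_mem_Wb (i := 2) (j := 3) (by decide) (by decide))
  rwa [ext_dec (h := xb) (g := _ * _) (by decide)] at this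

theorem t_mem_Wb : t ∈ WG L xb := by
  have := mul_mem xb_mem_Wb (mul_mem (sg_mem_Wb (i := 4) (j := 5) (by decide) (by decide))
    (sg_mem_Wb (i := 6) (j := 7) (by decide) (by decide)))
  rwa [ext_dec (h := t) (g := xb * _) (by decide)] at this

theorem conj_xb : ∃ l ∈ L, l * xb * l⁻¹ = xb * t :=
  ⟨pm (swap 0 4 * swap 1 5 * swap 2 6 * swap 3 7), pm_mem_L.2 (by decide), ext_dec (by decide)⟩

theorem exists_extra : ∃ α β : Fin 3 → X, (∀ i, α i ∈ WG L xb ∧ α i * α i = 1) ∧ (∀ i, β i ∈ WG L xb ∧ β i * β i = 1) ∧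
    (∀ i j, Commute (α i) (α j)) ∧ (∀ i j, i ≠ j → Commute (β i) (α j)) ∧
    ∀ i, β i * α i * (β i)⁻¹ = α i * xb ∨ β i * α i * (β i)⁻¹ = α i * (xb * t) := by
  have k : ∀ {i j k l : Fin 8} {σ}, pm (c3 i j k) ∈ WG L xb → pm (c3 j k l) ∈ WG L xb → c3 i j k * c3 j k l = σ →
      pm σ ∈ WG L xb := fun h1 h2 e => by rw [← e, pm_mul]; exact mul_mem h1 h2
  refine ⟨![sg {0, 1} (by decide), sg {4, 5} (by decide), sg {4, 6} (by decide)],
    ![pm (swap 0 2 * swap 1 3), pm (swap 4 6 * swap 5 7), pm (swap 4 5 * swap 6 7)], fun i => ?_, fun i => ?_,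
    fun i j => ?_, fun i j h => ext_dec ?_, fun i => ?_⟩
  · refine ⟨?_, ext_dec (by revert i; decide)⟩
    fin_cases i
    exacts [sg_mem_Wb (i := 0) (j := 1) (by decide) (by decide), sg_mem_Wb (i := 4) (j := 5) (by decide) (by decide),
      sg_mem_Wb (i := 4) (j := 6) (by decide) (by decide)]
  · refine ⟨?_, ext_dec (by revert i; decide)⟩
    fin_cases i
    · exact k (i := 0) (j := 2) (k := 1) (l := 3) (c3_mem_Wb (by decide) (by decide))
        (c3_mem_Wb (by decide) (by decide)) (by decide)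
    · exact k (i := 4) (j := 6) (k := 5) (l := 7) (c3_mem_Wb (by decide) (by decide))
        (c3_mem_Wb (by decide) (by decide)) (by decide)
    · exact k (i := 4) (j := 5) (k := 6) (l := 7) (c3_mem_Wb (by decide) (by decide))
        (c3_mem_Wb (by decide) (by decide)) (by decide)
  · exact ext_dec (by revert i j; decide)
  · revert i j; decide
  · fin_cases i
    exacts [Or.inl (ext_dec (by decide)), Or.inr (ext_dec (by decide)), Or.inr (ext_dec (by decide))]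

/-! ### Type `c` -/

/-- a permutation of order three of the pairs of coordinates -/
def p0 : X := pm (c3 0 2 4 * c3 1 3 5)

/-- a permutation of order three of the pairs of coordinates -/
def p1 : X := pm (c3 2 4 6 * c3 3 5 7)

theorem odd_p0 : Odd (orderOf p0) := odd_pm (by decide)

theorem odd_p1 : Odd (orderOf p1) := odd_pm (by decide)

theorem p1_mem_Wc : p1 ∈ WG L xc := mem_WG odd_p1 (ext_dec (by decide))

theorem q0_mem_Wc : sg {1, 3} (by decide) * p0 ∈ WG L xc :=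
  mem_WG (odd_of_pow (n := 3) (by decide) (by rw [pow_three]; exact ext_dec (by decide))) (ext_dec (by decide))

theorem rf_fr_comm (i j : Fin 8) : Commute (rf (fr i)) (rf (fr j)) := by
  by_cases e : i = j
  · rw [e]
  · exact rf_comm (by rw [dot_fr, if_neg e])

theorem rr_mem_WG {x w : X} (h : w ∈ WG L x) {a b : R} (c : Commute (rf a) x)
    (e : (ap w a : V) = b ∨ (ap w a : V) = -(b : V)) : rf b * rf a ∈ WG L x := by
  have := comm_mem_WG h c
  rwa [← mul_assoc, ← mul_assoc, conj_rf, rf_inv,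
    show rf (ap w a) = rf b from e.elim (fun e => congrArg rf (Subtype.ext e)) rf_neg] at this

theorem rf_comm_xc (i : Fin 8) : Commute (rf (fr i)) xc := by
  rw [xc_eq]
  exact (((rf_fr_comm _ _).mul_right (rf_fr_comm _ _)).mul_right (rf_fr_comm _ _)).mul_right (rf_fr_comm _ _)

/-- products of two reflections of the same half of the frame -/
theorem rr_mem_Wc {i j : Fin 8} (h : i ∈ [1, 2, 4, 6] ↔ j ∈ [1, 2, 4, 6]) : rf (fr i) * rf (fr j) ∈ WG L xc := by
  let p := fun i j : Fin 8 => rf (fr i) * rf (fr j) ∈ WG L xc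
  have h1 : ∀ i, p i i := fun i => by simp only [p, rf_sq]; exact one_mem _
  have h2 : ∀ {i j}, p i j → p j i := fun h => by simpa only [p, mul_inv_rev, rf_inv] using inv_mem h
  have h3 : ∀ {i j k}, p i j → p j k → p i k := fun {i j k} h h' => by
    have := mul_mem h h'
    rwa [mul_assoc, ← mul_assoc (rf (fr j)), rf_sq, one_mul] at this
  have a2 : p 2 1 := rr_mem_WG q0_mem_Wc (rf_comm_xc 1) (by decide)
  have a4 : p 4 1 := h3 (rr_mem_WG p1_mem_Wc (rf_comm_xc 2) (by decide)) a2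
  have a6 : p 6 1 := h3 (rr_mem_WG p1_mem_Wc (rf_comm_xc 4) (by decide)) a4
  have a3 : p 3 0 := rr_mem_WG q0_mem_Wc (rf_comm_xc 0) (by decide)
  have a5 : p 5 0 := h3 (rr_mem_WG p1_mem_Wc (rf_comm_xc 3) (by decide)) a3
  have a7 : p 7 0 := h3 (rr_mem_WG p1_mem_Wc (rf_comm_xc 5) (by decide)) a5
  have h4 : ∀ i, p i (if i ∈ [1, 2, 4, 6] then 1 else 0) := fun i => by
    fin_cases i
    exacts [h1 0, h1 1, a2, a3, a4, a5, a6, a7]
  exact h3 (h4 i) (h2 (by simpa only [h] using h4 j))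

theorem xc_mem_Wc : xc ∈ WG L xc := by
  have := mul_mem (rr_mem_Wc (i := 1) (j := 2) (by decide)) (rr_mem_Wc (i := 4) (j := 6) (by decide))
  rwa [← mul_assoc, ← xc_eq] at this

theorem rr_swap (i j k l : Fin 8) : rf (fr i) * rf (fr j) * (rf (fr k) * rf (fr l)) =
    rf (fr i) * rf (fr k) * (rf (fr j) * rf (fr l)) := (rf_fr_comm j k).mul_mul_mul_comm _ _

theorem xb_mem_Wc : xb ∈ WG L xc := by
  have := mul_mem (rr_mem_Wc (i := 0) (j := 3) (by decide)) (rr_mem_Wc (i := 1) (j := 2) (by decide))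
  rwa [rr_swap, (rf_fr_comm 3 2).eq, ← xa_eq,
    ext_dec (g := rf (fr 2) * _) (h := sg {2, 3} (by decide)) (by decide), ext_dec (h := xb) (g := _ * _) (by decide)] at this

theorem t_mem_Wc : t ∈ WG L xc := by
  have := mul_mem (rr_mem_Wc (i := 4) (j := 6) (by decide)) (rr_mem_Wc (i := 5) (j := 7) (by decide))
  rw [rr_swap, ext_dec (g := rf (fr 4) * _) (h := sg {4, 5} (by decide)) (by decide),
    ext_dec (g := rf (fr 6) * _) (h := sg {6, 7} (by decide)) (by decide)] at this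
  have h := mul_mem xb_mem_Wc this
  rwa [ext_dec (h := t) (g := xb * _) (by decide)] at h

theorem conj_xc : ∃ l ∈ L, l * xc * l⁻¹ = xc * t :=
  ⟨sg {1, 3, 5, 7} (by decide), sg_mem_L _ _, ext_dec (by decide)⟩

theorem conj_xc_xb : ∃ l ∈ L, l * xc * l⁻¹ = xc * xb :=
  ⟨pm (swap 0 2 * swap 1 3), pm_mem_L.2 (by decide), ext_dec (by decide)⟩

/-! ### Type `i` -/

theorem xi_mem_Wi : xi ∈ WG L xi := by
  have h0 : p0 ∈ WG L xi := mem_WG odd_p0 (ext_dec (by decide))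
  have h1 : p1 ∈ WG L xi := mem_WG odd_p1 (ext_dec (by decide))
  have a := comm_mem_WG h0 (y := sg {0, 6} (by decide) * pm (swap 0 1 * swap 6 7)) (ext_dec (by decide))
  have b := sg_mem_WG (T := {2, 3, 4, 5}) (hT := by decide) h1 (S := {2, 3}) (by decide) (ext_dec (by decide))
    (by decide)
  have c := comm_mem_WG h1 (y := sg {0, 4} (by decide) * pm (swap 0 1 * swap 4 5)) (ext_dec (by decide))
  have := mul_mem (mul_mem (inv_mem a) b) c
  rwa [ext_dec (h := xi) (g := _⁻¹ * _ * _) (by decide +kernel)] at this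

/-! ### Type `r` -/

theorem t_notMem_Wr : t ∉ WG L xr := fun h =>
  ne_t_of_fix (fix_of_WG (v := fr 0) (fun _ ho c => fix_of_odd ho (line_of_comm (xr_eq ▸ c))) h) rfl

theorem rr_cube {a b : R} (h : dot a b = 4) : (rf a * rf b) ^ 3 = 1 := by
  have h' : dot b a = 4 := (dot_comm _ _).trans h
  have k : ∀ {a b : R} (h : dot a b = 4), rf b * rf a * rf b = rf (dif a b h) := fun {a b} h => by
    have := conj_rf (rf b) a
    rw [rf_inv] at this
    rw [this]
    exact congrArg rf (Subtype.ext (by rw [ap_rf, rfV, h]; simp [dif]))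
  have e : rf a * rf b * rf a = rf b * rf a * rf b := by rw [k h, k h']; exact rf_neg (by simp [dif])
  calc _ = (rf a * rf b * rf a) * (rf b * rf a * rf b) := by simp only [pow_three, mul_assoc]
    _ = 1 := by rw [e, k h, rf_sq]

theorem rr_mem_Wr {a b : R} (ha : dot a (fr 0) = 0) (hb : dot b (fr 0) = 0) (h : dot a b = 4) :
    rf a * rf b ∈ WG L xr :=
  mem_WG (odd_of_pow (n := 3) (by decide) (rr_cube h))
    (xr_eq ▸ ((rf_comm ha).mul_left (rf_comm hb)).symm)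

theorem Wa_le_Wr : WG L xa ≤ WG L xr := (closure_le _).2 fun _ hw =>
  mem_WG hw.2.1 (xr_comm_Wa (mem_WG hw.2.1 hw.2.2))

theorem trr_mem_Wr {j : Fin 8} (h : j ≠ 0) : t * (rf (fr j) * rf (fr 0)) ∈ WG L xr := by
  have h1 : rf (fr j) * rf (fr 1) ∈ WG L xr := by
    by_cases e : j = 1
    · rw [e, rf_sq]; exact one_mem _
    obtain ⟨c, -, h2, h3, h4⟩ : ∃ c ∈ [rt [1, 1, 1, -1, 1, -1, 1, 1], rt [1, 1, 1, 1, 1, 1, 1, 1],
        rt [1, 1, 1, -1, 1, 1, 1, -1]], dot c (fr 0) = 0 ∧ dot (fr j) c = 4 ∧ dot c (fr 1) = 4 := by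
      revert j; decide
    have := mul_mem (rr_mem_Wr (by rw [dot_fr, if_neg h]) h2 h3) (rr_mem_Wr h2 (by decide) h4)
    rwa [mul_assoc, ← mul_assoc (rf c), rf_sq, one_mul] at this
  have := mul_mem h1 (Wa_le_Wr xat_mem_Wa)
  rwa [xa_eq, (rf_fr_comm 0 1).eq, mul_assoc, mul_assoc, ← mul_assoc (rf (fr 1)), rf_sq, one_mul, ← mul_assoc,
    (t_comm _).eq] at this

/-! ### Type `f` -/

theorem t_notMem_Wf : t ∉ WG L xf := fun h => by
  have k : ∀ v : R, ap xf v = v → dot v (fr 6) ≠ 4 ∧ dot v (fr 6) ≠ -4 ∧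
      (dot v (fr 1) ≠ 4 → dot v (fr 1) ≠ -4 → dot v (rt [1, 1, 1, 1, 1, 1, 1, 1]) ≠ 4 →
        dot v (rt [1, 1, 1, 1, 1, 1, 1, 1]) ≠ -4 → (v : V) = fr 6 ∨ (v : V) = -(fr 6 : V)) := fun v e => by
    have h0 : v.1 1 = v.1 0 := congrFun (congrArg Subtype.val e) 0
    have h2 : v.1 3 = v.1 2 := congrFun (congrArg Subtype.val e) 2
    have h4 : v.1 5 = v.1 4 := congrFun (congrArg Subtype.val e) 4
    have h5 : v.1 = ![v.1 0, v.1 0, v.1 2, v.1 2, v.1 4, v.1 4, v.1 6, v.1 7] := funext fun i => by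
      fin_cases i
      exacts [rfl, h0, rfl, h2, rfl, h4, rfl, rfl]
    have h6 : ∀ i, v.1 i ∈ [(-2 : ℤ), -1, 0, 1, 2] := fun i => by
      have := v.2.bound i
      simp only [List.mem_cons, List.not_mem_nil, or_false]
      omega
    have h7 := v.2
    rw [h5] at h7 ⊢
    have key : ∀ x ∈ [(-2 : ℤ), -1, 0, 1, 2], ∀ y ∈ [(-2 : ℤ), -1, 0, 1, 2], ∀ z ∈ [(-2 : ℤ), -1, 0, 1, 2],
        ∀ p ∈ [(-2 : ℤ), -1, 0, 1, 2], ∀ q ∈ [(-2 : ℤ), -1, 0, 1, 2],
        2 * (x * x + y * y + z * z) + p * p + q * q = 8 → IsRoot ![x, x, y, y, z, z, p, q] →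
        dot ![x, x, y, y, z, z, p, q] (fr 6) ≠ 4 ∧ dot ![x, x, y, y, z, z, p, q] (fr 6) ≠ -4 ∧
        (dot ![x, x, y, y, z, z, p, q] (fr 1) ≠ 4 → dot ![x, x, y, y, z, z, p, q] (fr 1) ≠ -4 →
          dot ![x, x, y, y, z, z, p, q] (rt [1, 1, 1, 1, 1, 1, 1, 1]) ≠ 4 →
          dot ![x, x, y, y, z, z, p, q] (rt [1, 1, 1, 1, 1, 1, 1, 1]) ≠ -4 →
          ![x, x, y, y, z, z, p, q] = (fr 6 : V) ∨ ![x, x, y, y, z, z, p, q] = -(fr 6 : V)) := by decide +kernel
    refine key _ (h6 0) _ (h6 2) _ (h6 4) _ (h6 6) _ (h6 7) ?_ h7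
    have := h7.2
    simp [dot] at this
    linarith
  refine ne_t_of_fix (fix_of_WG (v := fr 6) (fun g ho c => fix_of_odd ho ?_) h) rfl
  have k1 : ∀ g v, Commute xf g → ap xf v = v → ap xf (ap g v) = ap g v := fun g v c e => by
    rw [← ap_mul, c.eq, ap_mul, e]
  have k2 : ∀ u : R, ap xf u = u → dot (ap g (fr 6)) u ≠ 4 ∧ dot (ap g (fr 6)) u ≠ -4 := fun u e => by
    rw [← ap_ap_inv g u, dot_ap, dot_comm]
    exact ⟨(k _ (k1 _ _ c.inv_right e)).1, (k _ (k1 _ _ c.inv_right e)).2.1⟩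
  have h1 := k2 (fr 1) (Subtype.ext (by decide))
  have h2 := k2 (rt [1, 1, 1, 1, 1, 1, 1, 1]) (Subtype.ext (by decide))
  exact ((k _ (k1 _ _ c (Subtype.ext (by decide)))).2.2 h1.1 h1.2 h2.1 h2.2).imp Subtype.ext
    fun e => Subtype.ext (e.trans (ng_val _).symm)

theorem xb_mem_Wf : xb ∈ WG L xf :=
  sg_mem_WG (mem_WG odd_p0 (ext_dec (by decide))) (S := {0, 1}) (by decide) (ext_dec (by decide)) (by decide)

theorem conj_xf : ∃ l ∈ L, l * xf * l⁻¹ = xb * xf := ⟨sg {0, 2} (by decide), sg_mem_L _ _, ext_dec (by decide)⟩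

end CfsgLib.StdE8
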