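import Mathlib
import Cfsg.Agent.Lib.StdE8.W
import Cfsg.Agent.Lib.StdE8.Nrm

/-!
# Centralisers of the 2-elements of `O²(C_L(s))`
-/

set_option autoImplicit false

namespace CfsgLib.StdE8

open Subgroup Equiv CfsgLib.StdInt

theorem pm_sq {σ : Perm (Fin 8)} (h : σ * σ = 1) : pm σ * pm σ = 1 := by rw [← pm_mul, h, pm_one]

theorem c3_mul (i j k l : Fin 8) : c3 i j k * c3 j k l = swap i j * swap k l := by
  rw [c3, c3, mul_assoc, swap_mul_self_mul]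

theorem dt_mem_Wa {i j k l : Fin 8} (hi : 2 ≤ i) (hj : 2 ≤ j) (hk : 2 ≤ k) (hl : 2 ≤ l)
    (h : i ≠ j ∧ j ≠ k ∧ i ≠ k) (h' : j ≠ k ∧ k ≠ l ∧ j ≠ l) : pm (swap i j * swap k l) ∈ WG L xa := by
  rw [← c3_mul, pm_mul]
  exact mul_mem (c3_mem_Wa hi hj hk h) (c3_mem_Wa hj hk hl h')

theorem dt_mem_Wb {i j k l : Fin 8} (h1 : (i ≤ 3 ∧ j ≤ 3 ∧ k ≤ 3) ∨ (4 ≤ i ∧ 4 ≤ j ∧ 4 ≤ k))
    (h2 : (j ≤ 3 ∧ k ≤ 3 ∧ l ≤ 3) ∨ (4 ≤ j ∧ 4 ≤ k ∧ 4 ≤ l))
    (h : i ≠ j ∧ j ≠ k ∧ i ≠ k) (h' : j ≠ k ∧ k ≠ l ∧ j ≠ l) : pm (swap i j * swap k l) ∈ WG L xb := by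
  rw [← c3_mul, pm_mul]
  exact mul_mem (c3_mem_Wb h1 h) (c3_mem_Wb h2 h')

theorem cent_P {y : X} (h : ∀ v, InP v → Commute y v) : ∃ S hS, y = sg S hS ∨ y = sg S hS * xr := by
  have k : ∀ i j (hij : i ≠ j), 2 ≤ i → 2 ≤ j → Commute y (sg {i, j} (even_pair hij)) := fun i j hij hi hj =>
    h _ ⟨_, _, by simp only [Finset.mem_insert, Finset.mem_singleton]; omega,
      by simp only [Finset.mem_insert, Finset.mem_singleton]; omega, rfl⟩
  obtain ⟨S, hS, σ, rfl⟩ := mono_of_comm (by decide) (k 2 3 (by decide) (by decide) (by decide))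
  have k1 : ∀ i, 2 ≤ i → σ i = i := fun i hi => by
    obtain ⟨j, l, a1, a2, a3, a4, a5⟩ := (by decide : ∀ i : Fin 8, ∃ j l, i ≠ j ∧ i ≠ l ∧ j ≠ l ∧ 2 ≤ j ∧ 2 ≤ l) i
    exact fix_of_pairs a3 (comm_sg_iff.1 (k i j a1 hi a4)) (comm_sg_iff.1 (k i l a2 hi a5))
  have k2 : ∀ i, i < 2 → σ i < 2 := fun i hi => by_contra fun e => by
    rw [σ.injective (k1 _ (not_lt.1 e))] at e
    exact e hi
  have k3 : σ 0 ≠ σ 1 := fun e => absurd (σ.injective e) (by decide)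
  have k4 := k2 0 (by decide)
  have k5 := k2 1 (by decide)
  have k6 : ∀ τ : Perm (Fin 8), σ 0 = τ 0 → σ 1 = τ 1 → (∀ i, 2 ≤ i → τ i = i) → σ = τ := fun τ e0 e1 e =>
    Equiv.ext fun i => if hi : 2 ≤ i then (k1 i hi).trans (e i hi).symm else by
      obtain rfl | rfl : i = 0 ∨ i = 1 := by omega
      exacts [e0, e1]
  refine ⟨S, hS, ?_⟩
  by_cases e : σ 0 = 0
  · exact Or.inl (by rw [k6 1 e (show σ 1 = 1 by omega) fun _ _ => rfl, pm_one, mul_one])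
  · exact Or.inr (by rw [k6 (swap 0 1) (show σ 0 = 1 by omega) (show σ 1 = 0 by omega) (by decide), xr])

theorem cent_a {y : X} (h : ∀ v ∈ WG L xa, Two v → Commute y v) :
    ∃ z ∈ [1, t, xa, xa * t], y = z ∨ y = z * xr := by
  obtain ⟨S, hS, e⟩ := cent_P (y := y) fun v hv => h v hv.mem (two_of_sq (by
    obtain ⟨T, hT, -, -, rfl⟩ := hv
    exact sg_sq _ _))
  have k : ∀ σ, pm σ ∈ WG L xa → σ * σ = 1 → S.map σ.toEmbedding = S := fun σ hσ e' => by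
    have c := h _ hσ (two_of_sq (pm_sq e'))
    refine (comm_pm_iff (hS := hS)).1 (Commute.symm ?_)
    rcases e with rfl | rfl
    · exact c
    · simpa using c.mul_left (xr_comm_Wa hσ).inv_left
  have h1 := k _ (dt_mem_Wa (i := 2) (j := 3) (k := 4) (l := 5) (by decide) (by decide) (by decide) (by decide)
    (by decide) (by decide)) (by decide)
  have h2 := k _ (dt_mem_Wa (i := 2) (j := 4) (k := 3) (l := 6) (by decide) (by decide) (by decide) (by decide)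
    (by decide) (by decide)) (by decide)
  have h3 := k _ (dt_mem_Wa (i := 2) (j := 3) (k := 6) (l := 7) (by decide) (by decide) (by decide) (by decide)
    (by decide) (by decide)) (by decide)
  have h4 : S = ∅ ∨ S = Finset.univ ∨ S = {0, 1} ∨ S = {2, 3, 4, 5, 6, 7} := by
    clear e k
    revert S
    decide +kernel
  refine ⟨_, ?_, e⟩
  rcases h4 with rfl | rfl | rfl | rfl
  · simp [sg_empty]
  · exact List.mem_cons_of_mem _ List.mem_cons_self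
  · exact List.mem_cons_of_mem _ (List.mem_cons_of_mem _ List.mem_cons_self)
  · rw [show sg _ hS = xa * t from ext_dec (g := sg {2, 3, 4, 5, 6, 7} (by decide)) (by decide)]
    simp

theorem cent_b {y : X} (h : ∀ v ∈ WG L xb, Two v → Commute y v) : y ∈ [1, t, xb, xb * t] := by
  have k : ∀ i j (hij : i ≠ j), (i ≤ 3 ↔ j ≤ 3) → Commute y (sg {i, j} (even_pair hij)) := fun i j hij e =>
    h _ (sg_mem_Wb e hij) (two_of_sq (sg_sq _ _))
  obtain ⟨S, hS, σ, rfl⟩ := mono_of_comm (by decide) (k 0 1 (by decide) (by decide))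
  obtain rfl : σ = 1 := Equiv.ext fun i => by
    obtain ⟨j, l, a1, a2, a3, a4, a5⟩ := (by decide : ∀ i : Fin 8, ∃ j l, i ≠ j ∧ i ≠ l ∧ j ≠ l ∧
      (i ≤ 3 ↔ j ≤ 3) ∧ (i ≤ 3 ↔ l ≤ 3)) i
    exact fix_of_pairs a3 (comm_sg_iff.1 (k i j a1 a4)) (comm_sg_iff.1 (k i l a2 a5))
  rw [pm_one, mul_one] at h ⊢
  have k1 : ∀ σ, pm σ ∈ WG L xb → σ * σ = 1 → S.map σ.toEmbedding = S := fun σ hσ e' =>
    comm_pm_iff.1 (h _ hσ (two_of_sq (pm_sq e'))).symm
  have h1 := k1 _ (dt_mem_Wb (i := 0) (j := 1) (k := 2) (l := 3) (by decide) (by decide) (by decide) (by decide))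
    (by decide)
  have h2 := k1 _ (dt_mem_Wb (i := 0) (j := 2) (k := 1) (l := 3) (by decide) (by decide) (by decide) (by decide))
    (by decide)
  have h3 := k1 _ (dt_mem_Wb (i := 4) (j := 5) (k := 6) (l := 7) (by decide) (by decide) (by decide) (by decide))
    (by decide)
  have h4 := k1 _ (dt_mem_Wb (i := 4) (j := 6) (k := 5) (l := 7) (by decide) (by decide) (by decide) (by decide))
    (by decide)
  have h5 : S = ∅ ∨ S = Finset.univ ∨ S = {0, 1, 2, 3} ∨ S = {4, 5, 6, 7} := by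
    clear h k k1 hS
    revert S
    decide +kernel
  rcases h5 with rfl | rfl | rfl | rfl
  · simp [sg_empty]
  · exact List.mem_cons_of_mem _ List.mem_cons_self
  · exact List.mem_cons_of_mem _ (List.mem_cons_of_mem _ List.mem_cons_self)
  · rw [show sg _ hS = xb * t from ext_dec (g := sg {4, 5, 6, 7} (by decide)) (by decide)]
    simp

theorem cent_c {y : X} (h : ∀ v ∈ WG L xc, Two v → Commute y v) : y ∈ [1, t, xc, xc * t] := by
  have c := h _ xc_mem_Wc (two_of_sq xc_sq)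
  have k5 : ∀ m, fr m ≠ ng (fr m) := fun m e => root_ne_neg _ ((congrArg Subtype.val e).trans (ng_val _))
  have k1 : ∀ i, ∃ j, ap y (fr i) = fr j ∨ ap y (fr i) = ng (fr j) := fun i => by
    have e : ap xc (ap y (fr i)) = ap y (ap xc (fr i)) := by rw [← ap_mul, ← c.eq, ap_mul]
    rw [xc_fr] at e
    split_ifs at e with hi
    · exact (xc_neg (e.trans (ap_ng _ _))).imp fun _ a => a.2
    · exact (xc_fix e).imp fun _ a => a.2
  choose f hw using k1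
  have k2 : ∀ i, y * rf (fr i) * y⁻¹ = rf (fr (f i)) := fun i => by
    rcases hw i with e | e <;> rw [conj_rf, e]
    exact rf_ng _
  have k3 : ∀ i, f i = i := fun i => by_contra fun hi => by
    have k4 : ∀ j, i ≠ j → (i ∈ [1, 2, 4, 6] ↔ j ∈ [1, 2, 4, 6]) → rf (fr j) = y⁻¹ * rf (fr i) * y := fun j hj e => by
      have e1 := mul_inv_eq_iff_eq_mul.2 (h _ (rr_mem_Wc e) (two_of_sq (by rw [rr_swap, rf_sq, rf_sq, mul_one]))).eq
      rw [← conj_mul, k2, k2] at e1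
      have e2 := congrArg (ap · (fr i)) e1
      by_cases e3 : i = f j
      · rw [e3, ← k2]; group
      · exact (k5 i (by simpa [ap_mul, ap_rf_fr, ap_ng, hj, e3, Ne.symm hi] using e2)).elim
    obtain ⟨j, ⟨a1, a4⟩, l, ⟨a2, a5⟩, a3⟩ := (by decide : ∀ i : Fin 8, ∃ j, (i ≠ j ∧
      (i ∈ [1, 2, 4, 6] ↔ j ∈ [1, 2, 4, 6])) ∧ ∃ l, (i ≠ l ∧ (i ∈ [1, 2, 4, 6] ↔ l ∈ [1, 2, 4, 6])) ∧ j ≠ l) i
    exact k5 j (by simpa [ap_rf_fr, a3] using congrArg (ap · (fr j)) ((k4 l a2 a5).trans (k4 j a1 a4).symm))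
  simp only [k3] at hw
  have k6 : ∀ u ∈ WG L xc, u * u = 1 → ∀ i j, ap u (fr i) = fr j → (ap y (fr j) = fr j ↔ ap y (fr i) = fr i) :=
    fun u hu e i j e' => by
      rw [← e', ← ap_mul, (h u hu (two_of_sq e)).eq, ap_mul]
      exact ⟨ap_inj, congrArg _⟩
  have m1 := mul_mem q0_mem_Wc p1_mem_Wc
  have m2 := mul_mem p1_mem_Wc q0_mem_Wc
  have u1 := k6 _ m1 (ext_dec (by decide))
  have u2 := k6 _ m2 (ext_dec (by decide))
  have k7 : ∀ j, ap y (fr j) = fr j ↔ if j ∈ Hc then ap y (fr 1) = fr 1 else ap y (fr 0) = fr 0 := fun j => by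
    have a2 := u1 1 2 (Subtype.ext (by decide))
    have a3 := u1 0 3 (Subtype.ext (by decide))
    have a4 := u2 1 4 (Subtype.ext (by decide))
    have a5 := u2 0 5 (Subtype.ext (by decide))
    fin_cases j
    exacts [Iff.rfl, Iff.rfl, a2, a3, a4, a5, (u1 4 6 (Subtype.ext (by decide))).trans a4,
      (u1 5 7 (Subtype.ext (by decide))).trans a5]
  have k8 : ∀ j, ap t (fr j) = ng (fr j) := fun _ => rfl
  simp only [List.mem_cons, List.not_mem_nil, or_false]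
  by_cases e0 : ap y (fr 0) = fr 0 <;> by_cases e1 : ap y (fr 1) = fr 1 <;> simp only [e0, e1] at k7
  · exact Or.inl (ext_fr fun j => (k7 j).2 (by simp))
  · refine Or.inr (Or.inr (Or.inl (ext_fr fun j => ?_)))
    rw [xc_fr]
    split_ifs with hj
    exacts [(hw j).resolve_left (by simp [k7, hj]), by simp [k7, hj]]
  · refine Or.inr (Or.inr (Or.inr (ext_fr fun j => ?_)))
    rw [ap_mul, k8, ap_ng, xc_fr]
    split_ifs with hj
    exacts [by simp [k7, hj, ng_ng], (hw j).resolve_left (by simp [k7, hj])]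
  · exact Or.inr (Or.inl (ext_fr fun j => (hw j).resolve_left (by simp [k7])))

theorem mono_Wa {v : X} (hv : v ∈ WG L xa) :
    ∃ S hS σ, v = sg S hS * pm σ ∧ 0 ∉ S ∧ 1 ∉ S ∧ σ 0 = 0 ∧ σ 1 = 1 := by
  obtain ⟨h0, h1⟩ := fix_Wa hv
  obtain ⟨S, hS, σ, rfl⟩ := mono_of_fr (g := v) fun j hj => ⟨j, hj, Or.inl (by
    obtain rfl | rfl : j = 0 ∨ j = 1 := by omega
    exacts [h0, h1])⟩
  have e := fun i => (by decide : ∀ i ≤ 1, ∀ k, ∀ c ∈ [(1 : ℤ), -1], c * (fr 0 : V) k = (fr 0 : V) i →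
    c * (fr 1 : V) k = (fr 1 : V) i → k = i ∧ c = 1) i
  have k : ∀ i ≤ 1, i ∉ S ∧ σ i = i := fun i hi => by
    obtain ⟨e1, e2⟩ := e i hi (σ⁻¹ i) (sv S i) (by unfold sv; split_ifs <;> simp)
      (congrFun (congrArg Subtype.val h0) i) (congrFun (congrArg Subtype.val h1) i)
    exact ⟨fun hS => by simp [sv, hS] at e2, (Perm.inv_eq_iff_eq.1 e1).symm⟩
  exact ⟨S, hS, σ, rfl, (k 0 (by decide)).1, (k 1 le_rfl).1, (k 0 (by decide)).2, (k 1 le_rfl).2⟩

/-- the subgroup `2⁵ = O₂(O²(C_L(a)))` is recognised inside the set of 2-elements of `O²(C_L(a))` -/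
theorem inP_iff {v : X} (hv : v ∈ WG L xa) : InP v ↔ ∀ u ∈ WG L xa, Two u → Commute v (u * v * u⁻¹) := by
  refine ⟨?_, fun h => ?_⟩
  · rintro ⟨S, hS, -, -, rfl⟩ u hu -
    obtain ⟨T, hT, σ, rfl, -⟩ := mono_Wa hu
    rw [eq_mul_inv_iff_mul_eq.1 (comm_mono T S hT hS σ).symm |>.symm]
    exact (sg_comm _ _ _ _).mul_right (Commute.refl _)
  obtain ⟨S, hS, σ, rfl, h0, h1, e0, e1⟩ := mono_Wa hv
  refine ⟨S, hS, h0, h1, ?_⟩
  by_cases e : σ = 1
  · rw [e, pm_one, mul_one]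
  exfalso
  have k : ∀ i, 2 ≤ i → 2 ≤ σ i := fun i hi => by_contra fun e => by
    obtain e | e : σ i = σ 0 ∨ σ i = σ 1 := by omega
    all_goals exact absurd (σ.injective e ▸ hi) (by decide)
  obtain ⟨a, ha⟩ : ∃ a, σ a ≠ a := by_contra fun e' => e (Equiv.ext (by simpa using e'))
  have ha2 : 2 ≤ a := by_contra fun e => by
    obtain rfl | rfl : a = 0 ∨ a = 1 := by omega
    exacts [ha e0, ha e1]
  have av : ∀ a b c d : Fin 8, ∃ w, 2 ≤ w ∧ w ≠ a ∧ w ≠ b ∧ w ≠ c ∧ w ≠ d := fun a b c d => by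
    simpa using Finset.exists_mem_notMem_of_card_lt_card (s := {a, b, c, d}) (t := Finset.Ici 2)
      (Finset.card_le_four.trans_lt (by decide))
  obtain ⟨d, d1, d2, d3, d4, -⟩ := av a (σ a) (σ⁻¹ a) a
  obtain ⟨z, a1, a4, a5, a6, a10⟩ : ∃ z, 2 ≤ z ∧ z ≠ a ∧ z ≠ σ a ∧ z ≠ d ∧ (σ d = d ∨ σ d = z) := by
    by_cases e : σ d = d
    · exact (av a (σ a) d a).imp fun z h => ⟨h.1, h.2.1, h.2.2.1, h.2.2.2.1, Or.inl e⟩
    · exact ⟨_, k d d1, fun e => d4 (Perm.eq_inv_iff_eq.2 e), fun e => d2 (σ.injective e), e, Or.inr rfl⟩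
  obtain ⟨w, a2, a7, a8, a9, a3⟩ := av a (σ a) d z
  replace a3 := a3.symm
  have hτ : swap (σ a) d * swap z w * (swap (σ a) d * swap z w) = 1 := by
    rw [((Perm.disjoint_swap_swap (by
      simp [d3.symm, a5.symm, a8.symm, a6.symm, a9.symm, a3])).commute).symm.mul_mul_mul_comm]
    simp
  have c := (h _ (dt_mem_Wa (k a ha2) d1 a1 a2 ⟨d3.symm, a6.symm, a5.symm⟩ ⟨a6.symm, a3, a9.symm⟩)
    (two_of_sq (pm_sq hτ))).eq
  rw [inv_eq_of_mul_eq_one_right (pm_sq hτ), ← mul_assoc (pm _), pm_mul_sg, mul_assoc _ (pm (_ * _)) (pm σ),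
    ← pm_mul, mul_assoc _ (pm (_ * σ)) (pm _), ← pm_mul, mono_mul, mono_mul] at c
  have c1 := congrArg (· a) (mono_inj c).2
  have t1 : (swap (σ a) d * swap z w) a = a := by simp [swap_apply_def, ha.symm, d2.symm, a4.symm, a7.symm]
  have t2 : (swap (σ a) d * swap z w) (σ a) = d := by simp [swap_apply_def, a5.symm, a8.symm]
  simp only [Perm.mul_apply (f := _ * σ), Perm.mul_apply (g := σ), Perm.mul_apply (f := σ), t1, t2] at c1
  rcases a10 with e | e <;> simp [e, swap_apply_def, a6.symm, a9.symm, d3, a3, a8, a9] at c1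

end CfsgLib.StdE8
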