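import Mathlib
import Cfsg.Agent.Lib.StdE8.W

/-!
# The classes of involutions of `W(E₈) / {± 1}`
-/

set_option autoImplicit false

namespace CfsgLib.StdE8

open Subgroup Equiv

/-- `x` keeps the line of `v` -/
def Kp (x : X) (v : R) : Prop := ap x v = v ∨ ap x v = ng v

theorem dot_ng (u : V) (v : R) : dot u (ng v) = -dot u v := by rw [ng_val, dot_comm, dot_neg, dot_comm]

theorem Kp.orth {x : X} {u v : R} (h : Kp x u) (e : dot v u = 0) : dot (ap x v) u = 0 := by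
  rw [← dot_ap x] at e
  rcases h with h | h <;> rw [h] at e
  · exact e
  · rwa [dot_ng, neg_eq_zero] at e

theorem ap_dif (g : X) {a b : R} (h : dot a b = 4) : (ap g (dif a b h) : V) = (ap g a : V) - ap g b :=
  eq_of_dot fun c => by rw [← ap_ap_inv g c, dot_sub, dot_ap, dot_ap, dot_ap, dif, dot_sub]

theorem exists_kp {x : X} (h : x * x = 1) {w : V} {v : R} (h1 : dot v w = 0) (h2 : dot (ap x v) w = 0)
    (h3 : dot v (ap x v) ≠ 0) : ∃ u : R, dot u w = 0 ∧ Kp x u := by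
  have xx : ap x (ap x v) = v := by rw [← ap_mul, h, ap_one]
  rcases dot_cases v (ap x v) with e | e | e | e | e
  · exact ⟨v, h1, Or.inl (Subtype.ext e.symm)⟩
  · exact ⟨v, h1, Or.inr (Subtype.ext (by rw [ng_val]; exact neg_eq_iff_eq_neg.1 e.symm))⟩
  · exact absurd e h3
  · exact ⟨dif _ _ e, by rw [dif, dot_sub, h1, h2]; rfl,
      Or.inr (Subtype.ext (by rw [ap_dif, xx, ng_val, dif, neg_sub]))⟩
  · have e1 : dot v (ng (ap x v)) = 4 := by rw [dot_ng, e]; rfl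
    refine ⟨dif _ _ e1, by rw [dif, dot_sub, ng_val, dot_neg, h1, h2]; rfl, Or.inl (Subtype.ext ?_)⟩
    rw [ap_dif, ap_ng, xx]
    simp only [dif, ng_val, sub_neg_eq_add, add_comm]

theorem mono_conj {x : X} (h : x * x = 1 ∨ x * x = t) : ∃ g, Mono (g * x * g⁻¹) := by
  have k : ∀ u v : R, dot u v = 0 → (Kp x u ∧ Kp x v) ∨ (ap x u = v ∧ (ap x v = u ∨ ap x v = ng u)) →
      ∃ g, Mono (g * x * g⁻¹) := fun u v e h => by
    obtain ⟨g, e0, e1⟩ := exists_ap2 e
    have a0 : ap (g * x * g⁻¹) (fr 0) = ap g (ap x u) := by rw [← e0, ap_mul, ap_inv_ap, ap_mul]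
    have a1 : ap (g * x * g⁻¹) (fr 1) = ap g (ap x v) := by rw [← e1, ap_mul, ap_inv_ap, ap_mul]
    refine ⟨g, mono_of_fr fun j hj => ?_⟩
    rcases (show j = 0 ∨ j = 1 by omega) with rfl | rfl <;> rcases h with ⟨h1, h2⟩ | ⟨h1, h2⟩
    · exact ⟨0, by decide, h1.imp (fun h => by rw [a0, h, e0]) fun h => by rw [a0, h, ap_ng, e0]⟩
    · exact ⟨1, by decide, Or.inl (by rw [a0, h1, e1])⟩
    · exact ⟨1, by decide, h2.imp (fun h => by rw [a1, h, e1]) fun h => by rw [a1, h, ap_ng, e1]⟩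
    · exact ⟨0, by decide, h2.imp (fun h => by rw [a1, h, e0]) fun h => by rw [a1, h, ap_ng, e0]⟩
  by_cases e : ∃ v : R, dot v (ap x v) = 0
  · obtain ⟨v, e⟩ := e
    exact k _ _ e (Or.inr ⟨rfl, h.imp (fun h => by rw [← ap_mul, h, ap_one]) fun h => by rw [← ap_mul, h, ng]⟩)
  push Not at e
  rcases h with h | h
  · obtain ⟨u, -, hu⟩ := exists_kp h (dot_zero _) (dot_zero _) (e (fr 0))
    obtain ⟨g, rfl⟩ := exists_ap (fr 0) u
    have h1 : dot (ap g (fr 1)) (ap g (fr 0)) = 0 := by rw [dot_ap]; decide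
    obtain ⟨v, hv, h2⟩ := exists_kp h h1 (hu.orth h1) (e _)
    exact k _ _ hv (Or.inl ⟨h2, hu⟩)
  · have := dot_ap x (fr 0) (ap x (fr 0))
    rw [← ap_mul, h, ← ng, dot_ng, dot_comm] at this
    exact absurd (by omega) (e (fr 0))

/-- the involution with `k` transpositions of consecutive coordinates -/
def tau (k : Fin 5) : Perm (Fin 8) :=
  ![1, swap 0 1, swap 0 1 * swap 2 3, swap 0 1 * swap 2 3 * swap 4 5, swap 0 1 * swap 2 3 * swap 4 5 * swap 6 7] k

theorem conj_tau {σ : Perm (Fin 8)} (h : σ * σ = 1) : ∃ k, IsConj σ (tau k) := by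
  have h1 : ∀ {σ : Perm (Fin 8)}, σ * σ = 1 → σ.cycleType = Multiset.replicate (σ.support.card / 2) 2 := fun {σ} h => by
    by_cases e : σ = 1
    · simp [e]
    have h2 : orderOf σ = 2 := orderOf_eq_prime (by rwa [pow_two]) e
    obtain ⟨n, hn⟩ := Perm.cycleType_prime_order (σ := σ) (h2 ▸ Nat.prime_two)
    rw [← Perm.sum_cycleType, hn, h2]
    simp
  have h2 : σ.support.card / 2 < 5 := by have := σ.support.card_le_univ; simp at this; omega
  have h3 : ∀ k, tau k * tau k = 1 ∧ (tau k).support.card / 2 = k := by decide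
  exact ⟨⟨_, h2⟩, Perm.isConj_iff_cycleType_eq.2 (by rw [h1 h, h1 (h3 _).1, (h3 _).2])⟩

open Classical in
theorem std_conj {x : X} (h : x * x = 1 ∨ x * x = t) : ∃ g S hS k, g * x * g⁻¹ = sg S hS * pm (tau k) ∧
    symmDiff S (S.map (tau k).toEmbedding) = if x * x = 1 then ∅ else Finset.univ := by
  obtain ⟨g, S, hS, σ, e⟩ := mono_conj h
  have k : ∀ {g S hS σ}, g * x * g⁻¹ = sg S hS * pm σ →
      symmDiff S (S.map σ.toEmbedding) = (if x * x = 1 then ∅ else Finset.univ) ∧ σ * σ = 1 := fun {g S hS σ} e => by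
    have h1 := mono_mul S S hS hS σ σ
    rw [← e, conj_mul] at h1
    split_ifs with e1
    · exact mono_inj (hT := by decide) (by rw [← h1, e1, sg_empty, pm_one]; simp)
    · exact mono_inj (hT := by decide) (by
        rw [← h1, h.resolve_left e1, pm_one, mul_one, (t_comm g).eq, mul_inv_cancel_right, t])
  obtain ⟨n, hn⟩ := conj_tau (k e).2
  obtain ⟨c, hc⟩ := isConj_iff.1 hn
  have e1 : pm c * g * x * (pm c * g)⁻¹ = sg _ (even_map c hS) * pm (tau n) := by
    rw [← hc, pm_mul, pm_mul, pm_inv, ← conj_sg c S hS, conj_mul, ← e]; group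
  exact ⟨_, _, _, n, e1, (k e1).1⟩

theorem cls_i {x : X} (h : x * x = t) : ∃ g, g * x * g⁻¹ = xi := by
  obtain ⟨g, S, hS, k, e, h1⟩ := std_conj (Or.inr h)
  rw [if_neg (h ▸ t_ne)] at h1
  let f : Fin 8 → Fin 8 → Perm (Fin 8) := fun i j => if i ∈ S then 1 else swap i j
  obtain ⟨rfl, h3, h4⟩ : k = 4 ∧ S.map (f 0 1 * f 2 3 * f 4 5 * f 6 7).toEmbedding = {0, 2, 4, 6} ∧
      f 0 1 * f 2 3 * f 4 5 * f 6 7 * tau 4 = tau 4 * (f 0 1 * f 2 3 * f 4 5 * f 6 7) := by
    simp only [f]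
    clear e hS f
    revert k S
    decide +kernel
  replace h4 := comm_pm h4
  generalize f 0 1 * f 2 3 * f 4 5 * f 6 7 = c at *
  refine ⟨pm c * g, ?_⟩
  rw [show pm c * g * x * (pm c * g)⁻¹ = pm c * (g * x * g⁻¹) * (pm c)⁻¹ by group, e, ← conj_mul,
    conj_sg _ _ _ (even_map c hS), h4.eq, mul_inv_cancel_right, sg_congr _ h3]
  rfl

theorem fr_pairwise (J : Set (Fin 8)) : J.Pairwise (Function.onFun Commute fun j => rf (fr j)) :=
  fun i _ j _ _ => rf_fr_comm i j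

/-- products of reflections of the frame -/
def rJ (J : Finset (Fin 8)) : X := J.noncommProd (fun j => rf (fr j)) (fr_pairwise _)

theorem ap_rJ (J : Finset (Fin 8)) (k : Fin 8) : ap (rJ J) (fr k) = if k ∈ J then ng (fr k) else fr k := by
  induction J using Finset.induction_on with
  | empty => rfl
  | insert j J h ih =>
    rw [rJ, Finset.noncommProd_insert_of_notMem _ _ _ _ h, ← rJ, ap_mul, ih]
    by_cases e : k = j
    · subst e
      simp [h, ap_rf_self]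
    · by_cases e1 : k ∈ J <;> simp [e, e1, ap_ng, ap_rf_fr]

theorem eq_rJ {x : X} (h : ∀ j, Kp x (fr j)) : ∃ J, x = rJ J := by
  classical
  refine ⟨Finset.univ.filter fun j => ap x (fr j) ≠ fr j, ext_fr fun j => ?_⟩
  rw [ap_rJ]
  by_cases e : ap x (fr j) = fr j
  · simp [e]
  · rw [if_pos (by simpa using e)]
    exact (h j).resolve_left e

theorem rJ_mul_t (J : Finset (Fin 8)) : rJ J * t = rJ Jᶜ := ext_fr fun j => by
  rw [(t_comm _).eq, ap_mul, ← ng, ap_rJ, ap_rJ]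
  by_cases e : j ∈ J <;> simp [e, ng_ng]

theorem conj_rJ {g : X} {π : Perm (Fin 8)} (h : ∀ j, (ap g (fr j) : V) = fr (π j) ∨ (ap g (fr j) : V) = -(fr (π j) : V))
    (J : Finset (Fin 8)) : g * rJ J * g⁻¹ = rJ (J.map π.toEmbedding) := by
  refine mul_inv_eq_iff_eq_mul.2 (ext_fr fun j => ?_)
  have h1 : π j ∈ J.map π.toEmbedding ↔ j ∈ J := Finset.mem_map' _
  rw [ap_mul, ap_mul, ap_rJ]
  rcases (h j).imp (Subtype.ext (a1 := ap g (fr j))) (fun e => Subtype.ext (e.trans (ng_val _).symm)) with e | e <;>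
    by_cases e1 : j ∈ J <;> simp only [e, e1, ap_ng, ap_rJ, h1, if_true, if_false]

theorem exists_rJ {x : X} (h : x * x = 1) : ∃ g J, g * x * g⁻¹ = rJ J := by
  obtain ⟨g, S, hS, k, e, h1⟩ := std_conj (Or.inl h)
  rw [if_pos h, ← Finset.bot_eq_empty, symmDiff_eq_bot] at h1
  suffices k : ∀ n (S : Finset (Fin 8)) hS, ∑ i ∈ S, (i : ℕ) = n → S = S.map (tau k).toEmbedding →
      ∃ g J, g * (sg S hS * pm (tau k)) * g⁻¹ = rJ J by
    obtain ⟨c, J, e1⟩ := k _ S hS rfl h1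
    exact ⟨c * g, J, by rw [← e1, ← e]; group⟩
  intro n
  induction n using Nat.strong_induction_on with
  | _ n ih =>
  rintro S hS rfl h
  have key : (∀ j, (fun i => sv S i * (fr j : V) ((tau k)⁻¹ i)) = fr j ∨
      (fun i => sv S i * (fr j : V) ((tau k)⁻¹ i)) = -(fr j : V)) ∨ ∃ i j : Fin 8, swap i j * tau k = tau k * swap i j ∧
      ∑ l ∈ S.map (swap i j).toEmbedding, (l : ℕ) < ∑ l ∈ S, (l : ℕ) ∧
      S.map (swap i j).toEmbedding = (S.map (swap i j).toEmbedding).map (tau k).toEmbedding := by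
    have k1 : ∀ (k : Fin 5) (S : Finset (Fin 8)), S = S.map (tau 4).toEmbedding → ∀ j,
        (fun i => sv S i * (fr j : V) ((tau k)⁻¹ i)) = fr j ∨
          (fun i => sv S i * (fr j : V) ((tau k)⁻¹ i)) = -(fr j : V) := by decide +kernel
    have k2 : ∀ (k : Fin 5) (S : Finset (Fin 8)), Even S.card → S = S.map (tau k).toEmbedding →
        S = S.map (tau 4).toEmbedding ∨ ∃ i : Fin 8, tau k i = i ∧ tau k (i + 1) = i + 1 ∧
        ∑ l ∈ S.map (swap i (i + 1)).toEmbedding, (l : ℕ) < ∑ l ∈ S, (l : ℕ) ∧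
        S.map (swap i (i + 1)).toEmbedding = (S.map (swap i (i + 1)).toEmbedding).map (tau k).toEmbedding := by
      decide +kernel
    exact (k2 k S hS h).imp (k1 k S) fun ⟨i, h1, h2, h3⟩ =>
      ⟨i, i + 1, by rw [mul_swap_eq_swap_mul, h1, h2], h3⟩
  rcases key with e | ⟨i, j, e1, e2, e3⟩
  · obtain ⟨J, e⟩ := eq_rJ (x := sg S hS * pm (tau k)) fun j => (e j).imp Subtype.ext
      fun e => Subtype.ext (e.trans (ng_val _).symm)
    exact ⟨1, J, by rw [← e]; group⟩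
  · obtain ⟨c, J, e⟩ := ih _ e2 _ (even_map _ hS) rfl e3
    refine ⟨c * pm (swap i j), J, ?_⟩
    rw [← e, ← conj_sg _ _ hS, ← mul_inv_eq_iff_eq_mul.2 (comm_pm e1).eq, conj_mul, mul_inv_eq_iff_eq_mul.2 (comm_pm e1).eq]
    group

/-- an involution keeps the line of some root -/
theorem exists_line {x : X} (h : x * x = 1) : ∃ v, ap x v = v ∨ ap x v = ng v := by
  obtain ⟨g, J, e⟩ := exists_rJ h
  refine ⟨ap g⁻¹ (fr 0), ?_⟩
  rw [← ap_ng, ← ap_mul, show x * g⁻¹ = g⁻¹ * rJ J by rw [← e]; group, ap_mul, ap_rJ]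
  split_ifs
  exacts [Or.inr rfl, Or.inl rfl]

/-- generators of the group of permutations of the frame -/
def gens : List (Perm (Fin 8)) :=
  [swap 0 2 * swap 1 3, swap 0 2 * swap 2 4 * swap 4 6 * swap 1 3 * swap 3 5 * swap 5 7, swap 0 1 * swap 2 3,
    swap 0 2 * swap 4 6]

theorem gens_ok : ∀ π ∈ gens, ∃ g : X, ∀ j, (ap g (fr j) : V) = fr (π j) ∨ (ap g (fr j) : V) = -(fr (π j) : V) := by
  simp only [gens, List.forall_mem_cons]
  exact ⟨⟨pm (swap 0 2 * swap 1 3), by decide⟩,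
    ⟨pm (swap 0 2 * swap 2 4 * swap 4 6 * swap 1 3 * swap 3 5 * swap 5 7), by decide⟩,
    ⟨sg {1, 3} (by decide), by decide⟩,
    ⟨rf (rt [1, -1, 1, -1, 1, -1, 1, -1]) * rf (rt [1, -1, 1, -1, -1, 1, -1, 1]), by decide +kernel⟩, by simp⟩

/-- distance to a representative -/
def dist (J : Finset (Fin 8)) : ℕ :=
  0x10161822571762254850554616756434553553456264372652636555251451143651754625745552353445433444343545523442146342655467346263332222333625437444362436434444255453434245145063132555475264471563411543545554363562766666546553554345474164350584520671752281610100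
    >>> (4 * ∑ i ∈ J, 2 ^ (i : ℕ)) % 16

/-- the representatives -/
def reps : List (Finset (Fin 8)) := [∅, {0}, {0, 2, 4}, {0, 1}, {0, 1, 2, 3}, {1, 2, 4, 6}]

theorem dist_ok : ∀ J, (J ∈ reps ∨ Jᶜ ∈ reps) ∨ ∃ π ∈ gens, dist (J.map π.toEmbedding) < dist J := by decide +kernel

theorem rJ_conj (J : Finset (Fin 8)) : ∃ g, ∃ I ∈ reps, g * rJ J * g⁻¹ = rJ I ∨ g * rJ J * g⁻¹ = rJ I * t := by
  induction h : dist J using Nat.strong_induction_on generalizing J with
  | _ n ih =>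
  subst h
  rcases dist_ok J with (e | e) | ⟨π, h1, h2⟩
  · exact ⟨1, J, e, Or.inl (by group)⟩
  · exact ⟨1, _, e, Or.inr (by rw [rJ_mul_t, compl_compl]; group)⟩
  · obtain ⟨g, hg⟩ := gens_ok π h1
    obtain ⟨c, I, h3, h4⟩ := ih _ h2 _ rfl
    rw [← conj_rJ hg] at h4
    exact ⟨c * g, I, h3, by simpa only [mul_inv_rev, mul_assoc] using h4⟩

theorem rJ_eq {J : Finset (Fin 8)} {x : X}
    (h : ∀ j, (ap x (fr j) : V) = if j ∈ J then -(fr j : V) else fr j) : rJ J = x := ext_fr fun j => Subtype.ext (by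
  rw [h, ap_rJ]
  split_ifs
  exacts [ng_val _, rfl])

theorem cls {x : X} (h : x * x = 1) (h1 : x ≠ 1) (h2 : x ≠ t) :
    ∃ u ∈ [xr, xf, xa, xb, xc], ∃ l ∈ L, l * x * l⁻¹ = u ∨ l * x * l⁻¹ = u * t := by
  obtain ⟨g, J, e⟩ := exists_rJ h
  obtain ⟨c, I, h3, h4⟩ := rJ_conj J
  rw [← e, show c * (g * x * g⁻¹) * c⁻¹ = c * g * x * (c * g)⁻¹ by group] at h4
  generalize c * g = g at h4
  have k : ∃ l ∈ L, l * x * l⁻¹ = rJ I ∨ l * x * l⁻¹ = rJ I * t := by
    have : Commute (rf (fr 0)) (rJ I) := Finset.noncommProd_commute _ _ _ _ fun j _ => rf_fr_comm 0 j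
    rcases h4 with h4 | h4
    · exact (conj_L h4 this (rf_notMem _)).imp fun l hl => ⟨hl.1, Or.inl hl.2⟩
    · exact (conj_L h4 (this.mul_right (t_comm _)) (rf_notMem _)).imp fun l hl => ⟨hl.1, Or.inr hl.2⟩
  simp only [reps, List.mem_cons, List.not_mem_nil, or_false] at h3
  rcases h3 with rfl | rfl | rfl | rfl | rfl | rfl
  · rw [show rJ ∅ = 1 from rfl, one_mul, mul_inv_eq_iff_eq_mul, mul_inv_eq_iff_eq_mul, ← (t_comm g).eq] at h4
    exact (h4.elim (fun e => h1 (by simpa using e)) fun e => h2 (mul_left_cancel e)).elim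
  · exact ⟨xr, by simp, by rwa [rJ_eq (x := xr) (by decide)] at k⟩
  · exact ⟨xf, by simp, by rwa [rJ_eq (x := xf) (by decide)] at k⟩
  · exact ⟨xa, by simp, by rwa [rJ_eq (x := xa) (by decide)] at k⟩
  · exact ⟨xb, by simp, by rwa [rJ_eq (x := xb) (by decide)] at k⟩
  · exact ⟨xc, by simp, by rwa [rJ_eq (x := xc) (by decide)] at k⟩

end CfsgLib.StdE8
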