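import Mathlib
import Cfsg.Prelude.Def_Classical
import Cfsg.Agent.Lib.RepChk.D4
import Cfsg.Agent.S1081

/-!
# Triality of `PΩ₈⁺(2)` moves an involution fixing a non-singular vector to an element fixing none
-/

set_option autoImplicit false

namespace CfsgLib.StdE8

open Cfsg Matrix

/-- the matrix of an element of `Ω₈⁺(2)` -/
abbrev mΩ (g : Omega (ZMod 2) (quadFormPlus 4 (ZMod 2))) : Matrix (Fin 4 ⊕ Fin 4) (Fin 4 ⊕ Fin 4) (ZMod 2) :=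
  ((g : isometryGroup (ZMod 2) (quadFormPlus 4 (ZMod 2))) : GL (Fin 4 ⊕ Fin 4) (ZMod 2))

section

open Cfsg.Lie CfsgLib.Stein CfsgLib.RepChk

theorem exists_graph : ∃ α : MulAut (chevD4.group (ZMod 2)),
    α (xG chevD4 (ZMod 2) 13 1) = xG chevD4 (ZMod 2) 12 1 ∧
      α (xG chevD4 (ZMod 2) 12 1) = xG chevD4 (ZMod 2) 18 1 := by
  obtain ⟨α, hα⟩ := Cfsg.Agent.S1081.result (F := ZMod 2) (chevD4, [2, 1, 3, 0]) (by simp)
  have s2 : chevD4.simple 2 = 13 := by decide +kernel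
  have s3 : chevD4.simple 3 = 12 := by decide +kernel
  have s0 : chevD4.simple 0 = 18 := by decide +kernel
  have h2 := (hα (xG chevD4 (ZMod 2) (chevD4.simple 2) 1) 2 1 (by decide)).1 (eq_xG_iff.2 rfl)
  have h3 := (hα (xG chevD4 (ZMod 2) (chevD4.simple 3) 1) 3 1 (by decide)).1 (eq_xG_iff.2 rfl)
  have h4 : α (xG chevD4 (ZMod 2) (chevD4.simple 2) 1) = xG chevD4 (ZMod 2) (chevD4.simple 3) 1 :=
    eq_xG_iff.1 h2
  have h5 : α (xG chevD4 (ZMod 2) (chevD4.simple 3) 1) = xG chevD4 (ZMod 2) (chevD4.simple 0) 1 :=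
    eq_xG_iff.1 h3
  rw [s2, s3] at h4
  rw [s3, s0] at h5
  exact ⟨α, h4, h5⟩

theorem mΩ_mul (r s : ℕ) : mΩ (om8 (ZMod 2) r 1 * om8 (ZMod 2) s 1) =
    (1 + ev1 1 (d4X r)) * (1 + ev1 1 (d4X s)) := by
  rw [← om8Mat_om8, ← om8Mat_om8, ← map_mul]; rfl

theorem tri_sq : ((1 + ev1 (1 : ZMod 2) (d4X 13)) * (1 + ev1 1 (d4X 12))) *
    ((1 + ev1 1 (d4X 13)) * (1 + ev1 1 (d4X 12))) = 1 := by
  decide +kernel

theorem tri_fix : ∃ v, quadFormPlus 4 (ZMod 2) v = 1 ∧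
    ((1 + ev1 (1 : ZMod 2) (d4X 13)) * (1 + ev1 1 (d4X 12))) *ᵥ v = v :=
  ⟨Pi.single (.inl 0) 1 + Pi.single (.inr 0) 1, by decide +kernel, by decide +kernel⟩

theorem tri_nofix : ∀ v, quadFormPlus 4 (ZMod 2) v = 1 →
    ((1 + ev1 (1 : ZMod 2) (d4X 12)) * (1 + ev1 1 (d4X 18))) *ᵥ v ≠ v := by
  decide +kernel

theorem exists_tri : ∃ (τ : MulAut (POmega (ZMod 2) (quadFormPlus 4 (ZMod 2))))
    (u u' : Omega (ZMod 2) (quadFormPlus 4 (ZMod 2))), τ (QuotientGroup.mk u) = QuotientGroup.mk u' ∧ u * u = 1 ∧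
      (∃ v, quadFormPlus 4 (ZMod 2) v = 1 ∧ mΩ u *ᵥ v = v) ∧
      ∀ v, quadFormPlus 4 (ZMod 2) v = 1 → mΩ u' *ᵥ v ≠ v := by
  obtain ⟨α, h2, h3⟩ := exists_graph
  have e : ∀ r s, r < chevD4.nroots → s < chevD4.nroots →
      (QuotientGroup.mk (om8 (ZMod 2) r 1 * om8 (ZMod 2) s 1) : POmega _ _) =
        d4Iso (ZMod 2) (xG chevD4 _ r 1 * xG chevD4 _ s 1) := fun r s hr hs => by
    rw [map_mul, d4Iso_xG hr, d4Iso_xG hs]; rfl
  refine ⟨((d4Iso (ZMod 2)).symm.trans α).trans (d4Iso (ZMod 2)), om8 _ 13 1 * om8 _ 12 1,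
    om8 _ 12 1 * om8 _ 18 1, ?_, ?_, ?_, ?_⟩
  · rw [e 13 12 (by decide) (by decide), e 12 18 (by decide) (by decide), MulEquiv.trans_apply,
      MulEquiv.trans_apply, MulEquiv.symm_apply_apply, map_mul α, h2, h3]
  · refine om8Mat_injective (ZMod 2) ?_
    simp only [map_mul, map_one, om8Mat_om8]
    exact tri_sq
  · rw [mΩ_mul]
    exact tri_fix
  · rw [mΩ_mul]
    exact tri_nofix

end

end CfsgLib.StdE8
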