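import Mathlib
import Cfsg.Agent.Lib.StdE8.Pi
import Cfsg.Agent.Lib.StdE8.Tri
import Cfsg.Agent.Lib.StdE8.Cls
import Cfsg.Agent.Lib.StdInt.Cover
import Cfsg.Agent.Lib.Schur.QuotUniq
import Cfsg.Agent.Lib.FiLoc.O2
import Cfsg.Agent.Lib.Classical.SmallIso3
import Cfsg.Agent.S2098
import Cfsg.Agent.S2607

/-!
# The double cover `2.Ω₈⁺(2)` is unique and its automorphisms are induced by `W(E₈)`
-/

set_option autoImplicit false

namespace CfsgLib.StdE8

open Subgroup Equiv Cfsg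

namespace Cv

open CfsgLib.Schur CfsgLib.StdInt Matrix
open CfsgLib.McLRec (Dbl)

section gen

variable {Q A Γ : Type*} [Group Q] [CommGroup A] [Group Γ] {σ : Γ →* Q}

theorem exists_equiv_of_ker {L₁ L₂ : Type*} [Group L₁] [Group L₂] {η₁ : Γ →* L₁} {η₂ : Γ →* L₂}
    (s₁ : Function.Surjective η₁) (s₂ : Function.Surjective η₂) (h : η₁.ker = η₂.ker) :
    ∃ e : L₁ ≃* L₂, ∀ x, e (η₁ x) = η₂ x :=
  ⟨(QuotientGroup.quotientKerEquivOfSurjective η₁ s₁).symm.trans
    ((QuotientGroup.quotientMulEquivOfEq h).trans (QuotientGroup.quotientKerEquivOfSurjective η₂ s₂)),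
    fun x => by
      have : (QuotientGroup.quotientKerEquivOfSurjective η₁ s₁).symm (η₁ x) = QuotientGroup.mk x :=
        (MulEquiv.symm_apply_eq _).2 rfl
      rw [MulEquiv.trans_apply, this]
      rfl⟩

theorem exists_char [Finite A] [Group.IsPerfect Q] (hA : HasSchurMultiplier Q A) (h4 : Nat.card A = 4)
    (hσ : IsStemExtension σ) (e : σ.ker ≃* A) {L₁ : Type*} [Group L₁] {ξ : L₁ →* Q}
    (h₁ : IsStemExtension ξ) (h2 : Nat.card ξ.ker = 2) :
    ∃ (a : A) (η : Γ →* L₁), a ≠ 1 ∧ Function.Surjective η ∧ ξ.comp η = σ ∧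
      η.ker = ((zpowers a).comap e.toMonoidHom).map σ.ker.subtype := by
  have := perfect_of_stem hσ
  obtain ⟨η, hη⟩ := exists_lift_of_perfect_cover hA (centralExt_of_stem hσ)
    (card_le_card_stemKer_of_cover hσ ⟨e⟩) (centralExt_of_stem h₁)
  have s := surjective_of_lift hσ.1 h₁ η hη
  obtain ⟨f, hf, k⟩ := exists_ker_data e η hη s
  have h3 : Nat.card f.ker = 2 := by
    have := f.ker.card_mul_index
    rw [index_ker, MonoidHom.range_eq_top.2 hf, card_top, h2, h4] at this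
    omega
  obtain ⟨⟨a, ha⟩, ha1⟩ := (ne_bot_iff_exists_ne_one (H := f.ker)).1 fun e => by
    rw [e, card_bot] at h3; omega
  have ha1 : a ≠ 1 := fun e => ha1 (Subtype.ext e)
  refine ⟨a, η, ha1, s, hη, ?_⟩
  rw [k, eq_of_le_of_card_ge (zpowers_le.2 ha) ?_]
  rw [h3]
  exact (one_lt_card_iff_ne_bot _).2 (zpowers_ne_bot.2 ha1)

theorem four (a b c d : Multiplicative (ZMod 2 × ZMod 2)) (h1 : a ≠ 1) (h2 : b ≠ 1) (h3 : c ≠ 1)
    (h4 : d ≠ 1) (h5 : b ≠ c) (h6 : b ≠ d) (h7 : c ≠ d) : a = b ∨ a = c ∨ a = d := by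
  have : ∀ a b c d : Multiplicative (ZMod 2 × ZMod 2), a = 1 ∨ b = 1 ∨ c = 1 ∨ d = 1 ∨
      b = c ∨ b = d ∨ c = d ∨ a = b ∨ a = c ∨ a = d := by
    set_option synthInstance.maxSize 1000 in decide
  have := this a b c d
  tauto

end gen

/-- `Ω₈⁺(2)` -/
abbrev Om : Type := Omega (ZMod 2) (quadFormPlus 4 (ZMod 2))

/-- `PΩ₈⁺(2)` -/
abbrev PO : Type := POmega (ZMod 2) (quadFormPlus 4 (ZMod 2))

theorem center_Om : center Om = ⊥ := eq_bot_iff.2 fun x hx => Subtype.ext
  (FiLoc.cent_omega (OrthE.qPlus_eq 4) (OrthE.nondeg_qPlus 4) (by simp) x fun t ht =>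
    congrArg Subtype.val (mem_center_iff.1 hx ⟨t, ht⟩))

theorem mk_inj {u v : Om} (h : (QuotientGroup.mk u : PO) = QuotientGroup.mk v) : u = v := by
  have := QuotientGroup.eq.1 h
  rwa [center_Om, mem_bot, inv_mul_eq_one] at this

theorem simple_PO : IsSimpleGroup PO :=
  OrthE.isSimpleGroup_POmega (OrthE.qPlus_eq 4) (OrthE.nondeg_qPlus 4) (by simp)

theorem center_PO : center PO = ⊥ := eq_bot_iff.2 fun x hx => by
  obtain ⟨u, rfl⟩ := QuotientGroup.mk_surjective x
  have : u ∈ center Om := mem_center_iff.2 fun v => mk_inj (mem_center_iff.1 hx v)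
  exact (QuotientGroup.eq_one_iff u).2 this

theorem perfect_PO : Group.IsPerfect PO := by
  haveI := simple_PO
  refine ⟨(IsSimpleGroup.eq_bot_or_eq_top_of_normal _ inferInstance).resolve_left fun h => ?_⟩
  rw [commutator_eq_bot_iff_center_eq_top, center_PO] at h
  exact bot_ne_top h

theorem card_aut_PO : Nat.card (MulAut PO) = 6 * Nat.card PO := by
  have h := Cfsg.Agent.S2607.result (F := ZMod 2) (f := 1) (m := 4) le_rfl (by simp) le_rfl
  rw [if_pos rfl] at h
  obtain ⟨e⟩ := h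
  have h1 : (Inn PO).index = 6 := by
    rw [Subgroup.index, Nat.card_congr e.toEquiv, Nat.card_prod, Nat.card_perm]
    simp [Nat.factorial]
  have h2 : Function.Injective (MulAut.conj : PO →* MulAut PO) := by
    rw [injective_iff_map_eq_one]
    intro g hg
    rw [← mem_bot, ← center_PO, mem_center_iff]
    intro x
    exact (mul_inv_eq_iff_eq_mul.1 (DFunLike.congr_fun hg x)).symm
  rw [← (Inn PO).card_mul_index, h1, mul_comm, Nat.card_congr (MonoidHom.ofInjective h2).toEquiv]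

/-- `-1` as an element of `L` -/
def tL : L := ⟨t, t_mem⟩

theorem tL_mem : tL ∈ commutator L := by
  have h : t = pm (swap 0 1 * swap 2 3 * swap 4 5 * swap 6 7) * sg {0, 2, 4, 6} (by decide) *
      (pm (swap 0 1 * swap 2 3 * swap 4 5 * swap 6 7))⁻¹ * (sg {0, 2, 4, 6} (by decide))⁻¹ := by
    rw [← pm_inv, sg_inv]
    exact ext_fr fun j => Subtype.ext (funext (by revert j; decide))
  have := commutator_mem_commutator (mem_top (⟨pm (swap 0 1 * swap 2 3 * swap 4 5 * swap 6 7),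
    pm_mem_L.2 (by decide)⟩ : L)) (mem_top (⟨_, sg_mem_L {0, 2, 4, 6} (by decide)⟩ : L))
  exact Set.mem_of_eq_of_mem (Subtype.ext (by exact h)) this

theorem exists_sigma : ∃ σ : L →* PO, Dbl σ tL ∧ IsStemExtension σ ∧
    ∃ τ : MulAut PO, ∀ ψ : MulAut L, ¬ ∀ x, τ (σ x) = σ (ψ x) := by
  obtain ⟨π, c, hs, hk, hc, hq, hq', hcc⟩ := exists_pi
  obtain ⟨τ, u, u', h1, h2, ⟨w, h3, h4⟩, h5⟩ := exists_tri
  let ρ : L →* Om := (π.comp L.subtype).codRestrict _ fun l => Orth.map_mem_commutator π l.2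
  have hρ : Function.Surjective ρ := fun ⟨y, hy⟩ => by
    have : y ∈ (commutator X).map π := by
      rwa [map_commutator_eq, MonoidHom.range_eq_top.2 hs]
    obtain ⟨l, hl, rfl⟩ := this
    exact ⟨⟨l, hl⟩, rfl⟩
  have hρk : ∀ l, ρ l = 1 ↔ l = 1 ∨ l = tL := fun l => by
    rw [Subtype.ext_iff, Subtype.ext_iff (a1 := l), Subtype.ext_iff (a1 := l)]
    exact hk l
  let σ : L →* PO := (QuotientGroup.mk' _).comp ρ
  have hσ : Function.Surjective σ := (QuotientGroup.mk'_surjective _).comp hρ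
  have hσk : ∀ l, σ l = 1 ↔ l = 1 ∨ l = tL := fun l =>
    Iff.trans ⟨fun h => mk_inj h, fun h => congrArg QuotientGroup.mk h⟩ (hρk l)
  have hcen : tL ∈ center L := mem_center_iff.2 fun l => Subtype.ext (t_comm l).eq
  have hne : tL ≠ 1 := fun e => t_ne (congrArg Subtype.val e)
  have hst : IsStemExtension σ := by
    refine ⟨hσ, fun l hl => ?_, fun l hl => ?_⟩ <;> rcases (hσk l).1 hl with rfl | rfl
    exacts [one_mem _, hcen, one_mem _, tL_mem]
  refine ⟨σ, ⟨hσ, orderOf_eq_prime (by rw [pow_two]; exact Subtype.ext t_sq) hne, hcen, hσk,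
    fun l => ⟨fun h => ?_, ?_⟩, fun s h => hne ?_⟩, hst, τ, fun ψ hψ => ?_⟩
  · exact (cent_L fun m hm => (congrArg Subtype.val (mem_center_iff.1 h ⟨m, hm⟩)).symm).imp
      Subtype.ext Subtype.ext
  · rintro (rfl | rfl)
    exacts [one_mem _, hcen]
  · rw [← mem_bot, ← ker_eq_bot_of_section hst s h]
    exact (hσk _).2 (Or.inr rfl)
  obtain ⟨y, rfl⟩ := hρ u
  obtain ⟨v, rfl⟩ := hq' w h3
  have hng : ∀ v, c (ng v) = c v := fun v => by
    rw [ng, ← hc, (hk t).2 (Or.inr rfl)]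
    exact one_mulVec _
  have h6 : ap ((y * y : L) : X) v = v := by
    rw [Subgroup.coe_mul, ap_mul]
    rcases hcc _ _ ((hc y v).symm.trans h4) with e | e
    · rw [e, e]
    · rw [e, ap_ng, e, ng_ng]
  have h7 : y * y = 1 := ((hρk _).1 (by rw [map_mul, h2])).resolve_right fun e =>
    ne_t_of_fix h6 (congrArg Subtype.val e)
  have h8 : ρ (ψ y) = u' := mk_inj ((hψ y).symm.trans h1)
  obtain ⟨v', h9⟩ := exists_line (x := (ψ y : L)) (by
    rw [← Subgroup.coe_mul, ← map_mul, h7, map_one]; rfl)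
  refine h5 (c v') (hq v') ?_
  rw [← h8]
  refine (hc (ψ y : L) v').trans ?_
  rcases h9 with e | e <;> rw [e]
  exact hng v'

section

variable {σ : L →* PO} (h : Dbl σ tL)

/-- the induced automorphism -/
noncomputable def ind : MulAut L →* MulAut PO :=
  MonoidHom.mk' (fun φ => (dbl_ind h φ).choose) fun φ ψ => MulEquiv.ext fun x => by
    obtain ⟨x, rfl⟩ := h.surj x
    rw [MulAut.mul_apply, (dbl_ind h _).choose_spec, (dbl_ind h _).choose_spec,
      (dbl_ind h _).choose_spec, MulAut.mul_apply]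

theorem ind_apply (φ : MulAut L) (x : L) : ind h φ (σ x) = σ (φ x) := (dbl_ind h φ).choose_spec x

theorem mem_range_ind {φ : MulAut PO} {ψ : MulAut L} (e : ∀ x, φ (σ x) = σ (ψ x)) :
    φ ∈ (ind h).range :=
  ⟨ψ, MulEquiv.ext fun x => by
    obtain ⟨x, rfl⟩ := h.surj x
    rw [ind_apply, e]⟩

theorem ind_injective (hp : commutator L = ⊤) : Function.Injective (ind h) := fun φ ψ e =>
  dbl_ext h hp fun x => by rw [← ind_apply h, e, ind_apply]

include h in
theorem card_ker : Nat.card σ.ker = 2 := by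
  refine Eq.trans ?_ ((Nat.card_zpowers tL).trans h.ord)
  congr 2
  refine le_antisymm (fun x hx => ?_) (zpowers_le.2 (dbl_t h))
  rcases (h.ker x).1 hx with rfl | rfl
  exacts [one_mem _, mem_zpowers _]

theorem index_conj (hp : commutator L = ⊤) :
    ((ind h).comp (MulAut.conjNormal (H := L))).range.index = 3 := by
  have h1 : ((ind h).comp (MulAut.conjNormal (H := L))).ker = zpowers t := by
    refine le_antisymm (fun x hx => ?_) (zpowers_le.2 ?_)
    · have h2 : MulAut.conjNormal (H := L) x = 1 := ind_injective h hp (hx.trans (map_one _).symm)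
      rcases cent_L (g := x) fun l hl => mul_inv_eq_iff_eq_mul.1
        (congrArg (fun f : MulAut L => (f ⟨l, hl⟩ : X)) h2) with rfl | rfl
      exacts [one_mem _, mem_zpowers _]
    · have h2 : MulAut.conjNormal (H := L) t = 1 := MulEquiv.ext fun l =>
        Subtype.ext (mul_inv_eq_iff_eq_mul.2 (t_comm l).symm.eq)
      rw [MonoidHom.mem_ker, MonoidHom.comp_apply, h2, map_one]
  have h2 := ((ind h).comp (MulAut.conjNormal (H := L))).ker.card_mul_index
  have h3 := L.card_mul_index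
  have h4 := σ.ker.card_mul_index
  have h5 := ((ind h).comp (MulAut.conjNormal (H := L))).range.card_mul_index
  rw [index_ker, h1, Nat.card_zpowers, orderOf_eq_prime (by rw [pow_two, t_sq]) t_ne] at h2
  rw [index_L] at h3
  rw [index_ker, MonoidHom.range_eq_top.2 h.surj, card_top, card_ker h] at h4
  rw [card_aut_PO] at h5
  have h6 : 0 < Nat.card PO := by
    haveI : Finite PO := Finite.of_surjective σ h.surj
    exact Nat.card_pos
  have h7 : Nat.card ((ind h).comp (MulAut.conjNormal (H := L))).range = 2 * Nat.card PO := by omega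
  rw [h7] at h5
  exact Nat.eq_of_mul_eq_mul_left (by omega : 0 < 2 * Nat.card PO) (by omega)

theorem range_eq (hp : commutator L = ⊤) {τ : MulAut PO} (hτ : ∀ ψ : MulAut L, ¬ ∀ x, τ (σ x) = σ (ψ x)) :
    (ind h).range.index = 3 ∧ (ind h).range = ((ind h).comp (MulAut.conjNormal (H := L))).range := by
  have h1 : ((ind h).comp (MulAut.conjNormal (H := L))).range ≤ (ind h).range := by
    rintro _ ⟨x, rfl⟩
    exact ⟨_, rfl⟩
  have h2 := index_dvd_of_le h1
  rw [index_conj h hp] at h2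
  have h3 : (ind h).range.index = 3 := ((Nat.dvd_prime Nat.prime_three).1 h2).resolve_left fun e => by
    obtain ⟨ψ, rfl⟩ := (index_eq_one.1 e).ge (mem_top τ)
    exact hτ ψ (ind_apply h ψ)
  refine ⟨h3, le_antisymm (relIndex_eq_one.1 ?_) h1⟩
  have h4 := relIndex_mul_index h1
  rw [h3, index_conj h hp] at h4
  omega

end

end Cv

open Cv CfsgLib.Schur

theorem aut_L (φ : MulAut L) : ∃ x : X, ∀ l : L, (φ l : X) = x * l * x⁻¹ := by
  obtain ⟨σ, h, hs, τ, hτ⟩ := exists_sigma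
  haveI := perfect_PO
  have hp : commutator L = ⊤ := (perfect_of_stem hs).commutator_eq_top
  obtain ⟨x, hx⟩ := (range_eq h hp hτ).2.le ⟨φ, rfl⟩
  refine ⟨x, fun l => ?_⟩
  rw [← ind_injective h hp hx]
  rfl

theorem iso_L {Γ : Type*} [Group Γ] [Finite Γ] (hp : commutator Γ = ⊤) (hZ : Nat.card (center Γ) = 2)
    {F : Type*} [Field F] [Fintype F] (hF : Fintype.card F = 2)
    (e : (Γ ⧸ center Γ) ≃* POmega F (quadFormPlus 4 F)) : Nonempty (Γ ≃* L) := by
  obtain ⟨σ, h, hs, τ, hτ⟩ := exists_sigma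
  haveI := perfect_PO
  have h3 := (range_eq h (perfect_of_stem hs).commutator_eq_top hτ).1
  let f : F ≃+* ZMod 2 := FiniteField.ringEquivOfCardEq (hF.trans (ZMod.card 2).symm)
  let e' : (Γ ⧸ center Γ) ≃* PO :=
    e.trans (Classical.pomegaMapEquiv f _ _ (Classical.quadFormPlus_map f 4))
  let σ₀ : Γ →* PO := e'.toMonoidHom.comp (QuotientGroup.mk' _)
  have k₀ : σ₀.ker = center Γ := by
    ext x
    exact (map_eq_one_iff _ e'.injective).trans (QuotientGroup.eq_one_iff x)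
  have s₀ : IsStemExtension σ₀ :=
    ⟨e'.surjective.comp (QuotientGroup.mk'_surjective _), k₀.le, hp ▸ le_top⟩
  have kφ : ∀ φ : MulAut PO, (φ.toMonoidHom.comp σ).ker = σ.ker := fun φ => by
    ext x
    exact map_eq_one_iff _ φ.injective
  have sφ : ∀ φ : MulAut PO, IsStemExtension (φ.toMonoidHom.comp σ) := fun φ =>
    ⟨φ.surjective.comp hs.1, kφ φ ▸ hs.2.1, kφ φ ▸ hs.2.2⟩
  have hA := Cfsg.Agent.S2098.result (F := ZMod 2) (ZMod.card 2)
  obtain ⟨Δ, _, _, ω, hω, ⟨ε⟩⟩ := hA.1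
  have h4 : Nat.card (Multiplicative (ZMod 2 × ZMod 2)) = 4 := by simp
  obtain ⟨a₀, η₀, n₀, u₀, -, r₀⟩ := exists_char hA h4 hω ε s₀ (k₀ ▸ hZ)
  choose a η n u c r using fun φ : MulAut PO =>
    exists_char hA h4 hω ε (sφ φ) ((kφ φ).symm ▸ card_ker h)
  have hne : ∀ φ ψ : MulAut PO, (φ : MulAut PO ⧸ (ind h).range) ≠ ψ → a φ ≠ a ψ := by
    intro φ ψ h1 h2
    obtain ⟨g, hg⟩ := exists_equiv_of_ker (u ψ) (u φ) (by rw [r, r, h2])
    refine h1 (QuotientGroup.eq.2 (mem_range_ind h (ψ := g) fun x => ?_))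
    obtain ⟨x, rfl⟩ := u ψ x
    have h5 : φ (σ (η φ x)) = ω x := DFunLike.congr_fun (c φ) x
    have h6 : ψ (σ (η ψ x)) = ω x := DFunLike.congr_fun (c ψ) x
    rw [MulAut.mul_apply, h6, ← h5, hg, MulAut.inv_apply_self]
  haveI : Finite (MulAut PO ⧸ (ind h).range) := Nat.finite_of_card_ne_zero (h3.trans_ne (by norm_num))
  letI := Fintype.ofFinite (MulAut PO ⧸ (ind h).range)
  obtain ⟨x, y, z, hxy, hxz, hyz⟩ := Fintype.two_lt_card_iff.1
    (show 2 < Fintype.card (MulAut PO ⧸ (ind h).range) by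
      rw [← Nat.card_eq_fintype_card]; exact h3.ge)
  obtain ⟨x, rfl⟩ := QuotientGroup.mk_surjective x
  obtain ⟨y, rfl⟩ := QuotientGroup.mk_surjective y
  obtain ⟨z, rfl⟩ := QuotientGroup.mk_surjective z
  have key : ∀ φ, a₀ = a φ → Nonempty (Γ ≃* L) := fun φ h1 =>
    ⟨(exists_equiv_of_ker u₀ (u φ) (by rw [r₀, r, h1])).choose⟩
  rcases four a₀ _ _ _ n₀ (n x) (n y) (n z) (hne _ _ hxy) (hne _ _ hxz) (hne _ _ hyz) with h1 | h1 | h1
  exacts [key _ h1, key _ h1, key _ h1]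

end CfsgLib.StdE8
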