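import Mathlib
import Cfsg.Agent.Lib.StdE8.Det

/-!
# Permutations of frames of `E₈`
-/

set_option autoImplicit false

namespace CfsgLib.StdE8

open Subgroup Equiv

theorem Frame.exists_dot_ne (ρ : Fin 8 → R) (h : ∀ i j, i ≠ j → dot (ρ i) (ρ j) = 0) (v : R) :
    ∃ b, dot v (ρ b) ≠ 0 := by
  by_contra hc
  push Not at hc
  let M : Matrix (Fin 8) (Fin 8) ℤ := fun i j => (ρ i : V) j
  have h1 : M * M.transpose = (8 : ℤ) • (1 : Matrix (Fin 8) (Fin 8) ℤ) := by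
    ext i j
    rw [Matrix.mul_apply, Matrix.smul_apply, Matrix.one_apply]
    refine (dot_eq_sum (ρ i) (ρ j)).symm.trans ?_
    split_ifs with e
    · rw [e, (ρ j).2.2]; rfl
    · rw [h i j e]; rfl
  have h2 : M.det ≠ 0 := fun e => by
    have := congrArg Matrix.det h1
    rw [Matrix.det_mul, e, Matrix.det_smul] at this
    simp at this
  refine root_ne_zero v (Matrix.eq_zero_of_mulVec_eq_zero h2 (funext fun i => ?_))
  exact (dot_eq_sum (ρ i) v).symm.trans ((dot_comm _ _).trans (hc i))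

theorem Frame.dot_sg {i : Fin 8} (hi : (1 : Fin 8) ≠ i) (v : R) (w : V) (hv : (v : V) 1 = 0) :
    dot (ap (sg {1, i} (even_pair hi)) v) w = dot v w - 2 * ((v : V) i * w i) := by
  have e : (ap (sg {1, i} (even_pair hi)) v : V) = v - (2 * (v : V) i) • (Pi.single i 1 : V) := by
    funext k
    rw [ap_sg, sv]
    by_cases h1 : k = i
    · subst h1; simp; ring
    by_cases h2 : k = 1
    · subst h2; simp [hv, h1]
    simp [h1, h2]
  rw [e, dot_sub, dot_smul, dot_eq_sum (Pi.single i 1)]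
  simp [Pi.single_apply, mul_assoc]

theorem Frame.swap_std (ρ : Fin 8 → R) (h : ∀ i j, i ≠ j → dot (ρ i) (ρ j) = 0) (h0 : ρ 0 = fr 0)
    (h1 : ρ 1 = fr 1) : ∃ l ∈ L, ∃ a b : Fin 8, 2 ≤ a ∧ 2 ≤ b ∧ a ≠ b ∧
      ∀ j, l * rf (ρ j) * l⁻¹ = rf (ρ (swap 0 1 (swap a b j))) := by
  have hz : ∀ k, k ≠ 0 → k ≠ 1 → (ρ k : V) 0 = 0 ∧ (ρ k : V) 1 = 0 := fun k k0 k1 => by
    have a0 := h k 0 k0
    have a1 := h k 1 k1
    rw [h0] at a0
    rw [h1] at a1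
    simp [fr, rt, mk, dot] at a0 a1
    omega
  have hv : ∀ k, k ≠ 0 → k ≠ 1 → ∀ i, (ρ k : V) i = 0 ∨ (ρ k : V) i = 2 ∨ (ρ k : V) i = -2 :=
    fun k k0 k1 i => by
      have a := (ρ k).2.1.1 i
      have b := (ρ k).2.bound i
      rw [(hz k k0 k1).1] at a
      omega
  obtain ⟨z0, z1⟩ := hz 2 (by decide) (by decide)
  obtain ⟨i, hi⟩ : ∃ i, (ρ 2 : V) i ≠ 0 := Function.ne_iff.1 (root_ne_zero (ρ 2))
  have i0 : i ≠ 0 := by rintro rfl; exact hi z0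
  have i1 : (1 : Fin 8) ≠ i := by rintro rfl; exact hi z1
  have hi2 := (hv 2 (by decide) (by decide) i).resolve_left hi
  have hd := fun w => Frame.dot_sg i1 (ρ 2) w z1
  have hsq := sg_sq {1, i} (even_pair i1)
  have hL := sg_mem_L {1, i} (even_pair i1)
  have f0 : ap (sg {1, i} (even_pair i1)) (fr 0) = fr 1 := Subtype.ext (funext fun k => by
    rw [ap_sg, sv]
    exact (by decide : ∀ i k : Fin 8, i ≠ 0 → 1 ≠ i →
      (if k ∈ ({1, i} : Finset (Fin 8)) then -1 else 1) * (fr 0 : V) k = (fr 1 : V) k) i k i0 i1)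
  have ffix : ∀ v : R, (v : V) 1 = 0 → (v : V) i = 0 → ap (sg {1, i} (even_pair i1)) v = v :=
    fun v a b => Subtype.ext (eq_of_dot fun w => by rw [Frame.dot_sg i1 v w a, b]; simp)
  generalize sg {1, i} (even_pair i1) = l at hd hsq hL f0 ffix
  have back : ∀ u v : R, l * rf u * l⁻¹ = rf v → l * rf v * l⁻¹ = rf u := fun u v e => by
    rw [← e, ← mul_assoc, ← mul_assoc, hsq, one_mul, mul_assoc, ← mul_inv_rev, hsq, inv_one, mul_one]
  obtain ⟨b, hb⟩ := Frame.exists_dot_ne ρ h (ap l (ρ 2))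
  have c0 : ∀ k : Fin 8, k ≠ 0 → (1 : Fin 8) ≠ k → (fr 0 : V) k = 0 ∧ (fr 1 : V) k = 0 := by decide
  have b0 : b ≠ 0 := by
    rintro rfl
    rw [hd, h 2 0 (by decide), h0, (c0 i i0 i1).1] at hb
    simp at hb
  have b1 : b ≠ 1 := by
    rintro rfl
    rw [hd, h 2 1 (by decide), h1, (c0 i i0 i1).2] at hb
    simp at hb
  have b2 : b ≠ 2 := by
    rintro rfl
    rw [hd, (ρ 2).2.2] at hb
    rcases hi2 with e | e <;> simp [e] at hb
  have hpm : (ap l (ρ 2) : V) = ρ b ∨ (ap l (ρ 2) : V) = -(ρ b : V) := by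
    have e := hd (ρ b)
    rw [h 2 b b2.symm] at e
    rcases dot_cases (ap l (ρ 2)) (ρ b) with c | c | c | c | c
    · exact Or.inl c
    · exact Or.inr c
    · exact absurd c hb
    all_goals
      rcases hi2 with e1 | e1 <;> rcases hv b b0 b1 i with e2 | e2 | e2 <;> rw [c, e1, e2] at e <;> omega
  have m2 : l * rf (ρ 2) * l⁻¹ = rf (ρ b) := by
    rw [conj_rf]
    rcases hpm with e | e
    exacts [congrArg rf (Subtype.ext e), rf_neg e]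
  have m0 : l * rf (ρ 0) * l⁻¹ = rf (ρ 1) := by rw [conj_rf, h0, h1, f0]
  refine ⟨l, hL, 2, b, le_rfl, by omega, b2.symm, fun j => ?_⟩
  by_cases j0 : j = 0
  · rw [j0, swap_apply_of_ne_of_ne (by decide) b0.symm, swap_apply_left, m0]
  by_cases j1 : j = 1
  · rw [j1, swap_apply_of_ne_of_ne (by decide) b1.symm, swap_apply_right, back _ _ m0]
  by_cases j2 : j = 2
  · rw [j2, swap_apply_left, swap_apply_of_ne_of_ne b0 b1, m2]
  by_cases jb : j = b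
  · rw [jb, swap_apply_right, swap_apply_of_ne_of_ne (by decide) (by decide), back _ _ m2]
  rw [swap_apply_of_ne_of_ne j2 jb, swap_apply_of_ne_of_ne j0 j1, conj_rf, ffix _ (hz j j0 j1).2]
  have e := hd (ρ j)
  have e0 : dot (ap l (ρ 2)) (ρ j) = 0 := by
    rcases hpm with c | c <;> simp [c, dot_neg, h b j (Ne.symm jb)]
  rw [e0, h 2 j (Ne.symm j2)] at e
  rcases hi2 with e1 | e1 <;> rw [e1] at e <;> omega

theorem frame_swap (ρ : Fin 8 → R) (h : ∀ i j, i ≠ j → dot (ρ i) (ρ j) = 0) :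
    ∃ l ∈ L, ∃ a b : Fin 8, 2 ≤ a ∧ 2 ≤ b ∧ a ≠ b ∧
      ∀ j, l * rf (ρ j) * l⁻¹ = rf (ρ (swap 0 1 (swap a b j))) := by
  obtain ⟨g, g0, g1⟩ := exists_ap2 (h 0 1 (by decide))
  obtain ⟨l, hl, a, b, ha, hb, hab, e⟩ := Frame.swap_std (fun j => ap g (ρ j))
    (fun i j hij => by rw [dot_ap, h i j hij]) g0 g1
  refine ⟨g⁻¹ * l * g⁻¹⁻¹, conj_mem_L.2 hl, a, b, ha, hb, hab, fun j => ?_⟩
  have := e j
  simp only [← conj_rf] at this
  calc _ = g⁻¹ * (l * (g * rf (ρ j) * g⁻¹) * l⁻¹) * g := by group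
    _ = _ := by rw [this]; group

theorem Frame.line {x : X} {τ : Perm (Fin 8)}
    (h : ∀ j k, x * (rf (fr j) * rf (fr k)) * x⁻¹ = rf (fr (τ j)) * rf (fr (τ k))) (j : Fin 8) :
    (ap x (fr j) : V) = fr (τ j) ∨ (ap x (fr j) : V) = -(fr (τ j) : V) := by
  have h0 : ∀ m, m ≠ τ j → dot (ap x (fr j)) (fr m) = 0 := fun m hm => by
    obtain ⟨k, k1, k2⟩ := (by decide : ∀ j n : Fin 8, ∃ k, k ≠ j ∧ k ≠ n) j (τ.symm m)
    have k3 : m ≠ τ k := fun e => k2 (by rw [e, symm_apply_apply])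
    have e1 : ap (rf (fr (τ j)) * rf (fr (τ k))) (ap x (fr j)) = ng (ap x (fr j)) := by
      rw [← h, ap_mul, ap_inv_ap, ap_mul, ap_mul, ap_rf_fr k j, if_neg k1.symm, ap_rf_self, ap_ng]
    have e2 : ap (rf (fr (τ j)) * rf (fr (τ k))) (fr m) = fr m := by
      rw [ap_mul, ap_rf_fr, if_neg k3, ap_rf_fr, if_neg hm]
    have e3 := dot_ap (rf (fr (τ j)) * rf (fr (τ k))) (ap x (fr j)) (fr m)
    rw [e1, e2, ng_val, dot_neg] at e3
    omega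
  have h1 := dot_expand (ap x (fr j)) (ap x (fr j))
  rw [(ap x (fr j)).2.2, Finset.sum_eq_single (τ j) (fun m _ hm => by rw [h0 m hm, zero_mul])
    (by simp), dot_comm (fr (τ j) : V)] at h1
  rcases dot_cases (ap x (fr j)) (fr (τ j)) with c | c | c | c | c
  exacts [Or.inl c, Or.inr c, by simp [c] at h1, by simp [c] at h1, by simp [c] at h1]

theorem Frame.key {x : X} {τ : Perm (Fin 8)}
    (h : ∀ j k, x * (rf (fr j) * rf (fr k)) * x⁻¹ = rf (fr (τ j)) * rf (fr (τ k))) (u w : R) :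
    32 ∣ ∑ j, dot u (fr j) * dot (fr (τ j)) w := by
  have h1 := dot_expand (ap x u) w
  rw [← Equiv.sum_comp τ] at h1
  have h2 : 32 ∣ ∑ j, (dot u (fr j) * dot (fr (τ j)) w -
      dot (ap x u) (fr (τ j)) * dot (fr (τ j)) w) := by
    refine Finset.dvd_sum fun j _ => ?_
    obtain ⟨a, ha⟩ := u.2.1.dot_mod (fr j).2.1
    obtain ⟨b, hb⟩ := (fr (τ j)).2.1.dot_mod w.2.1
    have e := dot_ap x u (fr j)
    rcases Frame.line h j with c | c
    · rw [c] at e; simp [e]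
    · rw [c, dot_comm, dot_neg, dot_comm] at e
      exact ⟨a * b, by rw [neg_eq_iff_eq_neg.1 e, ha, hb]; ring⟩
  obtain ⟨c, hc⟩ := (ap x u).2.1.dot_mod w.2.1
  rw [Finset.sum_sub_distrib, ← h1, hc] at h2
  omega

/-- products of two reflections inducing a double transposition on the frame -/
def Frame.cand : List (R × R × Fin 8 × Fin 8 × Fin 8 × Fin 8) :=
  [(rt [1, -1, 1, -1, 1, -1, 1, -1], rt [1, -1, 1, -1, -1, 1, -1, 1], 0, 2, 4, 6),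
   (rt [1, -1, 1, -1, 1, 1, 1, 1], rt [1, -1, 1, -1, -1, -1, -1, -1], 0, 2, 5, 7),
   (rt [1, -1, 1, 1, 1, -1, 1, 1], rt [1, -1, 1, 1, -1, 1, -1, -1], 0, 3, 4, 7),
   (rt [1, -1, 1, 1, 1, 1, 1, -1], rt [1, -1, 1, 1, -1, -1, -1, 1], 0, 3, 5, 6),
   (rt [0, 0, 2, 0, 2, 0, 0, 0], rt [0, 0, 2, 0, -2, 0, 0, 0], 2, 3, 4, 5),
   (rt [0, 0, 2, 0, 0, 0, 2, 0], rt [0, 0, 2, 0, 0, 0, -2, 0], 2, 3, 6, 7),
   (rt [0, 0, 0, 0, 2, 0, 2, 0], rt [0, 0, 0, 0, 2, 0, -2, 0], 4, 5, 6, 7)]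

/-- half sums over four planes -/
def Frame.pl : List R :=
  [rt [2, 0, 2], rt [2, 0, 0, 0, 2], rt [1, -1, 1, -1, 1, -1, 1, -1], rt [2, 0, 0, 0, 0, 0, 2]]

theorem Frame.cand_ok : ∀ c ∈ Frame.cand, swap c.2.2.1 c.2.2.2.1 (swap c.2.2.2.2.1 c.2.2.2.2.2 1) = 1 ∧
    ∀ j, rfV c.1 (rfV c.2.1 (fr j)) = fr (swap c.2.2.1 c.2.2.2.1 (swap c.2.2.2.2.1 c.2.2.2.2.2 j)) ∨
      rfV c.1 (rfV c.2.1 (fr j)) =
        -(fr (swap c.2.2.1 c.2.2.2.1 (swap c.2.2.2.2.1 c.2.2.2.2.2 j)) : V) := by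
  decide +kernel

theorem Frame.tab : ∀ a b : Fin 8, 2 ≤ a → 2 ≤ b → a ≠ b → ∃ c ∈ Frame.cand, ∃ u ∈ Frame.pl,
    ∃ w ∈ Frame.pl, ¬ 32 ∣ ∑ j, dot u (fr j) * dot (fr (swap a b (swap c.2.2.1 c.2.2.2.1
      (swap c.2.2.2.2.1 c.2.2.2.2.2 (swap a b j))))) w := by
  decide +kernel

theorem frame_not {a b : Fin 8} (ha : 2 ≤ a) (hb : 2 ≤ b) (h : a ≠ b) :
    ∃ σ ∈ L, ∃ π : Perm (Fin 8), π 1 = 1 ∧ (∀ j, σ * rf (fr j) * σ⁻¹ = rf (fr (π j))) ∧
      ∀ x : X, ¬∀ j k, x * (rf (fr j) * rf (fr k)) * x⁻¹ =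
        rf (fr (swap a b (π (swap a b j)))) * rf (fr (swap a b (π (swap a b k)))) := by
  obtain ⟨c, hc, u, -, w, -, hn⟩ := Frame.tab a b ha hb h
  obtain ⟨h1, h2⟩ := Frame.cand_ok c hc
  refine ⟨rf c.1 * rf c.2.1, rf_mul_rf_mem _ _, swap c.2.2.1 c.2.2.2.1 * swap c.2.2.2.2.1 c.2.2.2.2.2,
    h1, fun j => ?_, fun x hx => hn (Frame.key (τ := swap a b * (swap c.2.2.1 c.2.2.2.1 *
      swap c.2.2.2.2.1 c.2.2.2.2.2) * swap a b) hx u w)⟩
  rw [conj_rf]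
  rcases h2 j with e | e
  exacts [congrArg rf (Subtype.ext e), rf_neg e]

end CfsgLib.StdE8
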