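import Mathlib
import Cfsg.Agent.Lib.StdE8.Cov
import Cfsg.Agent.Lib.StdE8.Nrm
import Cfsg.Agent.Lib.StdE8.Cent
import Cfsg.Agent.Lib.StdInt.Amb

/-!
# The basic facts for `2.Ω₈⁺(2)`
-/

set_option autoImplicit false

namespace CfsgLib.StdE8

open Subgroup Equiv CfsgLib.StdInt

/-- the central involution -/
def tL : L := ⟨t, t_mem⟩

theorem conj_t (g : X) : g * t * g⁻¹ = t := mul_inv_eq_iff_eq_mul.2 (t_comm g).eq

theorem cls_L {x : X} (hx : x ∈ L) (h : x * x = 1) (h1 : x ≠ 1) (h2 : x ≠ t) :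
    ∃ l ∈ L, l * x * l⁻¹ = xa ∨ l * x * l⁻¹ = xa * t ∨ l * x * l⁻¹ = xb ∨ l * x * l⁻¹ = xc := by
  obtain ⟨u, hu, l, hl, e⟩ := cls h h1 h2
  have h3 : u ∈ L := e.elim (fun e => e ▸ conj_mem_L.2 hx)
    fun e => (mul_mem_cancel_right t_mem).1 (e ▸ conj_mem_L.2 hx)
  have k : ∀ {u}, (∃ m ∈ L, m * u * m⁻¹ = u * t) → (l * x * l⁻¹ = u ∨ l * x * l⁻¹ = u * t) →
      ∃ l ∈ L, l * x * l⁻¹ = u := fun ⟨m, hm, e1⟩ e => e.elim (fun e => ⟨l, hl, e⟩) fun e =>
    ⟨m⁻¹ * l, mul_mem (inv_mem hm) hl, by rw [show m⁻¹ * l * x * (m⁻¹ * l)⁻¹ = m⁻¹ * (l * x * l⁻¹) * m by group, e, ← e1]; group⟩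
  simp only [List.mem_cons, List.not_mem_nil, or_false] at hu
  rcases hu with rfl | rfl | rfl | rfl | rfl
  · exact absurd h3 xr_notMem
  · exact absurd h3 xf_notMem
  · exact ⟨l, hl, e.imp_right Or.inl⟩
  · exact (k conj_xb e).imp fun l h => ⟨h.1, Or.inr (Or.inr (Or.inl h.2))⟩
  · exact (k conj_xc e).imp fun l h => ⟨h.1, Or.inr (Or.inr (Or.inr h.2))⟩

theorem mem_WG_conj {x w g : X} : g * w * g⁻¹ ∈ WG L (g * x * g⁻¹) ↔ w ∈ WG L x :=
  ⟨fun h => by simpa [mul_assoc] using conj_mem_WG (g := g⁻¹) h, conj_mem_WG⟩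

theorem conj_NG {s w g r : X} (h : r ∈ NG L (g * s * g⁻¹) (g * w * g⁻¹)) : g⁻¹ * r * g ∈ NG L s w := by
  induction h using closure_induction with
  | mem x hx =>
    obtain ⟨a, ha, hc, rfl⟩ := hx
    exact subset_closure ⟨g⁻¹ * a * g, by simpa using conj_mem_L (g := g⁻¹).2 ha, comm_conj.1 hc, by group⟩
  | one => simp
  | mul a b _ _ ha hb => simpa [mul_assoc] using mul_mem ha hb
  | inv a _ ha => simpa [mul_assoc] using inv_mem ha

theorem comm_mul_t {a s : X} : Commute a (s * t) ↔ Commute a s :=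
  ⟨fun h => by simpa [mul_assoc, t_sq] using h.mul_right (t_comm a), fun h => h.mul_right (t_comm a)⟩

theorem nrm_X {s w : X} (hs : s ∈ L) (h : s * s = 1) (h1 : s ≠ 1) (h2 : s ≠ t) (ho : Odd (orderOf w))
    (c : Commute w s) (hw : w ≠ 1) : ∃ r ∈ NG L s w, r * r = 1 ∧ r ≠ 1 ∧ r ≠ s := by
  obtain ⟨l, -, e⟩ := cls_L hs h h1 h2
  have o := odd_conj l ho
  have c1 : Commute (l * w * l⁻¹) (l * s * l⁻¹) := by simpa using c.map (MulAut.conj l)
  have n : l * w * l⁻¹ ≠ 1 := by simpa using hw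
  suffices k : ∃ r ∈ NG L (l * s * l⁻¹) (l * w * l⁻¹), r * r = 1 ∧ r ≠ 1 ∧ r ≠ l * s * l⁻¹ by
    obtain ⟨r, r1, r2, r3, r4⟩ := k
    refine ⟨_, conj_NG r1, by simp [mul_assoc, ← mul_assoc r, r2], by simpa [inv_mul_eq_one, mul_assoc] using r3,
      fun e => r4 (by rw [← e]; group)⟩
  rcases e with e | e | e | e <;> rw [e] at c1 ⊢
  · exact (nrm_a o c1 n).imp fun r h => ⟨h.1, h.2.1, h.2.2.1, h.2.2.2.1⟩
  · obtain ⟨r, r1, r2, r3, -, r4⟩ := nrm_a o (comm_mul_t.1 c1) n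
    exact ⟨r, by simpa only [NG, comm_mul_t] using r1, r2, r3, r4⟩
  · exact nrm_b o c1 n
  · exact nrm_c o c1 n

/-- the conclusion of `fix_X` -/
def FixC (s y : X) : Prop := (y = 1 ∨ y = t ∨ y = s ∨ y = s * t) ∨
  (y * y = 1 ∧ (∃ l ∈ L, Commute y l ∧ ¬Commute l s) ∧ ∃ a ∈ L, Commute a s ∧ ¬Commute y a)

theorem fix_a {y : X} (h : ∀ v ∈ WG L xa, Two v → Commute y v) : FixC xa y := by
  obtain ⟨z, hz, e | e⟩ := cent_a h
  · exact Or.inl (by simpa [e] using hz)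
  have n : ∀ {g h : X}, ¬(∀ j i, (ap (g * h) (fr j) : V) i = (ap (h * g) (fr j) : V) i) → ¬Commute g h :=
    fun k e => k fun j i => by rw [e.eq]
  refine Or.inr ⟨?_, ?_, sg {0, 2} (by decide), sg_mem_L _ _, sg_comm _ _ _ _, ?_⟩ <;>
    simp only [List.mem_cons, List.not_mem_nil, or_false] at hz <;> subst e
  · rcases hz with rfl | rfl | rfl | rfl <;> exact ext_dec (by decide)
  · have h1 : Commute xr (rf (fr 1) * rf (rt [1, 1, 1, 1, 1, 1, 1, 1])) :=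
      xr_eq ▸ (rf_comm (by decide)).mul_right (rf_comm (by decide))
    have h2 : Commute (xa * xr) (rf (fr 0) * rf (rt [1, -1, 1, -1, 1, 1, 1, 1])) := by
      rw [ext_dec (g := xa * xr) (h := rf (fr 1)) (by decide)]
      exact (rf_comm (by decide)).mul_right (rf_comm (by decide))
    rcases hz with rfl | rfl | rfl | rfl
    · exact ⟨_, rf_mul_rf_mem _ _, by rwa [one_mul], n (by decide +kernel)⟩
    · exact ⟨_, rf_mul_rf_mem _ _, (t_comm _).symm.mul_left h1, n (by decide +kernel)⟩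
    · exact ⟨_, rf_mul_rf_mem _ _, h2, n (by decide +kernel)⟩
    · exact ⟨_, rf_mul_rf_mem _ _, by
        rw [mul_assoc, ← (t_comm _).eq, ← mul_assoc]; exact h2.mul_left (t_comm _).symm, n (by decide +kernel)⟩
  · rcases hz with rfl | rfl | rfl | rfl <;> exact n (by decide)

theorem fix_X {s y : X} (hs : s ∈ L) (h : s * s = 1) (h1 : s ≠ 1) (h2 : s ≠ t)
    (hy : ∀ v ∈ WG L s, Two v → Commute y v) : FixC s y := by
  obtain ⟨l, -, e⟩ := cls_L hs h h1 h2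
  have k1 : ∀ v ∈ WG L (l * s * l⁻¹), Two v → Commute (l * y * l⁻¹) v := fun v hv h2 =>
    (comm_conj.2 (hy _ (by simpa [mul_assoc] using conj_mem_WG (g := l⁻¹) hv)
      (by simpa using two_conj l⁻¹ h2)).symm).symm
  suffices k : FixC (l * s * l⁻¹) (l * y * l⁻¹) by
    refine k.imp (fun k => ?_) fun ⟨k1, ⟨m, m1, m2, m3⟩, a, a1, a2, a3⟩ => ⟨by simpa using k1,
      ⟨l⁻¹ * m * l, by simpa using conj_mem_L (g := l⁻¹).2 m1, (comm_conj.1 m2.symm).symm, mt comm_conj.2 m3⟩,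
      l⁻¹ * a * l, by simpa using conj_mem_L (g := l⁻¹).2 a1, comm_conj.1 a2,
      fun x => a3 (comm_conj.2 x.symm).symm⟩
    rw [← conj_t l, conj_mul] at k
    simpa using k
  rcases e with e | e | e | e <;> rw [e] at k1 ⊢
  · exact fix_a k1
  · rw [WG_mul_t] at k1
    refine (fix_a k1).imp (fun k => ?_) fun k => by simpa only [comm_mul_t] using k
    rw [mul_assoc xa, t_sq, mul_one]
    tauto
  · exact Or.inl (by simpa using cent_b k1)
  · exact Or.inl (by simpa using cent_c k1)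

theorem aut_eq_iff {φ ψ : MulAut L} {x y : X} (hx : ∀ l : L, (φ l : X) = x * l * x⁻¹)
    (hy : ∀ l : L, (ψ l : X) = y * l * y⁻¹) : φ = ψ ↔ x = y ∨ x = y * t := by
  refine ⟨fun e => (cent_L (g := y⁻¹ * x) fun l hl => ?_).imp (fun e => (inv_mul_eq_one.1 e).symm)
    inv_mul_eq_iff_eq_mul.1, fun e => MulEquiv.ext fun l => Subtype.ext ?_⟩
  · have := (hx ⟨l, hl⟩).symm.trans (e ▸ hy ⟨l, hl⟩)
    exact mul_inv_eq_iff_eq_mul.1 (by
      rw [show y⁻¹ * x * l * (y⁻¹ * x)⁻¹ = y⁻¹ * (x * l * x⁻¹) * y by group, this]; group)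
  · rw [hx, hy]
    rcases e with rfl | rfl
    · rfl
    · rw [mul_inv_rev, mul_assoc y, ← (t_comm _).eq]; group

theorem good0 : Good0 tL where
  ne e := t_ne (congrArg Subtype.val e)
  sq := Subtype.ext t_sq
  cen z := ⟨fun h => (cent_L fun l hl => (congrArg Subtype.val (mem_center_iff.1 h ⟨l, hl⟩)).symm).imp Subtype.ext
    Subtype.ext, fun h => h.elim (fun e => e ▸ one_mem _) fun e => e ▸ mem_center_iff.2 fun g => Subtype.ext (t_comm g)⟩
  out2 φ ho := by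
    obtain ⟨x, hx⟩ := aut_L φ
    have h1 : ∀ n : ℕ, ∀ l : L, ((φ ^ n) l : X) = x ^ n * l * (x ^ n)⁻¹ := fun n => by
      induction n with
      | zero => simp
      | succ n ih => intro l; rw [pow_succ', MulAut.mul_apply, hx, ih, pow_succ']; group
    obtain ⟨n, hn⟩ := ho
    have h2 : x ^ (2 * n + 1) ∈ L := by
      rcases (aut_eq_iff (h1 _) (ψ := 1) (y := 1) (by simp)).1 (hn ▸ pow_orderOf_eq_one φ) with e | e <;> rw [e]
      exacts [one_mem _, mul_mem (one_mem _) t_mem]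
    rw [pow_succ, pow_mul, pow_two, mul_mem_cancel_left (pow_mem (mul_self_mem_of_index_two index_L x) n)] at h2
    exact ⟨⟨x, h2⟩, MulEquiv.ext fun l => Subtype.ext (hx l)⟩
  nrm s w h1 h2 h3 h4 h5 := by
    by_cases e : w = 1
    · left
      rw [show Nc s w = ⊥ from eq_bot_iff.2 ((closure_le _).2 (by rintro _ ⟨a, -, rfl⟩; simp [e]))]
      simp
    obtain ⟨r, r1, r2, r3, r4⟩ := nrm_X s.2 (congrArg Subtype.val h1) (fun x => h2 (Subtype.ext x))
      (fun x => h3 (Subtype.ext x)) (w := w) (by rwa [orderOf_coe]) (h5.map L.subtype) fun x => e (Subtype.ext x)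
    rw [← map_Nc_sub] at r1
    obtain ⟨r, hr, rfl⟩ := r1
    exact Or.inr ⟨r, hr, Subtype.ext r2, fun x => r3 (congrArg Subtype.val x), fun x => r4 (congrArg Subtype.val x)⟩
  fix s φ h1 h2 h3 _ _ h6 := by
    obtain ⟨x, hx⟩ := aut_L φ
    have k : ∀ l : L, φ l = l ↔ Commute x l := fun l => by rw [Subtype.ext_iff, hx, mul_inv_eq_iff_eq_mul]; rfl
    rcases fix_X s.2 (congrArg Subtype.val h1) (fun x => h2 (Subtype.ext x)) (fun x => h3 (Subtype.ext x)) (y := x)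
      (fun v hv h2 => (k ⟨v, (WG_le hv).1⟩).1 (h6 _ (aut_conj s ▸ (mem_Wf_aut (le_normalizer s.2)).2 hv)
        (two_coe.1 h2))) with e | ⟨e, ⟨l, l1, l2, l3⟩, a, a1, a2, a3⟩
    · rw [aut_eq_iff hx (ψ := 1) (y := 1) (by simp), aut_eq_iff hx (ψ := MulAut.conj s) (y := s) fun _ => rfl, one_mul]
      tauto
    · refine Or.inr (Or.inr ⟨(aut_eq_iff (x := x * x) (y := 1) (fun l => ?_) (by simp)).2 (Or.inl e),
        ⟨⟨l, l1⟩, (k _).2 l2, fun c => l3 (c.map L.subtype)⟩, ⟨a, a1⟩, Subtype.ext a2, mt (k _).1 a3⟩)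
      rw [MulAut.mul_apply, hx, hx]; group

end CfsgLib.StdE8
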