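import Mathlib
import Cfsg.Agent.Lib.StdE8.Det

/-!
# `2^(1+6)` does not act faithfully on a space of dimension four
-/

set_option autoImplicit false

namespace CfsgLib.StdE8

open Subgroup Equiv

theorem idem_mul {A : Type*} [Ring A] {P a : A} (n : ℕ) (hP : P * P = n • P) (ha : a * a = 1)
    (c : Commute P a) : P * (1 + a) * (P * (1 + a)) = (n * 2) • (P * (1 + a)) := by
  have h1 : (1 + a) * (1 + a) = 2 • (1 + a) := by
    rw [add_mul, one_mul, mul_add, mul_one, ha, two_smul, add_comm a]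
  rw [((Commute.one_right P).add_right c).symm.mul_mul_mul_comm, hP, h1, smul_mul_smul_comm]

theorem no_extra {z : X} (hz : z * z = 1) (h0 : tr z = 0) (α β : Fin 3 → X) (h1 : ∀ i, α i * α i = 1)
    (h2 : ∀ i, Commute (α i) z) (h3 : ∀ i, Commute (β i) z) (h4 : ∀ i j, Commute (α i) (α j))
    (h5 : ∀ i j, i ≠ j → Commute (β i) (α j))
    (h6 : ∀ i, β i * α i * (β i)⁻¹ = α i * t ∨ β i * α i * (β i)⁻¹ = α i * (z * t)) : False := by
  have sq : ∀ {x : X}, x * x = 1 → mat x * mat x = 1 := fun h => by rw [← map_mul, h, map_one]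
  have one : ∀ {x y : X}, Commute x y → Commute (mat x) (1 + mat y) := fun h =>
    (Commute.one_right _).add_right (h.map mat)
  have key : ∀ i M, Commute (mat (β i)) M → M * mat z = M →
      (M * (1 + mat (α i))).trace = M.trace := fun i M c e => by
    have e1 : (M * mat (β i * α i * (β i)⁻¹)).trace = (M * mat (α i)).trace := by
      rw [map_mul, map_mul, ← mul_assoc, Matrix.trace_mul_comm, ← mul_assoc M, ← c.eq, ← mul_assoc,
        ← mul_assoc, ← map_mul, inv_mul_cancel, map_one, one_mul]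
    have e2 : M * mat (β i * α i * (β i)⁻¹) = -(M * mat (α i)) := by
      rcases h6 i with h | h <;> rw [h]
      · rw [map_mul, mat_t, mul_neg_one, mul_neg]
      · rw [← mul_assoc, (h2 i).eq, map_mul, map_mul, mat_t, mul_neg_one, mul_neg, ← mul_assoc, e]
    rw [e2, Matrix.trace_neg] at e1
    rw [mul_add, mul_one, Matrix.trace_add]
    linarith
  have p0 : (1 + mat z) * mat z = 1 + mat z := by rw [add_mul, one_mul, sq hz, add_comm]
  have p1 : ∀ i M, M * mat z = M → M * (1 + mat (α i)) * mat z = M * (1 + mat (α i)) := fun i M e => by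
    rw [mul_assoc, ← (one (h2 i).symm).eq, ← mul_assoc, e]
  have t1 : ((1 + mat z) * (1 + mat (α 0)) * (1 + mat (α 1)) * (1 + mat (α 2))).trace = 8 := by
    rw [key 2 _ (((one (h3 2)).mul_right (one (h5 2 0 (by decide)))).mul_right (one (h5 2 1 (by decide))))
      (p1 _ _ (p1 _ _ p0)), key 1 _ ((one (h3 1)).mul_right (one (h5 1 0 (by decide)))) (p1 _ _ p0),
      key 0 _ (one (h3 0)) p0, Matrix.trace_add, trace_mat, h0]
    simp
  have t2 := idem_mul _ (idem_mul _ (idem_mul _ (by simpa using idem_mul (P := 1) 1 (by simp) (sq hz) (by simp) :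
    (1 + mat z) * (1 + mat z) = 2 • (1 + mat z)) (sq (h1 0)) (one (h2 0)).symm) (sq (h1 1))
    ((one (h2 1)).mul_right (one (h4 1 0))).symm) (sq (h1 2))
    (((one (h2 2)).mul_right (one (h4 2 0))).mul_right (one (h4 2 1))).symm
  generalize (1 + mat z) * (1 + mat (α 0)) * (1 + mat (α 1)) * (1 + mat (α 2)) = E at t1 t2
  have t3 : IsIdempotentElem (Matrix.toLin' ((16 : ℚ)⁻¹ • E)) := by
    rw [IsIdempotentElem, Module.End.mul_eq_comp, ← Matrix.toLin'_mul, smul_mul_smul_comm, t2,
      ← Nat.cast_smul_eq_nsmul ℚ, smul_smul]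
    norm_num
  have t4 := (LinearMap.IsIdempotentElem.isProj_range _ t3).trace
  rw [Matrix.trace_toLin'_eq, Matrix.trace_smul, t1] at t4
  have t5 : (1 : ℚ) = 2 * Module.finrank ℚ (LinearMap.range (Matrix.toLin' ((16 : ℚ)⁻¹ • E))) := by
    rw [← t4]; norm_num
  norm_cast at t5
  omega

end CfsgLib.StdE8
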